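import Cfsg.Agent.Lib.Char.Scalar
import Cfsg.Agent.Lib.Char.Linear
import Cfsg.Agent.Lib.Char.Integral
import Cfsg.Agent.Lib.CharTools.Basic
import Cfsg.Agent.Lib.Ito

/-!
# Characters over a faithful character of a central subgroup
-/

namespace Cfsg.Agent.Lib.Block.CentralRamified

open Cfsg Cfsg.Agent.Lib
open scoped ComplexConjugate

universe u

variable {G : Type u} [Group G] [Fintype G] (N : Subgroup G) [Fintype N]

/-- Lying over a linear character of a central subgroup means restricting to a multiple of it. -/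
theorem over_iff (hN : N ≤ Subgroup.center G) (l : N →* ℂˣ) (χ : IrrCharacter G) :
    classInner (fun n : N => (χ : G → ℂ) n) (fun n => (l n : ℂ)) ≠ 0 ↔
      ∀ m : N, (χ : G → ℂ) m = (χ : G → ℂ) 1 * (l m : ℂ) := by
  classical
  have hc := Char.isCharacter_of_isIrr χ.2
  have hd0 : (χ : G → ℂ) 1 ≠ 0 := Char.irr_degree_ne_zero χ.2
  have hmul : ∀ (n : ↥N) (y : G), (χ : G → ℂ) (y * n) * (χ : G → ℂ) 1
      = (χ : G → ℂ) n * (χ : G → ℂ) y := fun n y =>
    (Char.apply_mul_of_norm_eq hc (Char.norm_char_of_mem_center χ.2 (hN n.2)) y).2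
  have hconj : ∀ m : N, conj (l m : ℂ) * (l m : ℂ) = 1 := fun m => by
    rw [mul_comm, Complex.mul_conj, ← Complex.sq_norm]
    have : ‖(l m : ℂ)‖ = 1 :=
      ((Units.coeHom ℂ).comp l).isOfFinOrder (isOfFinOrder_of_finite m) |>.norm_eq_one
    simp [this]
  constructor
  · intro hover m
    unfold classInner at hover
    have hS : ∑ n : ↥N, (χ : G → ℂ) n * conj (l n : ℂ) ≠ 0 :=
      fun h => hover (by rw [h, mul_zero])
    set S := ∑ n : ↥N, (χ : G → ℂ) n * conj (l n : ℂ) with hSdef
    have h2 : (χ : G → ℂ) 1 * S = (χ : G → ℂ) m * conj (l m : ℂ) * S := by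
      conv_lhs => rw [hSdef, ← Equiv.sum_comp (Equiv.mulRight m)]
      rw [hSdef, Finset.mul_sum, Finset.mul_sum]
      refine Finset.sum_congr rfl fun n _ => ?_
      simp only [Equiv.coe_mulRight, Subgroup.coe_mul, map_mul, Units.val_mul]
      linear_combination (conj (l n : ℂ) * conj (l m : ℂ)) * hmul m n
    rw [mul_right_cancel₀ hS h2, mul_assoc, hconj, mul_one]
  · intro h
    unfold classInner
    refine mul_ne_zero (inv_ne_zero (Nat.cast_ne_zero.2 Nat.card_pos.ne')) ?_
    rw [Finset.sum_congr rfl fun (n : N) _ => show (χ : G → ℂ) n * conj (l n : ℂ) = (χ : G → ℂ) 1 by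
      rw [h, mul_assoc, mul_comm (l n : ℂ), hconj, mul_one], Finset.sum_const, nsmul_eq_mul]
    exact mul_ne_zero (Nat.cast_ne_zero.2 (Finset.card_pos.2 ⟨1, Finset.mem_univ _⟩).ne') hd0

/-- `g` is special when it commutes with everything centralizing its coset. -/
def Special (g : G) : Prop := ∀ x : G, x⁻¹ * g⁻¹ * x * g ∈ N → x * g = g * x

theorem sum_normSq_over (hN : N ≤ Subgroup.center G) (l : N →* ℂˣ) (hl : Function.Injective l)
    (T : Finset (IrrCharacter G))
    (hT : ∀ χ, χ ∈ T ↔ classInner (fun n : N => (χ : G → ℂ) n) (fun n => (l n : ℂ)) ≠ 0)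
    (g : G) [Decidable (Special N g)] :
    (Nat.card N : ℂ) * ∑ χ ∈ T, (χ : G → ℂ) g * conj ((χ : G → ℂ) g) =
      if Special N g then (Nat.card (Subgroup.centralizer ({g} : Set G)) : ℂ) else 0 := by
  classical
  have hmul : ∀ (χ : IrrCharacter G) (n : ↥N) (y : G), (χ : G → ℂ) (y * n) * (χ : G → ℂ) 1
      = (χ : G → ℂ) n * (χ : G → ℂ) y := fun χ n y =>
    (Char.apply_mul_of_norm_eq (Char.isCharacter_of_isIrr χ.2)
      (Char.norm_char_of_mem_center χ.2 (hN n.2)) y).2
  split_ifs with hs
  · -- the projection to the characters over `l`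
    have hproj : ∀ χ : IrrCharacter G,
        (∑ n : N, conj (l n : ℂ) * (χ : G → ℂ) n) =
          if χ ∈ T then (Nat.card N : ℂ) * (χ : G → ℂ) 1 else 0 := by
      intro χ
      split_ifs with h
      · rw [Finset.sum_congr rfl fun n _ => show conj (l n : ℂ) * (χ : G → ℂ) n = (χ : G → ℂ) 1 by
          have hl1 : ‖(l n : ℂ)‖ = 1 :=
            ((Units.coeHom ℂ).comp l).isOfFinOrder (isOfFinOrder_of_finite n) |>.norm_eq_one
          rw [((over_iff N hN l χ).1 ((hT χ).1 h)) n, mul_comm, mul_assoc, Complex.mul_conj,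
            ← Complex.sq_norm, hl1]
          simp, Finset.sum_const, nsmul_eq_mul, Nat.card_eq_fintype_card, Finset.card_univ]
      · have h0 : classInner (fun n : N => (χ : G → ℂ) n) (fun n => (l n : ℂ)) = 0 :=
          not_not.1 fun h0 => h ((hT χ).2 h0)
        unfold classInner at h0
        rw [mul_eq_zero, or_iff_right (inv_ne_zero (Nat.cast_ne_zero.2 Nat.card_pos.ne'))] at h0
        rw [← h0]
        exact Finset.sum_congr rfl fun n _ => mul_comm _ _
    have key : ∑ n : N, conj (l n : ℂ) * ∑ χ : IrrCharacter G, (χ : G → ℂ) (g * n) * conj ((χ : G → ℂ) g)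
        = (Nat.card N : ℂ) * ∑ χ ∈ T, (χ : G → ℂ) g * conj ((χ : G → ℂ) g) := by
      rw [Finset.mul_sum, Finset.sum_congr rfl fun n _ => Finset.mul_sum _ _ _, Finset.sum_comm,
        ← Finset.sum_filter_of_ne (s := Finset.univ) (p := fun χ => χ ∈ T), Finset.filter_univ_mem]
      · refine Finset.sum_congr rfl fun χ hχ => ?_
        have hd0 : (χ : G → ℂ) 1 ≠ 0 := Char.irr_degree_ne_zero χ.2
        rw [Finset.sum_congr rfl fun n _ => show conj (l n : ℂ) *
            ((χ : G → ℂ) (g * n) * conj ((χ : G → ℂ) g)) = (conj (l n : ℂ) * (χ : G → ℂ) n) *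
              ((χ : G → ℂ) g * conj ((χ : G → ℂ) g) / (χ : G → ℂ) 1) by
          rw [mul_div_assoc', eq_div_iff hd0]
          linear_combination (conj (l n : ℂ) * conj ((χ : G → ℂ) g)) * hmul χ n g,
          ← Finset.sum_mul, hproj, if_pos hχ]
        field_simp
      · intro χ _ hne
        by_contra hχ
        refine hne ?_
        have hd0 : (χ : G → ℂ) 1 ≠ 0 := Char.irr_degree_ne_zero χ.2
        rw [Finset.sum_congr rfl fun n _ => show conj (l n : ℂ) *
            ((χ : G → ℂ) (g * n) * conj ((χ : G → ℂ) g)) = (conj (l n : ℂ) * (χ : G → ℂ) n) *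
              ((χ : G → ℂ) g * conj ((χ : G → ℂ) g) / (χ : G → ℂ) 1) by
          rw [mul_div_assoc', eq_div_iff hd0]
          linear_combination (conj (l n : ℂ) * conj ((χ : G → ℂ) g)) * hmul χ n g,
          ← Finset.sum_mul, hproj, if_neg hχ, zero_mul]
    rw [← key, Finset.sum_congr rfl fun n _ => by rw [CharTools.sum_irr_mul_conj'],
      Finset.sum_eq_single (1 : N)]
    · rw [OneMemClass.coe_one, mul_one, if_pos (IsConj.refl g), map_one, Units.val_one, map_one,
        one_mul]
    · intro n _ hn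
      rw [if_neg, mul_zero]
      intro hc
      obtain ⟨c, hc⟩ := isConj_iff.1 hc.symm
      apply hn
      have h2 : c⁻¹⁻¹ * g⁻¹ * c⁻¹ * g = (n : G)⁻¹ := by
        have : c * g⁻¹ * c⁻¹ = (n : G)⁻¹ * g⁻¹ := by
          rw [show c * g⁻¹ * c⁻¹ = (c * g * c⁻¹)⁻¹ by group, hc, mul_inv_rev]
        rw [inv_inv, this, inv_mul_cancel_right]
      have h3 := hs c⁻¹ (by rw [h2]; exact N.inv_mem n.2)
      refine Subtype.ext ?_
      have h4 : c * g * c⁻¹ = g := by
        rw [mul_assoc, ← h3, mul_inv_cancel_left]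
      rw [h4, eq_comm, mul_eq_left] at hc
      exact hc
    · simp
  · refine mul_eq_zero_of_right _ (Finset.sum_eq_zero fun χ hχ => ?_)
    suffices h : (χ : G → ℂ) g = 0 by rw [h, zero_mul]
    simp only [Special, not_forall] at hs
    obtain ⟨x, hcomm, hne⟩ := hs
    have hres := (over_iff N hN l χ).1 ((hT χ).1 hχ)
    set z : N := ⟨_, hcomm⟩ with hz
    have hzC := Subgroup.mem_center_iff.1 (hN hcomm)
    have hconj : x⁻¹ * g * x = g * (z⁻¹ : N) := by
      rw [Subgroup.coe_inv, hz]
      simp [mul_assoc]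
    have h1 : (χ : G → ℂ) (g * (z⁻¹ : N)) = (χ : G → ℂ) g := by
      rw [← hconj]
      simpa using Char.isClassFunction_of_isIrr χ.2 g x⁻¹
    have h2 := hmul χ z⁻¹ g
    rw [h1, hres] at h2
    have hz1 : z⁻¹ ≠ 1 := by
      intro h
      apply hne
      have h' : x⁻¹ * g⁻¹ * x * g = 1 := congrArg Subtype.val (inv_eq_one.1 h)
      have h'' := congrArg (g * x * ·) h'
      simpa [mul_assoc] using h''
    have hlz : (l z⁻¹ : ℂ) ≠ 1 := fun h =>
      hz1 (hl (Units.ext (by simpa using h)))
    have h5 : ((l z⁻¹ : ℂ) - 1) * ((χ : G → ℂ) 1 * (χ : G → ℂ) g) = 0 := by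
      linear_combination -h2
    exact (mul_eq_zero.1 ((mul_eq_zero.1 h5).resolve_left (sub_ne_zero.2 hlz))).resolve_left
      (Char.irr_degree_ne_zero χ.2)

omit [Fintype N] in
theorem sum_special (hN : N ≤ Subgroup.center G) [N.Normal] [DecidablePred (Special N)] :
    ∑ g ∈ Finset.univ.filter (Special N), Nat.card (Subgroup.centralizer ({g} : Set G)) =
      Nat.card {C : ConjClasses (G ⧸ N) // ∃ g : G, ConjClasses.mk (g : G ⧸ N) = C ∧ Special N g} *
        (Nat.card G * Nat.card N) := by
  classical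
  haveI := Fintype.ofFinite (G ⧸ N)
  letI : DecidableEq (G ⧸ N) := Classical.decEq _
  have hcom : ∀ g x : G, x⁻¹ * g⁻¹ * x * g ∈ N ↔
      Commute (QuotientGroup.mk' N x) (QuotientGroup.mk' N g) := by
    intro g x
    rw [← QuotientGroup.eq_one_iff]
    show QuotientGroup.mk' N (x⁻¹ * g⁻¹ * x * g) = 1 ↔ _
    rw [map_mul, map_mul, map_mul, map_inv, map_inv, Commute, SemiconjBy]
    constructor
    · intro h
      have := congrArg (QuotientGroup.mk' N g * QuotientGroup.mk' N x * ·) h
      simpa [mul_assoc] using this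
    · intro h
      rw [mul_assoc, h]
      group
  have hspec : ∀ g h : G, ConjClasses.mk (g : G ⧸ N) = ConjClasses.mk (h : G ⧸ N) →
      Special N g → Special N h := by
    intro g h he hs x hx
    obtain ⟨c, hc⟩ := isConj_iff.1 (ConjClasses.mk_eq_mk_iff_isConj.1 he)
    obtain ⟨c, rfl⟩ := QuotientGroup.mk'_surjective N c
    have hn : (c * g * c⁻¹)⁻¹ * h ∈ N := by
      rw [← QuotientGroup.eq_one_iff]
      simp only [QuotientGroup.mk_mul, QuotientGroup.mk_inv, ← hc, QuotientGroup.mk'_apply]
      group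
    have hh : h = c * g * c⁻¹ * ((c * g * c⁻¹)⁻¹ * h) := by group
    have hz := Subgroup.mem_center_iff.1 (hN hn)
    set z := (c * g * c⁻¹)⁻¹ * h with hzdef
    rw [hh] at hx ⊢
    have hy : Commute (QuotientGroup.mk' N (c⁻¹ * x * c)) (QuotientGroup.mk' N g) := by
      have h1 := (hcom _ _).1 hx
      have hz1 : QuotientGroup.mk' N z = 1 := by
        rw [QuotientGroup.mk'_apply, QuotientGroup.eq_one_iff]; exact hn
      rw [map_mul, hz1, mul_one] at h1
      have h2 := h1.map (MulAut.conj (QuotientGroup.mk' N c⁻¹)).toMonoidHom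
      simpa [MulAut.conj_apply, mul_assoc] using h2
    have h3 := hs (c⁻¹ * x * c) ((hcom _ _).2 hy)
    calc x * (c * g * c⁻¹ * z) = c * ((c⁻¹ * x * c) * g) * c⁻¹ * z := by group
      _ = c * (g * (c⁻¹ * x * c)) * c⁻¹ * z := by rw [h3]
      _ = c * g * c⁻¹ * (x * z) := by group
      _ = c * g * c⁻¹ * (z * x) := by rw [hz x]
      _ = c * g * c⁻¹ * z * x := by group
  let π : G → ConjClasses (G ⧸ N) := fun g => ConjClasses.mk (g : G ⧸ N)
  set S : Finset (ConjClasses (G ⧸ N)) :=
    Finset.univ.filter (fun C => ∃ g : G, π g = C ∧ Special N g) with hS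
  have hcardS : Nat.card {C : ConjClasses (G ⧸ N) //
      ∃ g : G, ConjClasses.mk (g : G ⧸ N) = C ∧ Special N g} = S.card := by
    rw [Nat.card_eq_fintype_card, Fintype.card_subtype]
  rw [hcardS, ← smul_eq_mul S.card, ← Finset.sum_const,
    ← Finset.sum_fiberwise_of_maps_to (g := π) (t := S)]
  · refine Finset.sum_congr rfl fun C hC => ?_
    obtain ⟨g₀, rfl, hg₀⟩ := (Finset.mem_filter.1 hC).2
    have hfilter : (Finset.univ.filter (Special N)).filter (fun g => π g = π g₀) =
        Finset.univ.filter (fun g => π g = π g₀) := by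
      ext g
      simp only [Finset.mem_filter, Finset.mem_univ, true_and, and_iff_right_iff_imp]
      exact fun he => hspec g₀ g he.symm hg₀
    rw [hfilter]
    have hcent : ∀ g, π g = π g₀ → Nat.card (Subgroup.centralizer ({g} : Set G)) =
        Nat.card N * Nat.card (Subgroup.centralizer ({(g₀ : G ⧸ N)} : Set (G ⧸ N))) := by
      intro g he
      have hs := hspec g₀ g he.symm hg₀
      have heq : Subgroup.centralizer ({g} : Set G) =
          (Subgroup.centralizer ({(g : G ⧸ N)} : Set (G ⧸ N))).comap (QuotientGroup.mk' N) := by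
        ext x
        rw [Subgroup.mem_centralizer_singleton_iff, Subgroup.mem_comap,
          Subgroup.mem_centralizer_singleton_iff]
        exact ⟨fun h => (Commute.map (h : Commute x g) (QuotientGroup.mk' N)).eq,
          fun h => hs x ((hcom g x).2 h)⟩
      obtain ⟨c, hc⟩ := isConj_iff.1 (ConjClasses.mk_eq_mk_iff_isConj.1 he)
      have hidx : (Subgroup.centralizer ({(g : G ⧸ N)} : Set (G ⧸ N))).index =
          (Subgroup.centralizer ({(g₀ : G ⧸ N)} : Set (G ⧸ N))).index := by
        rw [← Char.card_conjClass_eq_index, ← Char.card_conjClass_eq_index]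
        refine congrArg Finset.card (Finset.filter_congr fun x _ => ?_)
        have hconj := ConjClasses.mk_eq_mk_iff_isConj.1 he
        exact ⟨fun h => h.trans hconj, fun h => h.trans hconj.symm⟩
      refine Nat.eq_of_mul_eq_mul_right (Nat.pos_of_ne_zero (Subgroup.index_ne_zero_of_finite
        (H := Subgroup.centralizer ({g} : Set G)))) ?_
      rw [Subgroup.card_mul_index, heq,
        Subgroup.index_comap_of_surjective _ (QuotientGroup.mk'_surjective N), hidx, mul_assoc,
        Subgroup.card_mul_index, ← Subgroup.index_eq_card, N.card_mul_index]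
    rw [Finset.sum_congr rfl fun g hg => hcent g (Finset.mem_filter.1 hg).2, Finset.sum_const,
      smul_eq_mul]
    have hfib : (Finset.univ.filter (fun g => π g = π g₀)).card =
        Nat.card N * (Subgroup.centralizer ({(g₀ : G ⧸ N)} : Set (G ⧸ N))).index := by
      have hix : (Subgroup.centralizer ({(g₀ : G ⧸ N)} : Set (G ⧸ N))).index =
          (Finset.univ.filter fun x => IsConj x (g₀ : G ⧸ N)).card := by
        rw [← Char.card_conjClass_eq_index]
      rw [hix, Finset.card_eq_sum_card_fiberwise (f := fun g : G => (g : G ⧸ N))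
          (t := Finset.univ.filter fun x => IsConj x (g₀ : G ⧸ N))]
      · rw [Finset.sum_congr rfl (g := fun _ => Nat.card N), Finset.sum_const, smul_eq_mul, mul_comm]
        intro q hq
        obtain ⟨g, rfl⟩ := QuotientGroup.mk'_surjective N q
        have h1 : (Finset.univ.filter (fun g => π g = π g₀)).filter
            (fun a : G => (a : G ⧸ N) = QuotientGroup.mk' N g) =
            Finset.univ.image (fun n : N => g * (n : G)) := by
          ext a
          rw [Finset.mem_filter, Finset.mem_filter, Finset.mem_image]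
          simp only [Finset.mem_univ, true_and, QuotientGroup.mk'_apply]
          constructor
          · rintro ⟨-, ha⟩
            exact ⟨⟨g⁻¹ * a, QuotientGroup.eq.1 ha.symm⟩, by simp⟩
          · rintro ⟨n, rfl⟩
            have : ((g * (n : G) : G) : G ⧸ N) = g :=
              QuotientGroup.eq.2 (by simp)
            refine ⟨?_, this⟩
            show ConjClasses.mk ((g * (n : G) : G) : G ⧸ N) = _
            rw [this]
            exact ConjClasses.mk_eq_mk_iff_isConj.2 (Finset.mem_filter.1 hq).2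
        rw [h1, Finset.card_image_of_injective _
          (fun a b h => Subtype.ext (mul_left_cancel h)), Finset.card_univ, Nat.card_eq_fintype_card]
      · intro g hg
        simp only [Finset.coe_filter, Finset.mem_univ, true_and, Set.mem_ofPred_eq] at hg ⊢
        exact ConjClasses.mk_eq_mk_iff_isConj.1 hg
    rw [hfib, ← N.card_mul_index, Subgroup.index_eq_card N,
      ← (Subgroup.centralizer ({(g₀ : G ⧸ N)} : Set (G ⧸ N))).card_mul_index]
    ring
  · intro g hg
    exact Finset.mem_filter.2 ⟨Finset.mem_univ _, g, rfl, (Finset.mem_filter.1 hg).2⟩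

end Cfsg.Agent.Lib.Block.CentralRamified
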