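import Cfsg.Agent.Lib.Block.PrincipalRestrict

/-!
# Extensions into the principal block over a normal subgroup covered by a Sylow centraliser

If `G = N C(P)` for a Sylow subgroup `P` of `N`, an extendible character of the principal block of `N`
has an extension whose restrictions to the subgroups over `N` stay in the principal block.
-/

namespace Cfsg.Agent.Lib.Block.CoverExtend

open Cfsg Cfsg.Agent.Lib.Block.PrincipalRestrict

set_option linter.unusedSectionVars false
set_option linter.style.haveILetI false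

universe u

/-- Sums over all subgroups from sums over the cyclic subgroups of order prime to `p`. -/
theorem sum_mem_of_cyclic {Γ : Type*} [Group Γ] [Finite Γ] (p : ℕ) (Z : AddSubgroup ℂ) (S : Γ → ℂ)
    (h0 : ∀ γ, p ∣ orderOf γ → S γ = 0)
    (hc : ∀ γ : Γ, ¬ p ∣ orderOf γ → ∑ᶠ δ : Subgroup.zpowers γ, S δ ∈ Z) :
    ∑ᶠ δ : Γ, S δ ∈ Z := by
  classical
  haveI := Fintype.ofFinite Γ
  haveI := Fintype.ofFinite (Subgroup Γ)
  have key : ∀ (m : ℕ) (C : Subgroup Γ), Nat.card C ≤ m →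
      (∑ δ ∈ Finset.univ.filter (fun δ : Γ => Subgroup.zpowers δ = C), S δ) ∈ Z := by
    intro m
    induction m with
    | zero => exact fun C hC => absurd hC (by have := Nat.card_pos (α := C); omega)
    | succ m IH =>
      intro C hC
      by_cases hne : ∀ δ : Γ, Subgroup.zpowers δ ≠ C
      · rw [Finset.filter_false_of_mem (fun δ _ => hne δ), Finset.sum_empty]
        exact Z.zero_mem
      push Not at hne
      obtain ⟨γ, rfl⟩ := hne
      by_cases hreg : p ∣ orderOf γ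
      · refine Z.sum_mem fun δ hδ => ?_
        rw [Finset.mem_filter] at hδ
        rw [h0 δ (by rwa [← Nat.card_zpowers, hδ.2, Nat.card_zpowers]), ]
        exact Z.zero_mem
      set U := Finset.univ.filter (fun δ : Γ => δ ∈ Subgroup.zpowers γ) with hU
      have htot : ∑ δ ∈ U, S δ ∈ Z := by
        have h := hc γ hreg
        rwa [finsum_eq_sum_of_fintype, ← Finset.sum_subtype U (fun δ => by simp [hU]) S] at h
      have hmaps : ∀ δ ∈ U, Subgroup.zpowers δ ∈
          Finset.univ.filter (fun D : Subgroup Γ => D ≤ Subgroup.zpowers γ) := fun δ hδ => by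
        simpa [hU, Subgroup.zpowers_le] using hδ
      rw [← Finset.sum_fiberwise_of_maps_to hmaps S] at htot
      have hfib : ∀ D : Subgroup Γ, D ≤ Subgroup.zpowers γ →
          U.filter (fun δ => Subgroup.zpowers δ = D) =
            Finset.univ.filter (fun δ : Γ => Subgroup.zpowers δ = D) := by
        intro D hD
        ext δ
        simp only [hU, Finset.mem_filter, Finset.mem_univ, true_and, and_iff_right_iff_imp]
        exact fun h => hD (h ▸ Subgroup.mem_zpowers δ)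
      have hself : Subgroup.zpowers γ ∈
          Finset.univ.filter (fun D : Subgroup Γ => D ≤ Subgroup.zpowers γ) := by simp
      rw [← Finset.add_sum_erase _ _ hself, hfib _ le_rfl] at htot
      refine (Z.add_mem_cancel_right (Z.sum_mem fun D hD => ?_)).1 htot
      rw [Finset.mem_erase, Finset.mem_filter] at hD
      rw [hfib D hD.2.2]
      refine IH D ?_
      have hlt : D < Subgroup.zpowers γ := lt_of_le_of_ne hD.2.2 hD.1
      by_contra hgt
      exact hlt.ne (Subgroup.eq_of_le_of_card_ge hlt.le (by omega))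
  rw [finsum_eq_sum_of_fintype, ← Finset.sum_fiberwise_of_maps_to
    (t := (Finset.univ : Finset (Subgroup Γ))) (g := fun δ : Γ => Subgroup.zpowers δ)
    (fun _ _ => Finset.mem_univ _) S]
  exact Z.sum_mem fun C _ => key _ C le_rfl

/-- An exponent extracting the parts of order prime to `p`. -/
theorem exists_exp {p : ℕ} (hp : p.Prime) (Γ : Type*) [Group Γ] [Finite Γ] :
    ∃ e : ℕ, ∀ γ : Γ, (¬ p ∣ orderOf (γ ^ e)) ∧ (¬ p ∣ orderOf γ → γ ^ e = γ) ∧
      ((∃ k, orderOf γ = p ^ k) → γ ^ e = 1) := by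
  obtain ⟨A, m, hm, hn⟩ := Nat.exists_eq_pow_mul_and_not_dvd (Nat.card_pos (α := Γ)).ne' p hp.ne_one
  have hcop : Nat.Coprime m (p ^ A) :=
    Nat.Coprime.pow_right A (Nat.coprime_comm.1 ((Nat.Prime.coprime_iff_not_dvd hp).2 hm))
  obtain ⟨e, he1, he0⟩ := Nat.chineseRemainder hcop 1 0
  have hpe : p ^ A ∣ e := Nat.modEq_zero_iff_dvd.1 he0
  refine ⟨e, fun γ => ?_⟩
  have hd : orderOf γ ∣ p ^ A * m := hn ▸ orderOf_dvd_natCard γ
  refine ⟨fun h => ?_, fun h => ?_, ?_⟩
  · refine hm (h.trans (orderOf_dvd_of_pow_eq_one ?_))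
    rw [← pow_mul]
    exact orderOf_dvd_iff_pow_eq_one.1 (hd.trans (Nat.mul_dvd_mul_right hpe m))
  · have h1 : orderOf γ ∣ m :=
      (((Nat.Prime.coprime_iff_not_dvd hp).2 h).symm.pow_right A).dvd_of_dvd_mul_left hd
    calc γ ^ e = γ ^ 1 := pow_eq_pow_iff_modEq.2 (he1.of_dvd h1)
      _ = γ := pow_one γ
  · rintro ⟨k, hk⟩
    refine orderOf_dvd_iff_pow_eq_one.1 ?_
    rw [hk] at hd ⊢
    exact ((Nat.Coprime.pow_left k ((Nat.Prime.coprime_iff_not_dvd hp).2 hm)).dvd_of_dvd_mul_right hd).trans hpe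

/-- The power map of `exists_exp` is multiplicative on elementary subgroups. -/
theorem pow_mul_of_elementary {p q : ℕ} (hp : p.Prime) (hq : q.Prime) {Γ : Type*} [Group Γ] [Finite Γ]
    {e : ℕ} (he : ∀ γ : Γ, (¬ p ∣ orderOf (γ ^ e)) ∧ (¬ p ∣ orderOf γ → γ ^ e = γ) ∧
      ((∃ k, orderOf γ = p ^ k) → γ ^ e = 1))
    {U : Subgroup Γ} (hU : IsElementary q U) (a b : U) : (a * b) ^ e = a ^ e * b ^ e := by
  haveI : Fact q.Prime := ⟨hq⟩
  obtain ⟨x, hx, hxo, k, hk⟩ := hU
  let Q : Sylow q U := default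
  have hcardU : Nat.card U = orderOf x * q ^ k := by
    rw [← (Subgroup.zpowers x).card_mul_index, Nat.card_zpowers, hk]
  obtain ⟨j, hj⟩ := IsPGroup.iff_card.1 Q.2
  have hcopQ : Nat.Coprime (Nat.card (Subgroup.zpowers x)) (Nat.card (Q : Subgroup U)) := by
    rw [Nat.card_zpowers, hj]
    exact hxo.pow_right j
  have hjk : q ^ j = q ^ k := by
    refine Nat.dvd_antisymm ?_ ?_
    · have h : q ^ j ∣ orderOf x * q ^ k := hcardU ▸ hj ▸ Subgroup.card_subgroup_dvd_card _
      exact (Nat.Coprime.pow_left j hxo.symm).dvd_of_dvd_mul_left h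
    · have h1 := (Q : Subgroup U).card_mul_index
      have h2 : ¬ q ∣ (Q : Subgroup U).index := Q.not_dvd_index
      have h3 : q ^ k ∣ q ^ j * (Q : Subgroup U).index := by
        rw [← hj, h1, hcardU]; exact dvd_mul_left _ _
      exact (Nat.Coprime.pow_left k ((Nat.Prime.coprime_iff_not_dvd hq).2 h2)).dvd_of_dvd_mul_right h3
  have hcompl : Subgroup.IsComplement' (Subgroup.zpowers x) (Q : Subgroup U) :=
    Subgroup.isComplement'_of_coprime (by rw [Nat.card_zpowers, hj, hjk, hcardU]) hcopQ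
  obtain ⟨⟨⟨u, hu⟩, ⟨v, hv⟩⟩, rfl, -⟩ := hcompl.existsUnique a
  obtain ⟨⟨⟨u', hu'⟩, ⟨w, hw⟩⟩, rfl, -⟩ := hcompl.existsUnique b
  have hcen : ∀ u ∈ Subgroup.zpowers x, ∀ y : U, Commute u y := fun u hu y =>
    (Subgroup.mem_center_iff.1 (Subgroup.zpowers_le.2 hx hu) y).symm
  have hQpow : ∀ y ∈ (Q : Subgroup U), ∃ i, orderOf (y : Γ) = q ^ i := fun y hy => by
    obtain ⟨i, hi⟩ := IsPGroup.iff_orderOf.1 Q.2 ⟨y, hy⟩
    exact ⟨i, by rwa [Subgroup.orderOf_mk, ← Subgroup.orderOf_coe] at hi⟩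
  have hvw : (v * w) ^ e = v ^ e * w ^ e := by
    by_cases hqp : q = p
    · subst hqp
      have h1 : ∀ y ∈ (Q : Subgroup U), y ^ e = 1 := fun y hy =>
        Subtype.ext ((SubmonoidClass.coe_pow y e).trans ((he y).2.2 (hQpow y hy)))
      rw [h1 _ (mul_mem hv hw), h1 _ hv, h1 _ hw, one_mul]
    · have h1 : ∀ y ∈ (Q : Subgroup U), y ^ e = y := fun y hy => by
        refine Subtype.ext ((SubmonoidClass.coe_pow y e).trans ((he y).2.1 ?_))
        obtain ⟨i, hi⟩ := hQpow y hy
        rw [hi]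
        exact fun h => hqp ((Nat.prime_dvd_prime_iff_eq hp hq).1 (hp.dvd_of_dvd_pow h)).symm
      rw [h1 _ (mul_mem hv hw), h1 _ hv, h1 _ hw]
  show (u * v * (u' * w)) ^ e = (u * v) ^ e * (u' * w) ^ e
  rw [show u * v * (u' * w) = (u * u') * (v * w) by
      rw [mul_assoc, ← mul_assoc v, ← (hcen u' hu' v).eq]; group,
    (hcen _ (mul_mem hu hu') (v * w)).mul_pow, (hcen u hu u').mul_pow, (hcen u hu v).mul_pow,
    (hcen u' hu' w).mul_pow, hvw,
    mul_assoc (u ^ e) (v ^ e), ← mul_assoc (v ^ e),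
    ← ((hcen u' hu' v).pow_pow e e).eq]
  group

variable {p : ℕ} {M : Ideal AlgInt} [M.IsPrime] {G : Type u} [Group G] [Finite G]

/-- The regular sum of a class function less the trivial character, as a function. -/
noncomputable def dev (p : ℕ) (χ : G → ℂ) (y : G) : ℂ :=
  if p ∣ orderOf y then 0 else χ y / χ 1 - 1

theorem finsum_dev (χ : IrrCharacter G) [Fintype G] :
    ∑ᶠ y, dev p (χ : G → ℂ) y =
      omega (χ : G → ℂ) (regSum p G) - omega (oneIrr G : G → ℂ) (regSum p G) := by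
  rw [finsum_eq_sum_of_fintype, omega_eq_sum, omega_eq_sum, Finset.sum_div, Finset.sum_div,
    ← Finset.sum_sub_distrib]
  refine Finset.sum_congr rfl fun y _ => ?_
  rw [coeff_regSum, dev, oneIrr_apply, oneIrr_apply]
  split_ifs <;> simp

theorem omega_regSum_mem [Fintype G] (χ : IrrCharacter G) : omega (χ : G → ℂ) (regSum p G) ∈ locRing M :=
  omega_mem_locRing χ isClassCoeff_regSum intR_regSum

/-- The local integers with zero residue. -/
noncomputable def resKer (M : Ideal AlgInt) [M.IsPrime] : AddSubgroup ℂ where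
  carrier := {z | z ∈ locRing M ∧ redC M z = 0}
  zero_mem' := ⟨zero_mem _, redC_zero⟩
  add_mem' := fun ha hb => ⟨add_mem ha.1 hb.1, by rw [redC_add ha.1 hb.1, ha.2, hb.2, add_zero]⟩
  neg_mem' := fun {a} ha => ⟨neg_mem ha.1, by
    rw [show -a = 0 - a by ring, redC_sub (zero_mem _) ha.1, redC_zero, ha.2, sub_zero]⟩

theorem mem_principal_iff_dev (hM : IsPModular p M) (χ : IrrCharacter G) :
    χ ∈ principalBlock M G ↔ (∑ᶠ y, dev p (χ : G → ℂ) y) ∈ resKer M := by
  haveI := Fintype.ofFinite G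
  rw [finsum_dev]
  constructor
  · intro h
    exact ⟨sub_mem (omega_regSum_mem χ) (omega_regSum_mem _), by
      rw [redC_sub (omega_regSum_mem χ) (omega_regSum_mem _),
        redC_omega_eq_of_sameBlock (show SameBlock M (oneIrr G : G → ℂ) (χ : G → ℂ) from h)
          isClassCoeff_regSum intR_regSum, sub_self]⟩
  · rintro ⟨-, h⟩
    rw [redC_sub (omega_regSum_mem χ) (omega_regSum_mem _), sub_eq_zero] at h
    rw [mem_principalBlock_iff hM, h]
    exact redC_omega_regSum_of_mem hM oneIrr_mem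

/-- An irreducible character is in the principal block if it is so on every subgroup whose quotient
over `N` is cyclic of order prime to `p`. -/
theorem mem_principal_of_cyclic (hM : IsPModular p M) (N : Subgroup G) [N.Normal] (χ : IrrCharacter G)
    (h : ∀ γ : G ⧸ N, ¬ p ∣ orderOf γ →
      ∃ ξ : IrrCharacter ↥((Subgroup.zpowers γ).comap (QuotientGroup.mk' N)),
        ξ ∈ principalBlock M ↥((Subgroup.zpowers γ).comap (QuotientGroup.mk' N)) ∧
          ∀ y : ↥((Subgroup.zpowers γ).comap (QuotientGroup.mk' N)),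
            (ξ : ↥((Subgroup.zpowers γ).comap (QuotientGroup.mk' N)) → ℂ) y = (χ : G → ℂ) (y : G)) :
    χ ∈ principalBlock M G := by
  classical
  haveI := Fintype.ofFinite G
  haveI := Fintype.ofFinite (G ⧸ N)
  rw [mem_principal_iff_dev hM]
  set S : G ⧸ N → ℂ := fun γ =>
    ∑ y ∈ Finset.univ.filter (fun y : G => (y : G ⧸ N) = γ), dev p (χ : G → ℂ) y with hS
  have hsum : ∑ᶠ γ, S γ = ∑ᶠ y, dev p (χ : G → ℂ) y := by
    rw [finsum_eq_sum_of_fintype, finsum_eq_sum_of_fintype]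
    exact Finset.sum_fiberwise _ _ _
  rw [← hsum]
  refine sum_mem_of_cyclic p _ S (fun γ hγ => Finset.sum_eq_zero fun y hy => ?_) fun γ hγ => ?_
  · rw [Finset.mem_filter] at hy
    rw [dev, if_pos]
    exact hγ.trans (hy.2 ▸ orderOf_map_dvd (QuotientGroup.mk' N) y)
  · obtain ⟨ξ, hξ, hξe⟩ := h γ hγ
    let H := (Subgroup.zpowers γ).comap (QuotientGroup.mk' N)
    haveI := Fintype.ofFinite H
    rw [mem_principal_iff_dev hM, finsum_eq_sum_of_fintype] at hξ
    convert hξ using 1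
    rw [finsum_eq_sum_of_fintype, hS]
    have e1 : ∀ y : H, dev p (ξ : H → ℂ) y = dev p (χ : G → ℂ) (y : G) := fun y => by
      simp only [dev, hξe, Subgroup.orderOf_coe, OneMemClass.coe_one]
    simp only [e1]
    rw [← Finset.sum_subtype (Finset.univ.filter fun y : G => y ∈ H) (fun y => by simp)
      (dev p (χ : G → ℂ)), ← Finset.sum_subtype (Finset.univ.filter fun δ => δ ∈ Subgroup.zpowers γ)
      (fun δ => by simp) (fun δ => ∑ y ∈ Finset.univ.filter (fun y : G => (y : G ⧸ N) = δ), dev p (χ : G → ℂ) y),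
      Finset.sum_fiberwise_eq_sum_filter]
    refine Finset.sum_congr (Finset.ext fun y => ?_) fun _ _ => rfl
    simp [H]

variable (M) in
/-- The linear correction `l` of the extension `ψ` on a subgroup `H` over `N`. -/
def Good {N : Subgroup G} (θ : IrrCharacter N) (ψ : IrrCharacter G) (H : Subgroup G)
    (l : H →* ℂˣ) : Prop :=
  (∀ y : H, (y : G) ∈ N → l y = 1) ∧
    ∃ η : IrrCharacter H, η ∈ principalBlock M H ∧
      (∀ (n : G) (hn : n ∈ N) (hn' : n ∈ H), (η : H → ℂ) ⟨n, hn'⟩ = (θ : N → ℂ) ⟨n, hn⟩) ∧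
      ∀ y : H, (ψ : G → ℂ) y = (l y : ℂ) * (η : H → ℂ) y

section Main

variable (N : Subgroup G) [hN : N.Normal] (P : Subgroup G)

theorem hyp_over (hPp : IsPGroup p P) (hPN : P ≤ N) (hPs : ¬ p ∣ P.relIndex N)
    (hcov : N ⊔ Subgroup.centralizer (P : Set G) = ⊤) {H : Subgroup G} (hNH : N ≤ H)
    (hH : ¬ p ∣ N.relIndex H) (hp : p.Prime) : Hyp p (N.subgroupOf H) (P.subgroupOf H) := by
  refine ⟨inferInstance, hPp.comap_of_injective _ (Subgroup.subtype_injective _),
    Subgroup.comap_mono hPN, fun hd => ?_, eq_top_iff.2 fun x _ => ?_⟩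
  · rw [show (P.subgroupOf H).index = P.relIndex H from rfl,
      ← Subgroup.relIndex_mul_relIndex P N H hPN hNH] at hd
    rcases hp.dvd_mul.1 hd with h | h
    · exact hPs h
    · exact hH h
  · obtain ⟨r, hr, c, hc, hrc⟩ := Subgroup.mem_sup_of_normal_left.1
      (hcov.ge (Subgroup.mem_top (x : G)))
    have hcH : c ∈ H := by
      rw [show c = r⁻¹ * x by rw [← hrc, inv_mul_cancel_left]]
      exact mul_mem (inv_mem (hNH hr)) x.2
    rw [show x = (⟨r, hNH hr⟩ : H) * ⟨c, hcH⟩ from Subtype.ext hrc.symm]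
    refine Subgroup.mul_mem_sup (Subgroup.mem_subgroupOf.2 hr) (Subgroup.mem_centralizer_iff.2 ?_)
    intro y hy
    exact Subtype.ext (Subgroup.mem_centralizer_iff.1 hc y (Subgroup.mem_subgroupOf.1 hy))

variable (θ : IrrCharacter N) (ψ : IrrCharacter G)

theorem exists_good (hM : IsPModular p M) (hθ : θ ∈ principalBlock M N)
    (hψ : ∀ n : N, (ψ : G → ℂ) n = (θ : N → ℂ) n) {H : Subgroup G} (hNH : N ≤ H)
    (hyp : Hyp p (N.subgroupOf H) (P.subgroupOf H)) : ∃ l, Good M θ ψ H l := by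
  classical
  haveI := Fintype.ofFinite G
  haveI := Fintype.ofFinite H
  haveI := Fintype.ofFinite (N.subgroupOf H)
  haveI := hyp.normal
  set θ' := BrauerPairs.mapIrr (Subgroup.subgroupOfEquivOfLe hNH).symm θ with hθ'
  have hθ'v : ∀ n : N.subgroupOf H, (θ' : N.subgroupOf H → ℂ) n =
      (θ : N → ℂ) ⟨((n : H) : G), Subgroup.mem_subgroupOf.1 n.2⟩ := by
    intro n
    obtain ⟨r, rfl⟩ := (Subgroup.subgroupOfEquivOfLe hNH).symm.surjective n
    rw [hθ', BrauerPairs.mapIrr_apply]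
    rfl
  obtain ⟨η, ⟨hη, hηr⟩, -⟩ := (restriction_bijective hM hyp).2 θ'
    ((mapIrr_mem_principal_iff _).2 hθ)
  have hirr : IsIrrCharacter H (fun y : H => (ψ : G → ℂ) y) :=
    isIrr_of_pullback (N.subgroupOf H).subtype
      (Char.isCharacter_restrict (Char.isCharacter_of_isIrr ψ.2) H) (by
        rw [show (fun n : N.subgroupOf H => (ψ : G → ℂ) (((N.subgroupOf H).subtype n : H) : G)) =
          (θ' : N.subgroupOf H → ℂ) from funext fun n => by
            rw [hθ'v n, ← hψ]; rfl]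
        exact θ'.2)
  obtain ⟨l, hl, hle⟩ := CharClifford.extension_unique_mul_linear (N.subgroupOf H) θ'.2 η.2 hηr hirr
    (fun n => by rw [hθ'v n, ← hψ])
  refine ⟨l, fun y hy => hl ⟨y, hy⟩, η, hη, fun n hn hn' => ?_, fun y => congrFun hle y⟩
  exact (hηr ⟨⟨n, hn'⟩, hn⟩).trans (hθ'v _)

theorem good_unique (hM : IsPModular p M) {H : Subgroup G} (hNH : N ≤ H)
    (hyp : Hyp p (N.subgroupOf H) (P.subgroupOf H))
    {l l' : H →* ℂˣ} (h : Good M θ ψ H l) (h' : Good M θ ψ H l') : l = l' := by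
  classical
  haveI := Fintype.ofFinite (N.subgroupOf H)
  haveI := Fintype.ofFinite H
  haveI := hyp.normal
  obtain ⟨hl, η, hη, hηr, he⟩ := h
  obtain ⟨hl', η', hη', hηr', he'⟩ := h'
  have hθi : IsIrrCharacter (N.subgroupOf H) (fun n : N.subgroupOf H => (η : H → ℂ) n) := by
    have e : (fun n : N.subgroupOf H => (η : H → ℂ) n) =
        (BrauerPairs.mapIrr (Subgroup.subgroupOfEquivOfLe hNH).symm θ : N.subgroupOf H → ℂ) := by
      funext n
      obtain ⟨r, rfl⟩ := (Subgroup.subgroupOfEquivOfLe hNH).symm.surjective n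
      rw [BrauerPairs.mapIrr_apply]
      exact hηr r r.2 _
    rw [e]
    exact (BrauerPairs.mapIrr (Subgroup.subgroupOfEquivOfLe hNH).symm θ).2
  have heta : η' = η := Subtype.ext (ext_unique hM hyp hθi η'.2 η.2
    (fun n => (hηr' _ n.2 n.1.2).trans (hηr _ n.2 n.1.2).symm) (fun _ => rfl)
    (kc_of_mem hM hyp.sylow hη') (kc_of_mem hM hyp.sylow hη))
  subst heta
  let β : IrrCharacter H := ⟨_, Char.isIrrCharacter_linear (l'⁻¹ * l)⟩
  have hb : ∀ n ∈ N.subgroupOf H, (β : H → ℂ) n = (β : H → ℂ) 1 := fun n hn => by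
    show ((l'⁻¹ * l) n : ℂ) = ((l'⁻¹ * l) 1 : ℂ)
    rw [map_one, MonoidHom.mul_apply, MonoidHom.inv_apply, hl n hn, hl' n hn, inv_one, one_mul]
  have hmul : (η' : H → ℂ) = (β : H → ℂ) * (η' : H → ℂ) := by
    funext y
    have h2 := (he y).symm.trans (he' y)
    show _ = ((l'⁻¹ * l) y : ℂ) * _
    rw [MonoidHom.mul_apply, MonoidHom.inv_apply, Units.val_mul, mul_assoc, h2, ← mul_assoc,
      Units.inv_mul, one_mul]
  have h1 := eq_one_of_kc hM hyp β hb (kc_div hM β (not_dvd_degree_of_trivial hyp β hb) hmul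
    (kc_of_mem hM hyp.sylow hη') (kc_of_mem hM hyp.sylow hη'))
  refine MonoidHom.ext fun y => ?_
  have h2 : ((l'⁻¹ * l) y : ℂ) = 1 := congrFun (congrArg Subtype.val h1) y
  rw [MonoidHom.mul_apply, MonoidHom.inv_apply, Units.val_eq_one, inv_mul_eq_one] at h2
  exact h2.symm

theorem good_restrict (hM : IsPModular p M) (hθ : θ ∈ principalBlock M N) {H K : Subgroup G}
    (hNH : N ≤ H) (hHK : H ≤ K) (hPN : P ≤ N)
    (hyp : Hyp p (N.subgroupOf H) (P.subgroupOf H)) (hypK : Hyp p (N.subgroupOf K) (P.subgroupOf K))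
    {l : K →* ℂˣ} (h : Good M θ ψ K l) : Good M θ ψ H (l.comp (Subgroup.inclusion hHK)) := by
  classical
  haveI := Fintype.ofFinite G
  haveI := Fintype.ofFinite (N.subgroupOf H)
  haveI := Fintype.ofFinite H
  haveI := hyp.normal
  obtain ⟨hl, η, hη, hηr, he⟩ := h
  set θ' := BrauerPairs.mapIrr (Subgroup.subgroupOfEquivOfLe hNH).symm θ with hθ'
  have hres : ∀ n : N.subgroupOf H,
      (η : K → ℂ) (Subgroup.inclusion hHK n) = (θ' : N.subgroupOf H → ℂ) n := by
    intro n
    obtain ⟨r, rfl⟩ := (Subgroup.subgroupOfEquivOfLe hNH).symm.surjective n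
    rw [hθ', BrauerPairs.mapIrr_apply]
    exact hηr r r.2 _
  have hirr : IsIrrCharacter H (fun y : H => (η : K → ℂ) (Subgroup.inclusion hHK y)) :=
    isIrr_of_pullback (N.subgroupOf H).subtype
      (Char.isCharacter_comp (Char.isCharacter_of_isIrr η.2) _) (by
        rw [show (fun n : N.subgroupOf H =>
          (η : K → ℂ) (Subgroup.inclusion hHK ((N.subgroupOf H).subtype n))) =
          (θ' : N.subgroupOf H → ℂ) from funext hres]
        exact θ'.2)
  refine ⟨fun y hy => hl _ hy, ⟨_, hirr⟩,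
    mem_of_kc hM hyp ((mapIrr_mem_principal_iff _).2 hθ) hres (fun k hk hreg => ?_),
    fun n hn hn' => hηr n hn _, fun y => by simpa using he (Subgroup.inclusion hHK y)⟩
  show (η : K → ℂ) _ / (η : K → ℂ) (Subgroup.inclusion hHK 1) ∈ _ ∧ redC M ((η : K → ℂ) _ / (η : K → ℂ) (Subgroup.inclusion hHK 1)) = 1
  rw [map_one]
  refine kc_of_mem hM hypK.sylow hη _ (Subgroup.mem_centralizer_iff.2 fun y hy => Subtype.ext ?_) ?_
  · have h' := congrArg Subtype.val (Subgroup.mem_centralizer_iff.1 hk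
      (⟨(y : G), hNH (hPN (Subgroup.mem_subgroupOf.1 hy))⟩ : H) (Subgroup.mem_subgroupOf.1 hy))
    simpa using h'
  · rwa [← Subgroup.orderOf_coe, Subgroup.coe_inclusion, Subgroup.orderOf_coe]

theorem good_map (hψ : ∀ n : N, (ψ : G → ℂ) n = (θ : N → ℂ) n) (c : G) {H H' : Subgroup G}
    (hHH' : H.map (MulAut.conj c).toMonoidHom = H') {l : H →* ℂˣ} (h : Good M θ ψ H l) :
    Good M θ ψ H' (l.comp ((MulEquiv.subgroupMap (MulAut.conj c) H).trans
      (MulEquiv.subgroupCongr hHH')).symm.toMonoidHom) := by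
  set f := (MulEquiv.subgroupMap (MulAut.conj c) H).trans (MulEquiv.subgroupCongr hHH') with hf
  have hfv : ∀ x : H, (f x : G) = c * x * c⁻¹ := fun x => rfl
  obtain ⟨hl, η, hη, hηr, he⟩ := h
  have hclass : ∀ a b : G, (ψ : G → ℂ) (b * a * b⁻¹) = (ψ : G → ℂ) a :=
    fun a b => Char.isClassFunction_of_isIrr ψ.2 a b
  refine ⟨fun y hy => ?_, BrauerPairs.mapIrr f η, (mapIrr_mem_principal_iff f).2 hη,
    fun n hn hn' => ?_, fun y => ?_⟩
  · obtain ⟨x, rfl⟩ := f.surjective y
    simp only [MonoidHom.comp_apply, MulEquiv.coe_toMonoidHom, MulEquiv.symm_apply_apply]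
    refine hl x ?_
    rw [hfv] at hy
    simpa [mul_assoc] using hN.conj_mem _ hy c⁻¹
  · obtain ⟨x, hx⟩ := f.surjective ⟨n, hn'⟩
    rw [← hx, BrauerPairs.mapIrr_apply]
    have hxv : c * (x : G) * c⁻¹ = n := (hfv x).symm.trans (congrArg Subtype.val hx)
    have hxN : (x : G) ∈ N := by
      simpa [← hxv, mul_assoc] using hN.conj_mem _ hn c⁻¹
    rw [hηr x hxN x.2, ← hψ, ← hψ]
    show (ψ : G → ℂ) x = (ψ : G → ℂ) n
    rw [← hxv, hclass]
  · obtain ⟨x, rfl⟩ := f.surjective y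
    simp only [MonoidHom.comp_apply, MulEquiv.coe_toMonoidHom, MulEquiv.symm_apply_apply]
    rw [BrauerPairs.mapIrr_apply, hfv, hclass]
    exact he x

/-- The extension in the principal block, together with all its restrictions. -/
theorem exists_extension (hM : IsPModular p M) (hPp : IsPGroup p P) (hPN : P ≤ N)
    (hPs : ¬ p ∣ P.relIndex N) (hcov : N ⊔ Subgroup.centralizer (P : Set G) = ⊤)
    (hθ : θ ∈ principalBlock M N) (hψ : ∀ n : N, (ψ : G → ℂ) n = (θ : N → ℂ) n) :
    ∃ χ : IrrCharacter G, (∀ n : N, (χ : G → ℂ) n = (θ : N → ℂ) n) ∧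
      ∀ J : Subgroup G, N ≤ J → ∃ ξ : IrrCharacter J, ξ ∈ principalBlock M J ∧
        ∀ y : J, (ξ : J → ℂ) y = (χ : G → ℂ) y := by
  classical
  haveI := Fintype.ofFinite G
  haveI := Fintype.ofFinite (G ⧸ N)
  have hp := hM.1
  haveI : Fact p.Prime := ⟨hp⟩
  set π := QuotientGroup.mk' N with hπ
  let pre : Subgroup (G ⧸ N) → Subgroup G := fun Δ => Δ.comap π
  have hNpre : ∀ Δ, N ≤ pre Δ := fun Δ => (QuotientGroup.ker_mk' N).symm.le.trans (Subgroup.ker_le_comap _ _)
  have hhyp : ∀ Δ : Subgroup (G ⧸ N), ¬ p ∣ Nat.card Δ →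
      Hyp p (N.subgroupOf (pre Δ)) (P.subgroupOf (pre Δ)) := by
    intro Δ hΔ
    refine hyp_over N P hPp hPN hPs hcov (hNpre Δ) ?_ hp
    have e : N.relIndex (pre Δ) = Nat.card Δ := by
      have e0 : (⊥ : Subgroup (G ⧸ N)).comap π = N := by rw [MonoidHom.comap_bot, QuotientGroup.ker_mk']
      calc N.relIndex (pre Δ) = ((⊥ : Subgroup (G ⧸ N)).comap π).relIndex (pre Δ) :=
            congrArg (fun X : Subgroup G => X.relIndex (pre Δ)) e0.symm
        _ = Nat.card Δ := by
          rw [Subgroup.relIndex_comap, Subgroup.map_comap_eq_self_of_surjective (QuotientGroup.mk'_surjective N),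
            Subgroup.relIndex_bot_left]
    rwa [e]
  choose L hL using fun (Δ : Subgroup (G ⧸ N)) (hΔ : ¬ p ∣ Nat.card Δ) =>
    exists_good N P θ ψ hM hθ hψ (hNpre Δ) (hhyp Δ hΔ)
  -- compatibility
  have hsub : ∀ (Δ Δ' : Subgroup (G ⧸ N)) (hΔ : ¬ p ∣ Nat.card Δ) (hΔ' : ¬ p ∣ Nat.card Δ')
      (hle : Δ ≤ Δ') (y : pre Δ), L Δ hΔ y = L Δ' hΔ' (Subgroup.inclusion (Subgroup.comap_mono hle) y) := by
    intro Δ Δ' hΔ hΔ' hle y
    rw [good_unique N P θ ψ hM (hNpre Δ) (hhyp Δ hΔ) (hL Δ hΔ)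
      (good_restrict N P θ ψ hM hθ (hNpre Δ) (Subgroup.comap_mono hle) hPN (hhyp Δ hΔ) (hhyp Δ' hΔ')
        (hL Δ' hΔ'))]
    rfl
  obtain ⟨e, he⟩ := exists_exp hp (G ⧸ N)
  have hcyc : ∀ γ : G ⧸ N, ¬ p ∣ Nat.card (Subgroup.zpowers (γ ^ e)) := fun γ => by
    rw [Nat.card_zpowers]; exact (he γ).1
  have hrep : ∀ g : G, g ^ e ∈ pre (Subgroup.zpowers ((g : G ⧸ N) ^ e)) := fun g => by
    simp only [pre, Subgroup.mem_comap, hπ, map_pow, QuotientGroup.mk'_apply]
    exact Subgroup.mem_zpowers _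
  -- evaluation does not depend on the representative
  have hindep : ∀ (Δ : Subgroup (G ⧸ N)) (hΔ : ¬ p ∣ Nat.card Δ) (x y : pre Δ),
      π x = π y → L Δ hΔ x = L Δ hΔ y := by
    intro Δ hΔ x y hxy
    have h1 : ((x⁻¹ * y : pre Δ) : G) ∈ N := by
      rw [← QuotientGroup.ker_mk' N, MonoidHom.mem_ker]
      simp [← hπ, hxy]
    have := (hL Δ hΔ).1 _ h1
    rwa [map_mul, map_inv, inv_mul_eq_one] at this
  let F : G ⧸ N → ℂ := fun γ =>
    (L (Subgroup.zpowers (γ ^ e)) (hcyc γ) ⟨(Quotient.out γ) ^ e, by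
      have h := hrep (Quotient.out γ); rwa [QuotientGroup.out_eq'] at h⟩ : ℂ)
  -- value on a subgroup of order prime to p
  have hFΔ : ∀ (Δ : Subgroup (G ⧸ N)) (hΔ : ¬ p ∣ Nat.card Δ) (γ : G ⧸ N) (x : pre Δ),
      π x = γ ^ e → F γ = (L Δ hΔ x : ℂ) := by
    intro Δ hΔ γ x hx
    have hle : Subgroup.zpowers (γ ^ e) ≤ Δ := Subgroup.zpowers_le.2 (hx ▸ x.2)
    show ((L _ _ _ : ℂˣ) : ℂ) = _
    rw [hsub _ Δ (hcyc γ) hΔ hle]
    refine congrArg Units.val (hindep Δ hΔ _ _ ?_)
    rw [hx, Subgroup.coe_inclusion, map_pow]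
    exact congrArg (· ^ e) (QuotientGroup.out_eq' γ)
  have hFc : IsClassFunction (G ⧸ N) F := by
    intro γ δ
    obtain ⟨c, rfl⟩ := QuotientGroup.mk'_surjective N δ
    set Δ := Subgroup.zpowers (γ ^ e)
    set Δ' := Subgroup.zpowers ((π c * γ * (π c)⁻¹) ^ e) with hΔ'
    have hmap : (pre Δ).map (MulAut.conj c).toMonoidHom = pre Δ' := by
      have e1 : Δ' = Δ.map (MulAut.conj (π c)).toMonoidHom := by
        rw [MonoidHom.map_zpowers, hΔ', conj_pow]
        rfl
      refine SetLike.ext fun y => ?_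
      simp only [pre, e1, Subgroup.mem_map, Subgroup.mem_comap, MulEquiv.coe_toMonoidHom, MulAut.conj_apply]
      constructor
      · rintro ⟨x, hx, rfl⟩
        exact ⟨π x, hx, by simp⟩
      · rintro ⟨z, hz, hzy⟩
        refine ⟨c⁻¹ * y * c, ?_, by group⟩
        rw [map_mul, map_mul, map_inv, ← hzy]
        simpa [mul_assoc] using hz
    have key := good_unique N P θ ψ hM (hNpre Δ') (hhyp Δ' (hcyc _)) (hL Δ' (hcyc _))
      (good_map N θ ψ hψ c hmap (hL Δ (hcyc γ)))
    obtain ⟨g, rfl⟩ := QuotientGroup.mk'_surjective N γ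
    let x : pre Δ := ⟨g ^ e, hrep g⟩
    let y : pre Δ' := (MulEquiv.subgroupMap (MulAut.conj c) (pre Δ)).trans (MulEquiv.subgroupCongr hmap) x
    rw [hFΔ Δ' (hcyc _) _ y (by
        show π (c * g ^ e * c⁻¹) = _
        rw [conj_pow, map_mul, map_mul, map_inv, map_pow]),
      hFΔ Δ (hcyc _) (π g) x (map_pow π g e), key]
    simp only [MonoidHom.comp_apply, MulEquiv.coe_toMonoidHom, y, MulEquiv.symm_apply_apply]
  have hgen : IsGeneralizedCharacter (G ⧸ N) F := by
    refine Char.brauer_characterization hFc fun U q hq hU => ?_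
    let φ : U →* G ⧸ N := U.subtype.comp
      (MonoidHom.mk' (fun a : U => a ^ e) (pow_mul_of_elementary hp hq he hU))
    have hΔ : ¬ p ∣ Nat.card φ.range := by
      intro hd
      obtain ⟨z, hz⟩ := exists_prime_orderOf_dvd_card' p hd
      rw [← Subgroup.orderOf_coe] at hz
      obtain ⟨a, ha⟩ := z.2
      rw [← ha] at hz
      apply (he (a : G ⧸ N)).1
      rw [show ((a : G ⧸ N) ^ e) = φ a from (SubmonoidClass.coe_pow a e).symm, hz]
    let Lb : φ.range →* ℂˣ :=
      { toFun := fun z => L φ.range hΔ ⟨Quotient.out (z : G ⧸ N), by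
          simp only [pre, Subgroup.mem_comap]
          rw [show π (Quotient.out (z : G ⧸ N)) = (z : G ⧸ N) from QuotientGroup.out_eq' _]
          exact z.2⟩
        map_one' := by
          refine (hindep _ hΔ _ 1 ?_).trans (map_one _)
          simp only [OneMemClass.coe_one, map_one]
          exact QuotientGroup.out_eq' _
        map_mul' := fun z w => by
          rw [← map_mul]
          refine hindep _ hΔ _ _ ?_
          simp only [Subgroup.coe_mul, map_mul]
          show ((Quotient.out _ : G) : G ⧸ N) = ((Quotient.out _ : G) : G ⧸ N) * ((Quotient.out _ : G) : G ⧸ N)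
          rw [QuotientGroup.out_eq', QuotientGroup.out_eq', QuotientGroup.out_eq'] }
    refine ⟨fun a : U => ((Lb.comp φ.rangeRestrict) a : ℂ), 0,
      Char.isCharacter_of_isIrr (Char.isIrrCharacter_linear (Lb.comp φ.rangeRestrict)),
      Char.isCharacter_zero, ?_⟩
    funext a
    simp only [Pi.sub_apply, Pi.zero_apply, sub_zero]
    refine hFΔ _ hΔ (a : G ⧸ N) _ ?_
    exact (QuotientGroup.out_eq' _).trans (SubmonoidClass.coe_pow a e)
  have hF1 : F 1 = 1 := by
    rw [hFΔ (Subgroup.zpowers ((1 : G ⧸ N) ^ e)) (hcyc 1) 1 1 (by simp), map_one, Units.val_one]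
  have hnorm : classInner F F = 1 := by
    simp only [classInner]
    have e1 : ∀ γ, F γ * (starRingEnd ℂ) (F γ) = 1 := fun γ => by
      rw [Complex.mul_conj']
      show (‖((L _ _ _ : ℂˣ) : ℂ)‖ : ℂ) ^ 2 = 1
      rw [(((Units.coeHom ℂ).comp (L (Subgroup.zpowers (γ ^ e)) (hcyc γ))).isOfFinOrder
        (isOfFinOrder_of_finite _)).norm_eq_one |> fun h => (by simpa using h :
          ‖((L (Subgroup.zpowers (γ ^ e)) (hcyc γ) ⟨(Quotient.out γ) ^ e, by
            have h := hrep (Quotient.out γ); rwa [QuotientGroup.out_eq'] at h⟩ : ℂˣ) : ℂ)‖ = 1)]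
      simp
    simp only [e1, Finset.sum_const, Finset.card_univ, nsmul_eq_mul, mul_one, Nat.card_eq_fintype_card]
    field_simp
  have hirr : IsIrrCharacter (G ⧸ N) F := by
    rcases CharClifford.irr_or_neg_of_norm_one hgen hnorm with h | h
    · exact h
    · exfalso
      have h1 := irr_one_eq_natCast ⟨_, h⟩
      simp only [Pi.neg_apply, hF1] at h1
      have h2 : ((charDegree (-F) + 1 : ℕ) : ℂ) = 0 := by push_cast; linear_combination -h1
      rw [Nat.cast_eq_zero] at h2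
      omega
  obtain ⟨lam, hlam⟩ := Char.exists_hom_of_degree_one (Char.isCharacter_of_isIrr hirr) hF1
  set lG : G →* ℂˣ := (lam.comp π)⁻¹ with hlG
  let χ : IrrCharacter G := ⟨_, Char.isIrrCharacter_linear_mul ψ.2 lG⟩
  refine ⟨χ, fun n => ?_, fun J hNJ => ?_⟩
  · show ((lG (n : G) : ℂˣ) : ℂ) * _ = _
    rw [hlG, MonoidHom.inv_apply, MonoidHom.comp_apply, show π (n : G) = 1 from (QuotientGroup.eq_one_iff _).2 n.2,
      map_one, inv_one, Units.val_one, one_mul, hψ]
  · haveI := Fintype.ofFinite J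
    haveI := Fintype.ofFinite (N.subgroupOf J)
    have hirrJ : IsIrrCharacter J (fun y : J => (χ : G → ℂ) y) :=
      isIrr_of_pullback (N.subgroupOf J).subtype
        (Char.isCharacter_restrict (Char.isCharacter_of_isIrr χ.2) J) (by
          rw [show (fun n : N.subgroupOf J => (χ : G → ℂ) (((N.subgroupOf J).subtype n : J) : G)) =
            (BrauerPairs.mapIrr (Subgroup.subgroupOfEquivOfLe hNJ).symm θ : N.subgroupOf J → ℂ) from
              funext fun n => by
                obtain ⟨r, rfl⟩ := (Subgroup.subgroupOfEquivOfLe hNJ).symm.surjective n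
                rw [BrauerPairs.mapIrr_apply]
                show ((lG (r : G) : ℂˣ) : ℂ) * _ = _
                rw [hlG, MonoidHom.inv_apply, MonoidHom.comp_apply,
                  show π (r : G) = 1 from (QuotientGroup.eq_one_iff _).2 r.2,
                  map_one, inv_one, Units.val_one, one_mul]
                exact hψ r]
          exact (BrauerPairs.mapIrr (Subgroup.subgroupOfEquivOfLe hNJ).symm θ).2)
    refine ⟨⟨_, hirrJ⟩, ?_, fun y => rfl⟩
    haveI : (N.subgroupOf J).Normal := inferInstance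
    refine mem_principal_of_cyclic hM (N.subgroupOf J) _ fun γ hγ => ?_
    let ι : J ⧸ N.subgroupOf J →* G ⧸ N :=
      QuotientGroup.map (N.subgroupOf J) N J.subtype le_rfl
    have hιinj : Function.Injective ι := by
      rw [injective_iff_map_eq_one]
      intro z hz
      obtain ⟨y, rfl⟩ := QuotientGroup.mk'_surjective _ z
      exact (QuotientGroup.eq_one_iff y).2 ((QuotientGroup.eq_one_iff (y : G)).1 hz)
    set Δ := Subgroup.zpowers (ι γ) with hΔdef
    have hΔ : ¬ p ∣ Nat.card Δ := by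
      rw [Nat.card_zpowers, orderOf_injective ι hιinj]; exact hγ
    obtain ⟨hl, η, hη, hηr, hηe⟩ := hL Δ hΔ
    set K := (Subgroup.zpowers γ).comap (QuotientGroup.mk' (N.subgroupOf J)) with hK
    have hKiff : ∀ y : J, y ∈ K ↔ (y : G) ∈ pre Δ := by
      intro y
      show QuotientGroup.mk' _ y ∈ Subgroup.zpowers γ ↔ π (y : G) ∈ Subgroup.zpowers (ι γ)
      rw [show π (y : G) = ι (QuotientGroup.mk' _ y) from rfl, ← MonoidHom.map_zpowers,
        Subgroup.mem_map_iff_mem hιinj]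
    have hpreJ : pre Δ ≤ J := by
      intro g hg
      obtain ⟨i, hi⟩ := Subgroup.mem_zpowers_iff.1 (show π g ∈ Subgroup.zpowers (ι γ) from hg)
      obtain ⟨j, rfl⟩ := QuotientGroup.mk'_surjective _ γ
      rw [← map_zpow, ← map_zpow] at hi
      have h1 : ((j ^ i : J) : G)⁻¹ * g ∈ N := QuotientGroup.eq.1 hi
      have := mul_mem (j ^ i).2 (hNJ h1)
      rwa [mul_inv_cancel_left] at this
    let f : pre Δ ≃* K :=
      { toFun := fun y => ⟨⟨y, hpreJ y.2⟩, (hKiff _).2 y.2⟩
        invFun := fun y => ⟨((y : J) : G), (hKiff _).1 y.2⟩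
        left_inv := fun y => rfl
        right_inv := fun y => rfl
        map_mul' := fun y z => rfl }
    refine ⟨BrauerPairs.mapIrr f η, (mapIrr_mem_principal_iff f).2 hη, fun y => ?_⟩
    obtain ⟨x, rfl⟩ := f.surjective y
    rw [BrauerPairs.mapIrr_apply]
    show _ = ((lG (x : G) : ℂˣ) : ℂ) * (ψ : G → ℂ) (x : G)
    have hxe : π (x : G) ^ e = π (x : G) := (he _).2.1 fun hd => hΔ (hd.trans (by
      rw [← Nat.card_zpowers]; exact Subgroup.card_dvd_of_le (Subgroup.zpowers_le.2 x.2)))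
    have h1 : (lam (π (x : G)) : ℂ) = (L Δ hΔ x : ℂ) := by
      rw [← hlam]; exact hFΔ Δ hΔ _ x hxe.symm
    rw [hηe x, hlG, MonoidHom.inv_apply, MonoidHom.comp_apply, Units.val_inv_eq_inv_val, h1,
      ← mul_assoc, inv_mul_cancel₀ (Units.ne_zero _), one_mul]

end Main

end Cfsg.Agent.Lib.Block.CoverExtend
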