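import Cfsg.Agent.Lib.BrauerPairs.CoveringNormalizer
import Cfsg.Agent.Lib.Coprime.Basic

/-!
# Blocks covering an invariant block

Some block covering an invariant block `b` of a normal subgroup `N` has defect at least the defect
of `b` plus the `p`-part of the index: a Sylow subgroup fixes a class of `N` on which both the
idempotent and the central character of `b` are units.
-/

set_option autoImplicit false
set_option linter.unusedSectionVars false
set_option linter.style.haveILetI false

namespace Cfsg.Agent.Lib.Block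

open Cfsg Cfsg.Agent.Lib.BrauerPairs

universe u

variable {p : ℕ} {M : Ideal AlgInt} [M.IsPrime] {G : Type u} [Group G] [Finite G]

lemma centralChar_eq_of_isConj (χ : IrrCharacter G) {a c : G} (h : IsConj a c) :
    centralChar (χ : G → ℂ) a = centralChar (χ : G → ℂ) c := by
  classical
  rw [← omega_classSum_irr, ← omega_classSum_irr]
  refine congrArg _ (alg_ext fun x => ?_)
  rw [coeff_classSum, coeff_classSum]
  exact if_congr ⟨fun h' => h.symm.trans h', fun h' => h.trans h'⟩ rfl rfl

variable (N : Subgroup G) [hN : N.Normal]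

theorem conjIrr_mem_of_inv {b : Set (IrrCharacter N)}
    (hinv : ∀ g : G, ∀ θ ∈ b, ∀ θ' : IrrCharacter N, (∀ n : N, (θ' : N → ℂ) n =
      (θ : N → ℂ) ⟨g * n * g⁻¹, hN.conj_mem n n.2 g⟩) → θ' ∈ b) (g : G) {θ : IrrCharacter N}
    (hθ : θ ∈ b) : conjIrr N g θ ∈ b :=
  hinv g θ hθ _ fun n => Char.conjChar_apply N g _ n

theorem stabilizesBlock_of_inv {b : Set (IrrCharacter N)}
    (hinv : ∀ g : G, ∀ θ ∈ b, conjIrr N g θ ∈ b) (x : G) : StabilizesBlock N b x :=
  ⟨mem_normalizer_normal N x, fun θ hθ => ⟨conjIrr N x⁻¹ θ, hinv x⁻¹ θ hθ, fun k k' hk =>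
    (Char.conjChar_apply N x⁻¹ _ k').trans (congrArg (θ : N → ℂ) (Subtype.ext (by
      simp [hk, mul_assoc])))⟩⟩

/-- Two blocks covered by one block are conjugate. -/
theorem exists_conj_of_cover [Fintype N] (hM : IsPModular p M) {B : Set (IrrCharacter G)}
    (hB : IsPBlock M B) {c c' : Set (IrrCharacter N)} (hc : IsPBlock M c) (hc' : IsPBlock M c')
    (hcov : bar M B * emb N (bar M c) ≠ 0) (hcov' : bar M B * emb N (bar M c') ≠ 0) :
    ∃ g : G, c' = mapBlock (normEquiv (mem_normalizer_normal N g)) c := by
  classical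
  obtain ⟨S, hS, -, hsum⟩ := exists_cover_elem N hM hB hc ((covers_iff N hM hB hc).2 hcov)
  refine (hS c' ?_).2
  by_contra hn
  refine hcov' ?_
  rw [← hsum, mul_assoc, ← map_mul, Finset.sum_mul, Finset.sum_eq_zero fun d hd =>
    bar_mul_bar_of_ne (hS d hd).1 hc' fun h => hn (h ▸ hd), map_zero, mul_zero]

/-- Some block covering an invariant block has large defect. -/
theorem exists_defect_ge [Fintype N] (hM : IsPModular p M) {b : Set (IrrCharacter N)}
    (hb : IsPBlock M b) (hinv : ∀ g : G, ∀ θ ∈ b, conjIrr N g θ ∈ b) :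
    ∃ B : Set (IrrCharacter G), IsPBlock M B ∧ bar M B * emb N (bar M b) ≠ 0 ∧
      blockDefect p b + N.index.factorization p ≤ blockDefect p B := by
  classical
  haveI : Fact p.Prime := ⟨hM.1⟩
  haveI := resField_charP (M := M) hM
  haveI := Fintype.ofFinite (ConjClasses N)
  obtain ⟨θ, hθ⟩ := isPBlock_nonempty hb
  obtain ⟨S⟩ := (inferInstance : Nonempty (Sylow p G))
  letI : MulAction (S : Subgroup G) (ConjClasses N) :=
    { smul := fun x C => C.map (MulAut.conjNormal (x : G)).toMonoidHom
      one_smul := fun C => by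
        induction C using Quotient.inductionOn with
        | h a =>
          show ConjClasses.mk (MulAut.conjNormal ((1 : (S : Subgroup G)) : G) a) = ConjClasses.mk a
          simp
      mul_smul := fun x y C => by
        induction C using Quotient.inductionOn with
        | h a =>
          show ConjClasses.mk (MulAut.conjNormal ((x * y : (S : Subgroup G)) : G) a) =
            ConjClasses.mk (MulAut.conjNormal (x : G) (MulAut.conjNormal (y : G) a))
          simp }
  set z := emb N (bar M b) with hz
  have hzfix : ∀ x : G, cj x z = z := fun x =>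
    (stabilizesBlock_normal_iff N hb x).1 (stabilizesBlock_of_inv N hinv x)
  set f : ConjClasses N → ResField M := fun C =>
    (bar M b).coeff C.out * redC M (centralChar (θ : N → ℂ) C.out) with hf
  have hval : ∀ a : N, f (ConjClasses.mk a) =
      (bar M b).coeff a * redC M (centralChar (θ : N → ℂ) a) := fun a => by
    have h : IsConj (ConjClasses.mk a).out a :=
      ConjClasses.mk_eq_mk_iff_isConj.1 (Quotient.out_eq (ConjClasses.mk a))
    rw [hf]
    simp only [(isClassCoeff_bar b).conj h, centralChar_eq_of_isConj θ h]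
  have hfinv : ∀ (x : (S : Subgroup G)) (C : ConjClasses N), f (x • C) = f C := by
    intro x C
    induction C using Quotient.inductionOn with
    | h a =>
      show f (ConjClasses.mk (MulAut.conjNormal (x : G) a)) = f (ConjClasses.mk a)
      rw [hval, hval]
      congr 1
      · have h := invUnder_iff_cj.2 (hzfix (x : G)) (a : G)
        rw [hz, coeff_emb_of_mem N _ a.2, coeff_emb_of_mem N _ (hN.conj_mem a a.2 x)] at h
        exact (congrArg (bar M b).coeff (Subtype.ext (MulAut.conjNormal_apply (x : G) a))).trans h
      · rw [← centralChar_conjChar N (Char.isClassFunction_of_isIrr θ.2)]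
        exact (sameBlock_iff (χ := conjIrr N x θ)).1 (sameBlock_of_mem hb (hinv x θ hθ) hθ) a
  have h1 : ∑ C, f C = 1 := by
    have h := lam_bar hb θ
    rw [if_pos hθ, lam] at h
    convert h
  rw [sum_eq_sum_fixed (p := p) S.2 f hfinv] at h1
  obtain ⟨C, hC, hC0⟩ := Finset.exists_ne_zero_of_sum_ne_zero (h1.trans_ne one_ne_zero)
  have hfix : ∀ x : (S : Subgroup G), x • C = C := (Finset.mem_filter.1 hC).2
  clear hC h1
  induction C using Quotient.inductionOn with
  | h s =>
    change f (ConjClasses.mk s) ≠ 0 at hC0
    rw [hval] at hC0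
    have hcoef : (bar M b).coeff s ≠ 0 := left_ne_zero_of_mul hC0
    have hcls : IsDefectClass M b s := (isDefectClass_iff hb hθ).2
      ⟨by rw [← coeff_bar]; exact hcoef, right_ne_zero_of_mul hC0⟩
    set K := Subgroup.centralizer ({(s : G)} : Set G) with hK
    have hSK : (S : Subgroup G) ≤ K ⊔ N := by
      intro x hx
      obtain ⟨n, hn⟩ := isConj_iff.1 (ConjClasses.mk_eq_mk_iff_isConj.1
        (show ConjClasses.mk (MulAut.conjNormal x s) = ConjClasses.mk s from hfix ⟨x, hx⟩))
      have hn' : (n : G) * (x * s * x⁻¹) * (n : G)⁻¹ = s := by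
        simpa using congrArg (fun y : N => (y : G)) hn
      have hmem : (n : G) * x ∈ K := by
        rw [hK, Subgroup.mem_centralizer_singleton_iff]
        conv_rhs => rw [← hn']
        group
      rw [show x = (n : G)⁻¹ * ((n : G) * x) by group]
      exact mul_mem (Subgroup.mem_sup_right (N.inv_mem n.2)) (Subgroup.mem_sup_left hmem)
    have hvb : (Nat.card (K ⊓ N : Subgroup G)).factorization p = blockDefect p b := by
      rw [hK, card_centralizer_inf N s, (defectClass_facts hM hb hcls).1]
    have hvKN : (Nat.card G).factorization p ≤ (Nat.card (K ⊔ N : Subgroup G)).factorization p := by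
      refine (hM.1.pow_dvd_iff_le_factorization Nat.card_pos.ne').1 ?_
      rw [← S.card_eq_multiplicity]
      exact Subgroup.card_dvd_of_le hSK
    have hmul := congrArg (fun k => Nat.factorization k p) (Coprime.card_sup_mul_card_inf N K)
    simp only [Nat.factorization_mul Nat.card_pos.ne' Nat.card_pos.ne', Finsupp.add_apply] at hmul
    have hvG : (Nat.card G).factorization p =
        N.index.factorization p + (Nat.card N).factorization p := by
      rw [← Subgroup.index_mul_card N,
        Nat.factorization_mul Subgroup.index_ne_zero_of_finite Nat.card_pos.ne', Finsupp.add_apply]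
    obtain ⟨P₀⟩ := (inferInstance : Nonempty (Sylow p K))
    set P := (P₀ : Subgroup K).map K.subtype with hP
    have hPp : IsPGroup p P := P₀.2.map _
    have hsP : (s : G) ∈ Subgroup.centralizer (P : Set G) :=
      le_centralizer_singleton_iff.1 (Subgroup.map_subtype_le _)
    have hne : br P z ≠ 0 := fun h => hcoef (by
      rw [← coeff_emb_of_mem N (bar M b) s.2, ← coeff_br_of_mem _ hsP, ← hz, h]
      simp)
    rw [← one_mul z, ← sum_bar (M := M) (H := G), Finset.sum_mul, br_sum] at hne
    obtain ⟨B, hBm, hB0⟩ := Finset.exists_ne_zero_of_sum_ne_zero hne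
    have hB := mem_blocks.1 hBm
    refine ⟨B, hB, fun h => hB0 (by rw [h, br_zero]), ?_⟩
    rw [br_mul hM hPp (fun u _ => isClassCoeff_iff_cj.1 (isClassCoeff_bar B) u)
      (fun u _ => hzfix u)] at hB0
    obtain ⟨D, hD⟩ := exists_isDefectGroup hM hB
    have hle := (conjLE_of_br_bar_ne_zero hM hB hD hPp (left_ne_zero_of_mul hB0)).card_le
    rw [hP, card_sylow_centralizer hM, (IsDefectGroup.props hM hB hD).2.1,
      Nat.pow_le_pow_iff_right hM.1.one_lt, ← hK] at hle
    omega

end Cfsg.Agent.Lib.Block
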