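import Mathlib.GroupTheory.Transfer
import Mathlib.GroupTheory.Sylow
import Mathlib.Data.ZMod.Basic

/-!
# Sylow 2-subgroups homocyclic of rank two
-/

namespace Cfsg.Agent.Lib.Block.Homocyclic

set_option linter.unusedSectionVars false
set_option linter.style.haveILetI false

variable {G : Type*} [Group G] [Finite G]

lemma zmod_double_eq_zero {m : ℕ} (hm : 1 ≤ m) (x : ZMod (2 ^ m)) (h : x + x = 0) :
    x = 0 ∨ x = ((2 ^ (m - 1) : ℕ) : ZMod (2 ^ m)) := by
  obtain ⟨k, rfl⟩ : ∃ k, m = k + 1 := ⟨m - 1, by omega⟩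
  haveI : NeZero (2 ^ (k + 1)) := ⟨pow_ne_zero _ two_ne_zero⟩
  simp only [Nat.add_sub_cancel]
  have hlt := x.val_lt
  rw [← ZMod.natCast_rightInverse x] at h ⊢
  set v := x.val with hv
  rw [← Nat.cast_add, ZMod.natCast_eq_zero_iff] at h
  obtain ⟨c, hc⟩ := h
  have hk : 2 ^ (k + 1) = 2 * 2 ^ k := by ring
  rw [hk] at hlt hc
  have hvc : v = 2 ^ k * c := by nlinarith
  have hc2 : c < 2 := by nlinarith
  interval_cases c
  · left; simp [hvc]
  · right; simp [hvc]

/-- There are three involutions in such a group. -/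
theorem three_involutions {H : Type*} [Group H] {m : ℕ} (hm : 1 ≤ m)
    (e : H ≃* Multiplicative (ZMod (2 ^ m) × ZMod (2 ^ m))) :
    ∃ a b c : H, a ≠ b ∧ a ≠ c ∧ b ≠ c ∧ orderOf a = 2 ∧ orderOf b = 2 ∧ orderOf c = 2 ∧
      ∀ x : H, orderOf x = 2 → x = a ∨ x = b ∨ x = c := by
  set h : ZMod (2 ^ m) := ((2 ^ (m - 1) : ℕ) : ZMod (2 ^ m)) with hh
  have hh2 : h + h = 0 := by
    rw [hh, ← Nat.cast_add, show 2 ^ (m - 1) + 2 ^ (m - 1) = 2 ^ m by
      rw [← two_mul, ← pow_succ', Nat.sub_add_cancel hm], ZMod.natCast_self]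
  have hh0 : h ≠ 0 := by
    rw [hh, Ne, ZMod.natCast_eq_zero_iff]
    intro hd
    exact absurd (Nat.le_of_dvd (by positivity) hd)
      (not_le.2 (Nat.pow_lt_pow_right one_lt_two (by omega)))
  have ho : ∀ q : ZMod (2 ^ m) × ZMod (2 ^ m), q ≠ 0 → q + q = 0 →
      orderOf (e.symm (Multiplicative.ofAdd q)) = 2 := by
    intro q hq hq2
    rw [MulEquiv.orderOf_eq]
    haveI : Fact (Nat.Prime 2) := ⟨Nat.prime_two⟩
    refine orderOf_eq_prime ?_ ?_
    · rw [pow_two, ← ofAdd_add, hq2, ofAdd_zero]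
    · exact fun h1 => hq (by simpa using h1)
  have hinj : Function.Injective fun q => e.symm (Multiplicative.ofAdd q) :=
    e.symm.injective.comp Multiplicative.ofAdd.injective
  refine ⟨e.symm (Multiplicative.ofAdd (h, 0)), e.symm (Multiplicative.ofAdd (0, h)),
    e.symm (Multiplicative.ofAdd (h, h)), fun he => hh0 ?_, fun he => hh0 ?_, fun he => hh0 ?_,
    ho _ (by simp [hh0]) (by simp [hh2]), ho _ (by simp [hh0]) (by simp [hh2]),
    ho _ (by simp [hh0]) (by simp [hh2]), fun x hx => ?_⟩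
  · exact congrArg Prod.fst (hinj he)
  · exact (congrArg Prod.snd (hinj he)).symm
  · exact (congrArg Prod.fst (hinj he)).symm
  have hx1 : x ≠ 1 := fun h1 => by rw [h1, orderOf_one] at hx; omega
  have hx2 : (e x).toAdd + (e x).toAdd = 0 := by
    have hxx := pow_orderOf_eq_one x
    rw [hx, pow_two] at hxx
    rw [← toAdd_mul, ← map_mul, hxx, map_one, toAdd_one]
  have key : (e x).toAdd = (h, 0) ∨ (e x).toAdd = (0, h) ∨ (e x).toAdd = (h, h) := by
    have hne : (e x).toAdd ≠ 0 := fun h0 => hx1 (e.injective (by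
      rw [map_one]; exact Multiplicative.toAdd.injective (by simpa using h0)))
    rcases zmod_double_eq_zero hm _ (congrArg Prod.fst hx2) with h1 | h1 <;>
      rcases zmod_double_eq_zero hm _ (congrArg Prod.snd hx2) with h2 | h2
    · exact absurd (Prod.ext h1 h2) hne
    · exact Or.inr (Or.inl (Prod.ext h1 h2))
    · exact Or.inl (Prod.ext h1 h2)
    · exact Or.inr (Or.inr (Prod.ext h1 h2))
  rcases key with hk | hk | hk
  · left; rw [← hk]; simp
  · right; left; rw [← hk]; simp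
  · right; right; rw [← hk]; simp

lemma normal_centralizer_subgroupOf (P : Subgroup G) :
    ((Subgroup.centralizer (P : Set G)).subgroupOf (Subgroup.normalizer (P : Set G))).Normal := by
  refine ⟨fun c hc n => ?_⟩
  rw [Subgroup.mem_subgroupOf, Subgroup.mem_centralizer_iff] at hc ⊢
  intro y hy
  have h1 := hc _ ((Subgroup.mem_normalizer_iff.1 (inv_mem n.2) y).1 hy)
  simp only [inv_inv] at h1
  simp only [Subgroup.coe_mul, Subgroup.coe_inv]
  calc y * ((n : G) * c * (n : G)⁻¹) = (n : G) * ((n : G)⁻¹ * y * n * c) * (n : G)⁻¹ := by group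
    _ = (n : G) * (c * ((n : G)⁻¹ * y * n)) * (n : G)⁻¹ := by rw [h1]
    _ = (n : G) * c * (n : G)⁻¹ * y := by group

lemma mem_three {α : Type*} {a b c x y z w : α} (hx : x = a ∨ x = b ∨ x = c)
    (hy : y = a ∨ y = b ∨ y = c) (hz : z = a ∨ z = b ∨ z = c) (hw : w = a ∨ w = b ∨ w = c)
    (hxy : x ≠ y) (hxz : x ≠ z) (hyz : y ≠ z) : w = x ∨ w = y ∨ w = z := by
  rcases hx with rfl | rfl | rfl <;> rcases hy with rfl | rfl | rfl <;>
    rcases hz with rfl | rfl | rfl <;>
    first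
      | exact absurd rfl hxy
      | exact absurd rfl hxz
      | exact absurd rfl hyz
      | (rcases hw with rfl | rfl | rfl <;> simp)

/-- An element of the normalizer acting trivially on the elements of order dividing `2`, some odd
power of which centralises the abelian group `P`, centralises `P`. -/
theorem mem_centralizer_of_fix_involutions (P : Sylow 2 G) (hab : ∀ x ∈ (P : Subgroup G),
    ∀ y ∈ (P : Subgroup G), x * y = y * x) {n : G}
    (hn : n ∈ Subgroup.normalizer (P : Set G)) {r : ℕ} (hr : Odd r)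
    (hnr : n ^ r ∈ Subgroup.centralizer (P : Set G))
    (hfix : ∀ x ∈ (P : Subgroup G), orderOf x = 2 → n * x * n⁻¹ = x) :
    n ∈ Subgroup.centralizer (P : Set G) := by
  have key : ∀ k : ℕ, ∀ x ∈ (P : Subgroup G), x ^ 2 ^ k = 1 → n * x * n⁻¹ = x := by
    intro k
    induction k with
    | zero => intro x _ hx; rw [pow_zero, pow_one] at hx; simp [hx]
    | succ k ih =>
      intro x hx hxk
      have hsq := ih (x ^ 2) (pow_mem hx 2) (by rw [← pow_mul, ← pow_succ', hxk])
      have hnx : n * x * n⁻¹ ∈ (P : Subgroup G) := (Subgroup.mem_normalizer_iff.1 hn x).1 hx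
      set d := n * x * n⁻¹ * x⁻¹ with hd
      have hdP : d ∈ (P : Subgroup G) := mul_mem hnx (inv_mem hx)
      have hd2 : d ^ 2 = 1 := by
        rw [hd, (show Commute (n * x * n⁻¹) x⁻¹ from hab _ hnx _ (inv_mem hx)).mul_pow, conj_pow, hsq,
          inv_pow, mul_inv_cancel]
      have hdfix : n * d * n⁻¹ = d := by
        by_cases h1 : d = 1
        · rw [h1]; simp
        · haveI : Fact (Nat.Prime 2) := ⟨Nat.prime_two⟩
          exact hfix d hdP (orderOf_eq_prime hd2 h1)
      have hit : ∀ j : ℕ, n ^ j * x * (n ^ j)⁻¹ = d ^ j * x := by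
        intro j
        induction j with
        | zero => simp
        | succ j ihj =>
          calc n ^ (j + 1) * x * (n ^ (j + 1))⁻¹ = n * (n ^ j * x * (n ^ j)⁻¹) * n⁻¹ := by
                rw [pow_succ']; group
            _ = n * (d ^ j * x) * n⁻¹ := by rw [ihj]
            _ = (n * d * n⁻¹) ^ j * (n * x * n⁻¹) := by rw [conj_pow]; group
            _ = d ^ (j + 1) * x := by rw [hdfix, pow_succ, hd]; group
      have h1 := hit r
      rw [← Subgroup.mem_centralizer_iff.1 hnr x hx, mul_inv_cancel_right] at h1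
      replace h1 : d ^ r = 1 := mul_eq_right.1 h1.symm
      obtain ⟨s, rfl⟩ := hr
      rw [pow_succ, pow_mul, hd2, one_pow, one_mul, hd, mul_inv_eq_one] at h1
      exact h1
  rw [Subgroup.mem_centralizer_iff]
  intro x hx
  obtain ⟨k, hk⟩ := P.2 ⟨x, hx⟩
  exact (mul_inv_eq_iff_eq_mul.1 (key k x hx (by simpa using congrArg Subtype.val hk))).symm

/-- The main facts about the normalizer. -/
theorem normalizer_facts (P : Sylow 2 G) (m : ℕ) (hm : 1 ≤ m)
    (e : (P : Subgroup G) ≃* Multiplicative (ZMod (2 ^ m) × ZMod (2 ^ m))) :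
    Odd ((Subgroup.centralizer (P : Set G)).relIndex (Subgroup.normalizer (P : Set G))) ∧
      (∀ n ∈ Subgroup.normalizer (P : Set G), ∀ x ∈ (P : Subgroup G), orderOf x = 2 →
        n * x * n⁻¹ = x → n ∈ Subgroup.centralizer (P : Set G)) ∧
      ∃ a b c : G, a ≠ b ∧ a ≠ c ∧ b ≠ c ∧ a ∈ (P : Subgroup G) ∧ orderOf a = 2 ∧
        b ∈ (P : Subgroup G) ∧ orderOf b = 2 ∧ c ∈ (P : Subgroup G) ∧ orderOf c = 2 ∧
        ∀ x ∈ (P : Subgroup G), orderOf x = 2 → x = a ∨ x = b ∨ x = c := by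
  haveI : Fact (Nat.Prime 2) := ⟨Nat.prime_two⟩
  have hab : ∀ x ∈ (P : Subgroup G), ∀ y ∈ (P : Subgroup G), x * y = y * x := fun x hx y hy =>
    congrArg Subtype.val (e.injective (by rw [map_mul, map_mul, mul_comm]) :
      (⟨x, hx⟩ : (P : Subgroup G)) * ⟨y, hy⟩ = ⟨y, hy⟩ * ⟨x, hx⟩)
  set C := Subgroup.centralizer (P : Set G) with hC
  set N := Subgroup.normalizer (P : Set G) with hN
  have hPC : (P : Subgroup G) ≤ C := fun x hx =>
    Subgroup.mem_centralizer_iff.2 fun y hy => hab y hy x hx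
  have hodd : Odd (C.relIndex N) := by
    refine Nat.odd_iff.2 (Nat.two_dvd_ne_zero.1 fun hd => P.not_dvd_index ?_)
    refine hd.trans ((Subgroup.relIndex_dvd_of_le_left N hPC).trans ?_)
    rw [← Subgroup.relIndex_mul_index (Subgroup.le_normalizer : (P : Subgroup G) ≤ N)]
    exact dvd_mul_right _ _
  haveI : (C.subgroupOf N).Normal := normal_centralizer_subgroupOf (P : Subgroup G)
  have hpow : ∀ n ∈ N, n ^ C.relIndex N ∈ C := fun n hn =>
    Subgroup.pow_index_mem (C.subgroupOf N) ⟨n, hn⟩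
  obtain ⟨a, b, c, hab', hac, hbc, ha, hb, hc, hall⟩ := three_involutions hm e
  have hall' : ∀ x ∈ (P : Subgroup G), orderOf x = 2 → x = a ∨ x = b ∨ x = c := by
    intro x hx hx2
    rcases hall ⟨x, hx⟩ (by rwa [Subgroup.orderOf_mk]) with h | h | h <;>
      simp [← congrArg Subtype.val h]
  refine ⟨hodd, fun n hn x hx hx2 hfx => ?_, a, b, c, Subtype.coe_injective.ne hab',
    Subtype.coe_injective.ne hac, Subtype.coe_injective.ne hbc, a.2, by rwa [Subgroup.orderOf_coe],
    b.2, by rwa [Subgroup.orderOf_coe], c.2, by rwa [Subgroup.orderOf_coe], hall'⟩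
  have hn2 : n ^ 2 ∈ C := by
    refine mem_centralizer_of_fix_involutions P hab (pow_mem hn 2) hodd
      (by rw [← pow_mul, mul_comm, pow_mul]; exact pow_mem (hpow n hn) 2) fun y hy hy2 => ?_
    have hcj : ∀ z ∈ (P : Subgroup G), orderOf z = 2 →
        n * z * n⁻¹ ∈ (P : Subgroup G) ∧ orderOf (n * z * n⁻¹) = 2 := fun z hz hz2 =>
      ⟨(Subgroup.mem_normalizer_iff.1 hn z).1 hz, (MulEquiv.orderOf_eq (MulAut.conj n) z).trans hz2⟩
    obtain ⟨h1, h1'⟩ := hcj y hy hy2
    obtain ⟨h2, h2'⟩ := hcj _ h1 h1'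
    have inj : ∀ u v : G, n * u * n⁻¹ = n * v * n⁻¹ → u = v := fun u v h =>
      mul_left_cancel (mul_right_cancel h)
    have hsq : n ^ 2 * y * (n ^ 2)⁻¹ = n * (n * y * n⁻¹) * n⁻¹ := by rw [pow_two]; group
    rw [hsq]
    rcases eq_or_ne y x with rfl | hyx
    · rw [hfx, hfx]
    set y₁ := n * y * n⁻¹ with hy₁
    rcases eq_or_ne y₁ y with h | h
    · rw [h, ← hy₁, h]
    set y₂ := n * y₁ * n⁻¹ with hy₂
    have hy1x : y₁ ≠ x := fun h' => hyx (inj y x (by rw [hfx, ← hy₁, h']))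
    have hy2x : y₂ ≠ x := fun h' => hy1x (inj y₁ x (by rw [hfx, ← hy₂, h']))
    have hy21 : y₂ ≠ y₁ := fun h' => h (inj y₁ y (by rw [← hy₂, ← hy₁, h']))
    rcases mem_three (hall' x hx hx2) (hall' y hy hy2) (hall' y₁ h1 h1') (hall' y₂ h2 h2')
      hyx.symm hy1x.symm h.symm with h4 | h4 | h4
    · exact absurd h4 hy2x
    · exact h4
    · exact absurd h4 hy21
  obtain ⟨s, hs⟩ := hodd
  have h := hpow n hn
  rw [hs, pow_succ, pow_mul] at h
  exact (Subgroup.mul_mem_cancel_left C (pow_mem hn2 s)).1 h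

/-- The dichotomy. -/
theorem relIndex_cases (P : Sylow 2 G) (m : ℕ) (hm : 1 ≤ m)
    (e : (P : Subgroup G) ≃* Multiplicative (ZMod (2 ^ m) × ZMod (2 ^ m))) :
    ((Subgroup.centralizer (P : Set G)).relIndex (Subgroup.normalizer (P : Set G)) = 1 ∨
      (Subgroup.centralizer (P : Set G)).relIndex (Subgroup.normalizer (P : Set G)) = 3) := by
  classical
  obtain ⟨hodd, hfix, a, b, c, -, -, -, ha, ha2, -, -, -, -, hall⟩ := normalizer_facts P m hm e
  set C := Subgroup.centralizer (P : Set G) with hC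
  set N := Subgroup.normalizer (P : Set G) with hN
  have key : C.relIndex N ≤ 3 := by
    have hmem : ∀ q : N ⧸ C.subgroupOf N,
        (q.out : G) * a * (q.out : G)⁻¹ ∈ ({a, b, c} : Finset G) := by
      intro q
      have h1 : (q.out : G) * a * (q.out : G)⁻¹ ∈ (P : Subgroup G) :=
        (Subgroup.mem_normalizer_iff.1 q.out.2 a).1 ha
      have := hall _ h1 ((MulEquiv.orderOf_eq (MulAut.conj (q.out : G)) a).trans ha2)
      simpa using this
    have hinj : Function.Injective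
        fun q : N ⧸ C.subgroupOf N => (⟨_, hmem q⟩ : ({a, b, c} : Finset G)) := by
      intro q q' he
      have he' : (q.out : G) * a * (q.out : G)⁻¹ = (q'.out : G) * a * (q'.out : G)⁻¹ :=
        congrArg Subtype.val he
      rw [← QuotientGroup.out_eq' q, ← QuotientGroup.out_eq' q', QuotientGroup.eq]
      refine hfix _ (mul_mem (inv_mem q.out.2) q'.out.2) a ha ha2 ?_
      calc (q.out : G)⁻¹ * q'.out * a * ((q.out : G)⁻¹ * q'.out)⁻¹
          = (q.out : G)⁻¹ * ((q'.out : G) * a * (q'.out : G)⁻¹) * q.out := by group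
        _ = (q.out : G)⁻¹ * ((q.out : G) * a * (q.out : G)⁻¹) * q.out := by rw [he']
        _ = a := by group
    have h := Nat.card_le_card_of_injective _ hinj
    rw [← Subgroup.index_eq_card, Nat.card_eq_fintype_card, Fintype.card_coe] at h
    exact h.trans Finset.card_le_three
  obtain ⟨s, hs⟩ := hodd
  omega

/-- Conjugacy of the involutions when the automiser is not trivial. -/
theorem all_involutions_conj (P : Sylow 2 G) (m : ℕ) (hm : 1 ≤ m)
    (e : (P : Subgroup G) ≃* Multiplicative (ZMod (2 ^ m) × ZMod (2 ^ m)))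
    (h : ¬ Subgroup.normalizer (P : Set G) ≤ Subgroup.centralizer (P : Set G)) {s t : G}
    (hs : orderOf s = 2) (ht : orderOf t = 2) : IsConj s t := by
  classical
  haveI : Fact (Nat.Prime 2) := ⟨Nat.prime_two⟩
  obtain ⟨-, hfix, a, b, c, -, -, -, ha, ha2, hb, hb2, -, -, hall⟩ := normalizer_facts P m hm e
  obtain ⟨n, hn, hnC⟩ := SetLike.not_le_iff_exists.1 h
  have inj : ∀ u v : G, n * u * n⁻¹ = n * v * n⁻¹ → u = v := fun u v h =>
    mul_left_cancel (mul_right_cancel h)
  have key : ∀ x ∈ (P : Subgroup G), orderOf x = 2 → IsConj a x := by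
    have hn2 : n ^ 2 ∉ Subgroup.centralizer (P : Set G) := by
      intro hc2
      obtain ⟨hodd, -, -⟩ := normalizer_facts P m hm e
      haveI : ((Subgroup.centralizer (P : Set G)).subgroupOf (Subgroup.normalizer (P : Set G))).Normal :=
        normal_centralizer_subgroupOf (P : Subgroup G)
      have h1 : n ^ (Subgroup.centralizer (P : Set G)).relIndex (Subgroup.normalizer (P : Set G)) ∈
          Subgroup.centralizer (P : Set G) :=
        Subgroup.pow_index_mem ((Subgroup.centralizer (P : Set G)).subgroupOf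
          (Subgroup.normalizer (P : Set G))) ⟨n, hn⟩
      obtain ⟨r, hr⟩ := hodd
      rw [hr, pow_succ, pow_mul] at h1
      exact hnC ((Subgroup.mul_mem_cancel_left _ (pow_mem hc2 r)).1 h1)
    have h1 : n * a * n⁻¹ ∈ (P : Subgroup G) ∧ orderOf (n * a * n⁻¹) = 2 :=
      ⟨(Subgroup.mem_normalizer_iff.1 hn a).1 ha, (MulEquiv.orderOf_eq (MulAut.conj n) a).trans ha2⟩
    have h2 : n ^ 2 * a * (n ^ 2)⁻¹ ∈ (P : Subgroup G) ∧ orderOf (n ^ 2 * a * (n ^ 2)⁻¹) = 2 :=
      ⟨(Subgroup.mem_normalizer_iff.1 (pow_mem hn 2) a).1 ha,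
        (MulEquiv.orderOf_eq (MulAut.conj (n ^ 2)) a).trans ha2⟩
    have e1 : n * a * n⁻¹ ≠ a := fun hh => hnC (hfix n hn a ha ha2 hh)
    have e2 : n ^ 2 * a * (n ^ 2)⁻¹ ≠ a := fun hh => hn2 (hfix _ (pow_mem hn 2) a ha ha2 hh)
    have e3 : n ^ 2 * a * (n ^ 2)⁻¹ ≠ n * a * n⁻¹ := fun hh => e1 (inj _ _ (Eq.trans
      (show n * (n * a * n⁻¹) * n⁻¹ = n ^ 2 * a * (n ^ 2)⁻¹ by rw [pow_two]; group) hh))
    intro x hx hx2
    have hcases : x = a ∨ x = n * a * n⁻¹ ∨ x = n ^ 2 * a * (n ^ 2)⁻¹ := by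
      exact mem_three (hall a ha ha2) (hall _ h1.1 h1.2) (hall _ h2.1 h2.2) (hall x hx hx2)
        e1.symm e2.symm e3.symm
    rcases hcases with rfl | rfl | rfl
    · exact IsConj.refl _
    · exact isConj_iff.2 ⟨n, rfl⟩
    · exact isConj_iff.2 ⟨n ^ 2, rfl⟩
  have hinv : ∀ x : G, orderOf x = 2 → IsConj a x := by
    intro x hx
    have hp : IsPGroup 2 (Subgroup.zpowers x) :=
      IsPGroup.of_card (n := 1) (by rw [Nat.card_zpowers, hx, pow_one])
    obtain ⟨Q, hQ⟩ := hp.exists_le_sylow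
    obtain ⟨g, hg⟩ := MulAction.exists_smul_eq G Q P
    have hmem : g * x * g⁻¹ ∈ (P : Subgroup G) := by
      rw [← hg, Sylow.coe_subgroup_smul]
      exact Subgroup.smul_mem_pointwise_smul x (MulAut.conj g) _ (hQ (Subgroup.mem_zpowers x))
    exact (key _ hmem ((MulEquiv.orderOf_eq (MulAut.conj g) x).trans hx)).trans
      (isConj_iff.2 ⟨g⁻¹, by group⟩)
  exact (hinv s hs).symm.trans (hinv t ht)

end Cfsg.Agent.Lib.Block.Homocyclic
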