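import Cfsg.Agent.Lib.Block.Covering

/-!
# Blocks over an invariant character of a normal `p'`-subgroup

If `N ≤ H` are normal, `N` a `p'`-group of `p`-power index in `H`, and `H` contains the centralisers
of its Sylow `p`-subgroups, then a single block lies over an invariant character of `N`.
-/

set_option autoImplicit false
set_option linter.unusedSectionVars false
set_option linter.style.haveILetI false

namespace Cfsg.Agent.Lib.Block

open Cfsg Cfsg.Agent.Lib.BrauerPairs

universe u

variable {p : ℕ} {M : Ideal AlgInt} [M.IsPrime]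

/-- A block of a group of order prime to `p` has one member. -/
theorem eq_of_sameBlock_pPrime (hM : IsPModular p M) {A : Type*} [Group A] [Finite A]
    (h : ¬ p ∣ Nat.card A) {θ φ : IrrCharacter A} (hs : SameBlock M (θ : A → ℂ) (φ : A → ℂ)) :
    θ = φ := by
  classical
  have h1 := redC_omega_eq_of_sameBlock hs (isClassCoeff_eIdem {θ})
    (intR_eIdem_of_pPrime hM h {θ})
  rw [omega_eIdem, omega_eIdem, if_pos (Set.mem_singleton θ), redC_one] at h1
  by_contra hne
  rw [if_neg (fun h : φ ∈ ({θ} : Set _) => hne (Set.mem_singleton_iff.1 h).symm), redC_zero] at h1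
  exact one_ne_zero h1

variable {G : Type u} [Group G] [Finite G]

/-- All blocks over an invariant character of `N` coincide. -/
theorem eq_of_cover_pPrime (hM : IsPModular p M) (N H : Subgroup G) [N.Normal] [H.Normal]
    [Fintype N] (hNH : N ≤ H) (hp : ¬ p ∣ Nat.card N) {k : ℕ}
    (hk : (N.subgroupOf H).index = p ^ k) (θ : IrrCharacter N)
    (hinv : ∀ g : G, conjIrr N g θ = θ)
    (hC : ∀ Q : Sylow p H,
      Subgroup.centralizer ((Q : Subgroup H).map H.subtype : Set G) ≤ H)
    {B B' : Set (IrrCharacter G)} (hB : IsPBlock M B) (hB' : IsPBlock M B')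
    (hcov : bar M B * emb N (bar M (blockOf M (θ : N → ℂ))) ≠ 0)
    (hcov' : bar M B' * emb N (bar M (blockOf M (θ : N → ℂ))) ≠ 0) : B = B' := by
  classical
  haveI : Fact p.Prime := ⟨hM.1⟩
  set b := blockOf M (θ : N → ℂ) with hbdef
  have hb : IsPBlock M b := isPBlock_blockOf θ
  have hbinv : ∀ g : G, ∀ φ ∈ b, conjIrr N g φ ∈ b := fun g φ hφ => by
    rw [← eq_of_sameBlock_pPrime hM hp hφ, hinv g]
    exact mem_blockOf_self θ
  set z := emb N (bar M b) with hz
  have hzfix : ∀ x : G, cj x z = z := fun x =>
    (stabilizesBlock_normal_iff N hb x).1 (stabilizesBlock_of_inv N hbinv x)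
  have hzi : IsIdempotentElem z := by
    rw [IsIdempotentElem, hz, ← map_mul, (isIdempotentElem_bar hb).eq]
  -- the group `H`
  set L := N.subgroupOf H with hL
  haveI : L.Normal := (inferInstance : N.Normal).subgroupOf H
  haveI := Fintype.ofFinite L
  set φ : L ≃* N := Subgroup.subgroupOfEquivOfLe hNH with hφ
  set b' := mapBlock φ.symm b with hb'def
  have hb' : IsPBlock M b' := isPBlock_mapBlock _ hb
  set θ' := mapIrr φ.symm θ with hθ'
  have hθ'b : θ' ∈ b' := ⟨θ, mem_blockOf_self θ, rfl⟩
  have hcardL : Nat.card L = Nat.card N := Nat.card_congr φ.toEquiv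
  have hpL : ¬ p ∣ Nat.card L := by rwa [hcardL]
  have hzH : emb H (emb L (bar M b')) = z := by
    rw [emb_emb_mapBlock φ (fun a => rfl) b', hb'def, mapBlock_symm]
  have hb'mem : ∀ ψ ∈ b', ψ = θ' := by
    rintro _ ⟨ξ, hξ, rfl⟩
    rw [← eq_of_sameBlock_pPrime hM hp hξ]
  have hb'inv : ∀ h : H, ∀ ψ ∈ b', conjIrr L h ψ ∈ b' := by
    intro h ψ hψ
    rw [hb'mem ψ hψ]
    convert hθ'b using 1
    refine Subtype.ext (funext fun n => ?_)
    show Char.conjChar L h (θ' : L → ℂ) n = (θ' : L → ℂ) n
    rw [Char.conjChar_apply]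
    have h2 := congrFun (congrArg Subtype.val (hinv (h : G))) (φ n)
    simp only [conjIrr, Char.conjChar_apply] at h2
    exact h2
  obtain ⟨BH, hBH, hBHcov, hBHd⟩ := exists_defect_ge L hM hb' hb'inv
  have huniq : ∀ C : Set (IrrCharacter H), IsPBlock M C →
      bar M C * emb L (bar M b') ≠ 0 → C = BH := by
    intro C hCb hCne
    obtain ⟨χ, hχ, ψ, hψ, hne⟩ := (covers_iff L hM hCb hb').2 hCne
    obtain ⟨χ', hχ', ψ', hψ', hne'⟩ := (covers_iff L hM hBH hb').2 hBHcov
    rw [hb'mem ψ hψ] at hne
    rw [hb'mem ψ' hψ'] at hne'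
    exact eq_of_mem_of_mem hCb hBH
      ((mem_iff_sameBlock hCb hχ).2 (sameBlock_of_constituent L hM hk hne hne' (sameBlock_refl θ')))
      hχ'
  have hL0 : IsClassCoeff (emb L (bar M b')) := isClassCoeff_iff_cj.2 fun h =>
    (stabilizesBlock_normal_iff L hb' h).1 (stabilizesBlock_of_inv L hb'inv h)
  have hLi : IsIdempotentElem (emb L (bar M b')) := by
    rw [IsIdempotentElem, ← map_mul, (isIdempotentElem_bar hb').eq]
  have hbarBH : emb L (bar M b') = bar M BH := by
    conv_lhs => rw [← one_mul (emb L (bar M b')), ← sum_bar (M := M) (H := H), Finset.sum_mul]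
    rw [Finset.sum_eq_single BH]
    · exact (bar_mul_idem hBH hL0 hLi).resolve_left hBHcov
    · intro C hC' hne
      by_contra h
      exact hne (huniq C (mem_blocks.1 hC') h)
    · exact fun h => absurd (mem_blocks.2 hBH) h
  -- the defect group of that block is a Sylow subgroup
  obtain ⟨D, hD⟩ := exists_isDefectGroup hM hBH
  obtain ⟨hDp, hDc, -⟩ := IsDefectGroup.props hM hBH hD
  have hvH : (Nat.card H).factorization p ≤ blockDefect p BH := by
    rw [hk] at hBHd
    simp only [Nat.factorization_pow, Finsupp.smul_apply, smul_eq_mul,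
      hM.1.factorization_self, mul_one] at hBHd
    rw [← Subgroup.index_mul_card L, hk,
      Nat.factorization_mul (pow_ne_zero _ hM.1.ne_zero) Nat.card_pos.ne', Finsupp.add_apply,
      Nat.factorization_eq_zero_of_not_dvd hpL, Nat.factorization_pow, Finsupp.smul_apply,
      smul_eq_mul, hM.1.factorization_self, mul_one]
    omega
  obtain ⟨S, hS⟩ := hDp.exists_le_sylow
  have hDS : D = S := Subgroup.eq_of_le_of_card_ge hS (by
    rw [S.card_eq_multiplicity, hDc]
    exact Nat.pow_le_pow_right hM.1.pos hvH)
  have hCD : Subgroup.centralizer (D.map H.subtype : Set G) ≤ H := by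
    rw [hDS]
    exact hC S
  set D' := D.map H.subtype with hD'
  have hD'p : IsPGroup p D' := hDp.map _
  -- the Brauer image of `z` is a block of `N_H(D)`
  set NH := Subgroup.normalizer (D : Set H) with hNHdef
  have hCNH := centralizer_le_normalizer_self D
  obtain ⟨c, hind⟩ := exists_inducing_block hM hDp Subgroup.le_normalizer hCNH le_rfl hBH hD le_rfl
  have hcD := isDefectGroup_normalizer_of_induced hM hind hD
  have hc := hind.1
  have hbrz : br D' z = emb H (emb NH (bar M c)) := by
    rw [← hzH, hbarBH, hD', br_emb, br_bar_eq_of_induced hM hDp hind hcD hD]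
  -- every covering block has that same image
  have hmain : ∀ C : Set (IrrCharacter G), IsPBlock M C → bar M C * z ≠ 0 →
      br D' (bar M C * z) = br D' z ∧ br D' z ≠ 0 := by
    intro C hCb hne
    have hfix : ∀ u : G, cj u (bar M C) = bar M C := isClassCoeff_iff_cj.1 (isClassCoeff_bar C)
    have hwfix : ∀ u : G, cj u (bar M C * z) = bar M C * z := fun u => by
      rw [map_mul, hfix, hzfix]
    have hwi : IsIdempotentElem (bar M C * z) :=
      (isIdempotentElem_bar hCb).mul_of_commute ((isClassCoeff_bar C).commute _) hzi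
    have hwz : bar M C * z * z = bar M C * z := by rw [mul_assoc, hzi.eq]
    have hbr : br D' (bar M C * z) ≠ 0 :=
      br_defect_ne_zero hM (T := ⊤) le_top (fun t _ => mem_normalizer_normal H t) hBH hD
        (fun n _ => hwfix n) (fun x hx => absurd (Subgroup.mem_top x) hx) hwi
        (by rw [← hbarBH, hzH, ← mul_assoc, ← ((isClassCoeff_bar C).commute z).eq, mul_assoc,
          hzi.eq]) hne
    set w := br D' (bar M C * z) with hw
    set y := toSub NH (toSub H w) with hy
    have hwH : emb H (toSub H w) = w := restr_self fun x hx =>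
      coeff_br_of_not_mem _ fun h => hx (hCD h)
    have hyH : emb NH y = toSub H w := restr_self fun x hx => by
      rw [coeff_toSub, hw, coeff_br_of_not_mem]
      intro h
      exact hx (hCNH (mem_centralizer_push.2 h))
    have hwbr : w * br D' z = w := by
      rw [hw, ← br_mul hM hD'p (fun u _ => hwfix u) (fun u _ => hzfix u), hwz]
    have hwidem : w * w = w := by
      rw [hw, ← br_mul hM hD'p (fun u _ => hwfix u) (fun u _ => hwfix u), hwi.eq]
    have hinj : Function.Injective fun a => emb (M := M) H (emb NH a) :=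
      (emb_injective H).comp (emb_injective NH)
    have hyw : emb H (emb NH y) = w := by rw [hyH, hwH]
    have hyc : IsClassCoeff y := isClassCoeff_toSub_of_invUnder fun u hu => by
      intro x
      rw [coeff_toSub, coeff_toSub]
      have hn : (u : G) ∈ Subgroup.normalizer (D' : Set G) := by
        refine Subgroup.mem_normalizer_iff.2 fun g => ?_
        constructor
        · rintro ⟨d, hd, rfl⟩
          exact ⟨u * d * u⁻¹, (Subgroup.mem_normalizer_iff.1 hu d).1 hd, by simp⟩
        · rintro ⟨d, hd, he⟩
          refine ⟨u⁻¹ * d * u, ?_, ?_⟩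
          · rw [SetLike.mem_coe, Subgroup.mem_normalizer_iff.1 hu]
            simpa [mul_assoc] using hd
          · simp only [Subgroup.coe_subtype] at he
            simp [he, mul_assoc]
      have hwu : cj (u : G) w = w := by
        rw [hw, cj_br, sj_eq_of_mem_normalizer hn, hwfix]
      simpa using invUnder_iff_cj.2 hwu (x : G)
    have hyi : IsIdempotentElem y := hinj (by simp only [map_mul, hyw, hwidem])
    have hmul : bar M c * y = y := by
      rw [← ((isClassCoeff_bar c).commute y).symm.eq]
      exact hinj (by simp only [map_mul, hyw, ← hbrz, hwbr])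
    rcases bar_mul_idem hc hyc hyi with h0 | h1
    · exact absurd (by rw [← hyw, ← hmul, h0, map_zero, map_zero]) hbr
    · rw [hmul] at h1
      have hwe : w = br D' z := by rw [← hyw, h1, hbrz]
      exact ⟨hwe, hwe ▸ hbr⟩
  by_contra hne
  obtain ⟨h1, h2⟩ := hmain B hB hcov
  obtain ⟨h1', -⟩ := hmain B' hB' hcov'
  refine h2 ?_
  have h3 : br D' (bar M B * z) * br D' (bar M B' * z) = 0 := by
    rw [← br_mul hM hD'p
      (fun u _ => by rw [map_mul, isClassCoeff_iff_cj.1 (isClassCoeff_bar B) u, hzfix u])
      (fun u _ => by rw [map_mul, isClassCoeff_iff_cj.1 (isClassCoeff_bar B') u, hzfix u]),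
      mul_assoc, ← mul_assoc z, ← ((isClassCoeff_bar B').commute z).eq, mul_assoc,
      ← mul_assoc (bar M B), bar_mul_bar_of_ne hB hB' hne, zero_mul, br_zero]
  rw [h1, h1', ← br_mul hM hD'p (fun u _ => hzfix u) (fun u _ => hzfix u), hzi.eq] at h3
  exact h3

end Cfsg.Agent.Lib.Block
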