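import Cfsg.Agent.Lib.Block.Orth
import Cfsg.Agent.Lib.Block.Normal
import Cfsg.Agent.Lib.Block.Contrib
import Cfsg.Agent.Lib.CharKernel
import Cfsg.Agent.Lib.Hall.Basic
import Cfsg.Agent.Lib.Char.RelGraph.Orbits
import Mathlib.GroupTheory.SchurZassenhaus

/-!
# Principal blocks for two primes meeting only in the trivial character

If the principal blocks for `p` and `q` share only the trivial character then every `q`-element
centralises a Sylow `p`-subgroup.  When this holds against every other prime, the Sylow
`p`-subgroup is a direct factor.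
-/

set_option autoImplicit false
set_option linter.unusedSectionVars false
set_option linter.style.haveILetI false

namespace Cfsg.Agent.Lib.Block.Meet

open Cfsg Subgroup Cfsg.Agent.Lib Cfsg.Agent.Lib.Block
open scoped Classical ComplexConjugate

universe u

variable {G : Type u} [Group G] [Finite G] {p q : ℕ} {Mp Mq : Ideal AlgInt}

theorem pow_dvd_card_centralizer [Mp.IsPrime] [Mq.IsPrime] (hMp : IsPModular p Mp)
    (hMq : IsPModular q Mq)
    (hB : ∀ χ ∈ principalBlock Mp G, χ ∈ principalBlock Mq G → χ = oneIrr G)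
    {v : G} (hv : IsPElem q v) :
    p ^ (Nat.card G).factorization p ∣ Nat.card (Subgroup.centralizer ({v} : Set G)) := by
  haveI : Fact q.Prime := ⟨hMq.1⟩
  set C := Subgroup.centralizer ({v} : Set G) with hC
  haveI := Fintype.ofFinite C
  haveI := Fintype.ofFinite G
  set b := principalBlock Mq C with hb
  -- the value at `v` of a member of the principal block, through the centraliser
  have hq : ∀ χ : IrrCharacter G, (if χ ∈ principalBlock Mq G then (χ : G → ℂ) v else 0) =
      ∑ k : C, blockCoeff b k * (χ : G → ℂ) (v * (k : G)) := by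
    intro χ
    have h := sum_induced_blockPart hMq hv (principalBlock Mq G) isPBlock_principalBlock χ
      (y := (1 : C)) regular_one
    rw [OneMemClass.coe_one, mul_one] at h
    rw [← h, Finset.sum_eq_single b,
      blockPart_eq_sum b (isClassFunction_translate (Char.isClassFunction_of_isIrr χ.2) v)]
    · simp
    · intro b' hb' hne
      exact absurd ((induced_principal_iff hMq (Finset.mem_filter.1 hb').2).1 rfl) hne
    · intro hn
      refine absurd (Finset.mem_filter.2 ⟨mem_blocks.2 isPBlock_principalBlock, ?_⟩) hn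
      obtain ⟨B', hB'⟩ := inducedBlockDefined_centralizer (x := v) hMq hv
        (b := b) isPBlock_principalBlock
      rwa [(induced_principal_iff hMq hB').2 rfl] at hB'
  set e := blockCoeff (principalBlock Mp G) with he
  have hone : (1 : ℂ) = ∑ k : C, conj (blockCoeff b k) * ((Nat.card G : ℂ) * e (v * (k : G))) := by
    have hP : ∀ g : G, (Nat.card G : ℂ) * e g = ∑ χ : IrrCharacter G,
        (if χ ∈ principalBlock Mp G then (χ : G → ℂ) 1 * conj ((χ : G → ℂ) g) else 0) := fun g => by
      rw [he, blockCoeff_eq_sum, mul_inv_cancel_left₀ (Char.card_ne_zero_complex G)]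
    simp only [hP, Finset.mul_sum]
    rw [Finset.sum_comm, Finset.sum_eq_single (oneIrr G)]
    · have h1 : (∑ k : C, blockCoeff b k * (oneIrr G : G → ℂ) (v * (k : G))) = 1 := by
        rw [← hq, if_pos oneIrr_mem, oneIrr_apply]
      have h2 := congrArg conj h1
      rw [map_one, map_sum] at h2
      refine h2.symm.trans (Finset.sum_congr rfl fun k _ => ?_)
      rw [if_pos oneIrr_mem]
      simp [oneIrr_apply]
    · intro χ _ hne
      by_cases hχ : χ ∈ principalBlock Mp G
      · have h2 := congrArg conj (hq χ)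
        rw [if_neg (fun h => hne (hB χ hχ h)), map_zero, map_sum] at h2
        simp only [if_pos hχ, map_mul] at h2 ⊢
        rw [Finset.sum_congr rfl fun k _ => mul_left_comm _ _ _, ← Finset.mul_sum, ← h2, mul_zero]
      · simp [hχ]
    · simp
  set a := (Nat.card G).factorization p with ha
  have hp0 : ((p : ℂ) ^ a) ≠ 0 := pow_ne_zero _ (Nat.cast_ne_zero.2 hMp.1.ne_zero)
  obtain ⟨n, hn⟩ : p ^ a ∣ Nat.card G := Nat.ordProj_dvd (Nat.card G) p
  have hmem : ((Nat.card C : ℤ) : ℂ) / ((p : ℂ) ^ a) ∈ locRing Mp := by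
    have h3 : ((Nat.card C : ℤ) : ℂ) / ((p : ℂ) ^ a) =
        ∑ k : C, ((Nat.card C : ℂ) * conj (blockCoeff b k)) * ((n : ℂ) * e (v * (k : G))) := by
      calc ((Nat.card C : ℤ) : ℂ) / ((p : ℂ) ^ a)
          = ((Nat.card C : ℂ) * ∑ k : C, conj (blockCoeff b k) *
              ((Nat.card G : ℂ) * e (v * (k : G)))) / ((p : ℂ) ^ a) := by
            rw [← hone, mul_one]; simp
        _ = _ := by
            rw [Finset.mul_sum, Finset.sum_div]
            refine Finset.sum_congr rfl fun k _ => ?_
            rw [show (Nat.card G : ℂ) = (p : ℂ) ^ a * (n : ℂ) by exact_mod_cast congrArg (Nat.cast : ℕ → ℂ) hn]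
            field_simp
    rw [h3]
    refine sum_mem fun k _ => mul_mem ?_ (mul_mem (nat_mem n) ?_)
    · refine integral_mem_locRing ?_
      rw [blockCoeff_eq_sum, map_mul, map_inv₀, Complex.conj_natCast,
        mul_inv_cancel_left₀ (Char.card_ne_zero_complex C), map_sum]
      refine IsIntegral.sum _ fun φ _ => ?_
      split_ifs
      · rw [map_mul, Complex.conj_conj, irr_one_eq_natCast, Complex.conj_natCast,
          ← irr_one_eq_natCast]
        exact (Char.char_isIntegral (Char.isCharacter_of_isIrr φ.2) _).mul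
          (Char.char_isIntegral (Char.isCharacter_of_isIrr φ.2) _)
      · rw [map_zero]; exact isIntegral_zero
    · exact intR_eIdem (isPBlock_principalBlock (M := Mp) (G := G)) (v * (k : G))
  have := dvd_of_div_pow_mem hMp a hmem
  exact_mod_cast this

theorem not_dvd_index_centralizer [hp : Fact p.Prime] {x : G}
    (h : p ^ (Nat.card G).factorization p ∣ Nat.card (Subgroup.centralizer ({x} : Set G))) :
    ¬ p ∣ (Subgroup.centralizer ({x} : Set G)).index := by
  intro hd
  refine Nat.pow_succ_factorization_not_dvd (n := Nat.card G) Nat.card_pos.ne' hp.out ?_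
  rw [pow_succ]
  exact (mul_dvd_mul h hd).trans (Subgroup.card_mul_index _).dvd

/-- If `p`-elements have `p`-power class size and the other prime power elements have class size
prime to `p`, then the Sylow `p`-subgroup is a direct factor. -/
theorem direct_factor [hp : Fact p.Prime] (P : Sylow p G)
    (h1 : ∀ x : G, IsPElem p x → ∀ r : ℕ, r.Prime → r ≠ p →
      ¬ r ∣ (Subgroup.centralizer ({x} : Set G)).index)
    (h2 : ∀ r : ℕ, r.Prime → r ≠ p → ∀ y : G, IsPElem r y →
      p ^ (Nat.card G).factorization p ∣ Nat.card (Subgroup.centralizer ({y} : Set G))) :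
    (P : Subgroup G).Normal ∧ (P : Subgroup G) ⊔ pPrimeCore p G = ⊤ := by
  haveI := Fintype.ofFinite G
  have hPn : (P : Subgroup G).Normal := by
    refine ⟨fun x hx g => ?_⟩
    have hcop : ((P : Subgroup G).index).Coprime (Subgroup.centralizer ({x} : Set G)).index := by
      refine Nat.coprime_of_dvd fun r hr hrP hrC => ?_
      rcases eq_or_ne r p with rfl | hne
      · exact P.not_dvd_index hrP
      · exact h1 x (isPElem_of_mem P.2 hx) r hr hne hrC
    obtain ⟨a, ha, c, hc, rfl⟩ := Char.RelGraph.exists_factor hcop g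
    rw [show a * c * x * (a * c)⁻¹ = a * (c * x * c⁻¹) * a⁻¹ by group,
      Subgroup.mem_centralizer_singleton_iff.1 hc, mul_inv_cancel_right]
    exact mul_mem (mul_mem ha hx) (inv_mem ha)
  refine ⟨hPn, ?_⟩
  -- prime power elements of other primes centralise `P`
  have hcent : ∀ r : ℕ, r.Prime → r ≠ p → ∀ y : G, IsPElem r y →
      y ∈ Subgroup.centralizer ((P : Subgroup G) : Set G) := by
    intro r hr hne y hy
    set C := Subgroup.centralizer ({y} : Set G)
    obtain ⟨R⟩ : Nonempty (Sylow p C) := inferInstance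
    have hR : IsPGroup p ((R : Subgroup C).map C.subtype) := R.2.map _
    obtain ⟨P', hP'⟩ := hR.exists_le_sylow
    haveI := Sylow.unique_of_normal P hPn
    rw [Subsingleton.elim P' P] at hP'
    have heq : (R : Subgroup C).map C.subtype = (P : Subgroup G) := by
      refine Subgroup.eq_of_le_of_card_ge hP' ?_
      rw [Subgroup.card_map_of_injective C.subtype_injective, Sylow.card_eq_multiplicity,
        Sylow.card_eq_multiplicity]
      refine Nat.pow_le_pow_right hp.out.pos ?_
      exact (hp.out.pow_dvd_iff_le_factorization Nat.card_pos.ne').1 (h2 r hr hne y hy)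
    refine Subgroup.mem_centralizer_iff.2 fun z hz => ?_
    have hzC : z ∈ C := by
      rw [SetLike.mem_coe, ← heq] at hz
      exact Subgroup.map_subtype_le _ hz
    exact Subgroup.mem_centralizer_singleton_iff.1 hzC
  obtain ⟨H, hH⟩ := Subgroup.exists_right_complement'_of_coprime (N := (P : Subgroup G)) P.card_coprime_index
  have hHcard : Nat.card H = (P : Subgroup G).index := (hH.symm.index_eq_card).symm
  have hHp : ¬ p ∣ Nat.card H := hHcard ▸ P.not_dvd_index
  have hHC : H ≤ Subgroup.centralizer ((P : Subgroup G) : Set G) := by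
    rw [← Subgroup.subgroupOf_eq_top]
    rw [← Subgroup.index_eq_one]
    by_contra hne
    obtain ⟨r, hr, hrd⟩ := Nat.exists_prime_and_dvd hne
    haveI := Fact.mk hr
    have hrp : r ≠ p := fun h => hHp (h ▸ hrd.trans (Subgroup.index_dvd_card _))
    obtain ⟨R⟩ : Nonempty (Sylow r H) := inferInstance
    refine R.not_dvd_index (hrd.trans (Subgroup.index_dvd_of_le fun w hw => ?_))
    refine Subgroup.mem_subgroupOf.2 (hcent r hr hrp _ ?_)
    obtain ⟨k, hk⟩ := isPElem_of_mem R.2 hw
    exact ⟨k, by rw [Subgroup.orderOf_coe, hk]⟩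
  have hsup : (P : Subgroup G) ⊔ H = ⊤ := hH.sup_eq_top
  haveI : H.Normal := by
    rw [← Subgroup.normalizer_eq_top_iff, eq_top_iff, ← hsup]
    refine sup_le (fun z hz => ?_) Subgroup.le_normalizer
    refine Subgroup.mem_normalizer_iff.2 fun w => ?_
    have hcomm : ∀ w ∈ H, z * w * z⁻¹ = w := fun w hw => by
      rw [(Subgroup.mem_centralizer_iff.1 (hHC hw) z hz), mul_inv_cancel_right]
    refine ⟨fun hw => (hcomm w hw).symm ▸ hw, fun hw => ?_⟩
    have h3 := hcomm _ hw
    have : z * w * z⁻¹ = w := mul_left_cancel (mul_right_cancel h3)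
    rwa [this] at hw
  rw [eq_top_iff, ← hsup]
  exact sup_le_sup_left (Hall.le_pPrimeCore ((Nat.Prime.coprime_iff_not_dvd hp.out).2 hHp).symm) _

theorem trivial_of_direct [hp : Fact p.Prime] [hq : Fact q.Prime] [Mp.IsPrime] [Mq.IsPrime]
    (hMp : IsPModular p Mp) (hMq : IsPModular q Mq) (hne : q ≠ p) (P : Sylow p G)
    (hPn : (P : Subgroup G).Normal) (htop : (P : Subgroup G) ⊔ pPrimeCore p G = ⊤)
    {χ : IrrCharacter G} (h1 : χ ∈ principalBlock Mp G) (h2 : χ ∈ principalBlock Mq G) :
    χ = oneIrr G := by
  haveI := Fintype.ofFinite G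
  haveI := hPn
  have hle : (⊤ : Subgroup G) ≤ CharKernel.kerChar (Char.isCharacter_of_isIrr χ.2) := by
    rw [← htop]
    refine sup_le (fun n hn => ?_) (fun n hn => ?_)
    · refine (CharKernel.mem_kerChar _ _).2 (trivial_on_of_sameBlock (P : Subgroup G) hMq ?_
        (show SameBlock Mq (oneIrr G : G → ℂ) (χ : G → ℂ) from h2) (fun _ _ => rfl) hn)
      intro hd
      obtain ⟨k, hk⟩ := (IsPGroup.iff_card.1 P.2)
      rw [hk] at hd
      exact hne ((Nat.prime_dvd_prime_iff_eq hq.out hp.out).1 (hq.out.dvd_of_dvd_pow hd))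
    · exact (CharKernel.mem_kerChar _ _).2 (trivial_on_of_sameBlock (pPrimeCore p G) hMp
        (Hall.not_dvd_card_pPrimeCore hMp.1)
        (show SameBlock Mp (oneIrr G : G → ℂ) (χ : G → ℂ) from h1) (fun _ _ => rfl) hn)
  by_contra hχ
  have h := Char.classInner_irrCharacter χ (oneIrr G)
  rw [if_neg hχ, classInner] at h
  simp only [fun g : G => (CharKernel.mem_kerChar _ _).1 (hle (Subgroup.mem_top g)), oneIrr_apply, map_one,
    mul_one, Finset.sum_const, Finset.card_univ, nsmul_eq_mul, Nat.card_eq_fintype_card] at h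
  simp [deg_ne_zero χ] at h

end Cfsg.Agent.Lib.Block.Meet
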