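import Cfsg.Agent.Lib.Block.QuotientLattice
import Cfsg.Agent.Lib.Block.CyclicLattice
import Cfsg.Agent.Lib.Block.ContribTrace
import Cfsg.Agent.Lib.Block.Dominate
import Cfsg.Agent.Lib.BrauerPairs.AbelianInertial

/-!
# Blocks with abelian defect groups on two or three generators

For a generator `x` of an abelian defect group the major subsection at `x` lies over a block of
`C(x) / ⟨x⟩` with cyclic defect group; its explicit basis of regular restrictions bounds the block
by the order of the defect group.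
-/

namespace Cfsg.Agent.Lib.Block

open Cfsg Cfsg.Agent.Lib.BrauerPairs
open scoped ComplexConjugate

set_option linter.unusedSectionVars false
set_option linter.style.haveILetI false

universe u

variable {p : ℕ} {M : Ideal AlgInt} [M.IsPrime] {G : Type u} [Group G] [Finite G]

/-- The major subsection at an element of an abelian defect group. -/
theorem exists_major_subsection (hM : IsPModular p M) {B : Set (IrrCharacter G)}
    (hB : IsPBlock M B) {D : Subgroup G} (hBD : IsDefectGroup p M B D)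
    (hab : ∀ u ∈ D, ∀ v ∈ D, u * v = v * u) {x : G} (hx : x ∈ D) :
    ∃ (C : Subgroup G) (_ : C = Subgroup.centralizer ({x} : Set G)) (b : Set (IrrCharacter C)),
      IsInducedBlock M C b B ∧ blockDefect p b = blockDefect p B ∧
        IsDefectGroup p M b (D.subgroupOf C) := by
  haveI : Fact p.Prime := ⟨hM.1⟩
  obtain ⟨e, he⟩ := exists_pair_on_defect hM hB hBD
  have hmax := isMaximal_of_card hM he (IsDefectGroup.props hM hB hBD).2.1
  obtain ⟨f, hf, hle⟩ := exists_le hM hmax.1.1.1 hmax.1.1.2 (Subgroup.zpowers x)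
    (Subgroup.zpowers_le.2 hx)
  obtain ⟨e', hmax', -⟩ := exists_pull_maximal hM hmax hab hle
  obtain ⟨hQ, hfb, -, ho⟩ := (isBrauerPairOf_iff hM).1
    ((pairOf_iff_of_le hM hmax.1.1.1 hmax.1.1.2 hle).2 hmax.1)
  exact ⟨_, KleinDefect.centralizer_zpowers x, f,
    (Cfsg.Agent.S4642.induced_iff_occ hM hQ hB).2 ⟨hfb, ho⟩,
    blockDefect_below_abelian hM hmax hab hle, isDefectGroup_of_maximal hM hmax'⟩

/-- The block below in the quotient by a central `p`-subgroup, with its defect group. -/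
theorem exists_block_below (hM : IsPModular p M) {P : Subgroup G} [P.Normal]
    (hP : IsPGroup p P) (hG : P ⊔ Subgroup.centralizer (P : Set G) = ⊤)
    {b : Set (IrrCharacter G)} (hb : IsPBlock M b) {Db : Subgroup G}
    (hbD : IsDefectGroup p M b Db) (hPD : P ≤ Db) :
    ∃ bb : Set (IrrCharacter (G ⧸ P)), IsPBlock M bb ∧
      (∀ ψ, (Char.inflateEquiv P ψ).1 ∈ b ↔ ψ ∈ bb) ∧
      IsDefectGroup p M bb (Db.map (QuotientGroup.mk' P)) ∧
      Nat.card P * Nat.card (Db.map (QuotientGroup.mk' P)) = Nat.card Db := by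
  haveI : Fact p.Prime := ⟨hM.1⟩
  obtain ⟨bb, hbb, hsub, hdef⟩ := exists_block_image_defect (N := P) hM hP hb
  have hinf : ∀ ψ : IrrCharacter (G ⧸ P), inflate P ψ = (Char.inflateEquiv P ψ).1 :=
    fun ψ => Subtype.ext rfl
  refine ⟨bb, hbb, fun ψ => ⟨fun h => ?_, fun h => hinf ψ ▸ hsub ψ h⟩,
    (hdef _).2 ⟨Db, hbD, rfl⟩, ?_⟩
  · obtain ⟨η, hη⟩ := isPBlock_nonempty hbb
    exact (mem_iff_sameBlock hbb hη).2 ((sameBlock_inflate_iff hM hP hG η ψ).1
      (sameBlock_of_mem hb (hinf η ▸ hsub η hη) h))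
  · set f := (QuotientGroup.mk' P).comp Db.subtype with hf
    have hker : f.ker = P.subgroupOf Db := by
      ext u
      simp [hf, Subgroup.mem_subgroupOf]
    have hrange : f.range = Db.map (QuotientGroup.mk' P) := by
      rw [hf, MonoidHom.range_comp, Subgroup.range_subtype]
    have h := Subgroup.card_eq_card_quotient_mul_card_subgroup f.ker
    rw [Nat.card_congr (QuotientGroup.quotientKerEquivRange f).toEquiv, hrange, hker,
      Nat.card_congr (Subgroup.subgroupOfEquivOfLe hPD).toEquiv] at h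
    rw [h, mul_comm]

/-- With a nonzero coordinate, differences and doubled singles give at least twice as many nonzero
entries as coordinates. -/
lemma two_mul_le_count {e r : ℕ} (hr : 0 < r) (n : Fin e → ℂ) {i₀ : Fin e} (h : n i₀ ≠ 0) :
    2 * e ≤ (∑ _u : Fin 2, ∑ i : Fin e, if n i = 0 then 0 else 1) +
      ∑ _t : Fin r, ∑ i : Fin e, ∑ j : Fin e, if n i - n j = 0 then 0 else 1 := by
  classical
  simp only [Finset.sum_const, Finset.card_univ, Fintype.card_fin, smul_eq_mul]
  set f : Fin e → Fin e → ℕ := fun i j => if n i - n j = 0 then 0 else 1 with hf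
  set T := ∑ i, ∑ j, f i j
  have hT : (∑ j, f i₀ j) + ∑ i, f i i₀ ≤ T := by
    have h1 : ∑ i, f i i₀ = ∑ i ∈ Finset.univ.erase i₀, f i i₀ := by
      rw [← Finset.add_sum_erase _ _ (Finset.mem_univ i₀), show f i₀ i₀ = 0 by simp [hf], zero_add]
    have h2 : T = (∑ j, f i₀ j) + ∑ i ∈ Finset.univ.erase i₀, ∑ j, f i j :=
      (Finset.add_sum_erase _ _ (Finset.mem_univ i₀)).symm
    rw [h1, h2]
    exact Nat.add_le_add_left (Finset.sum_le_sum fun i _ =>
      Finset.single_le_sum (fun j _ => Nat.zero_le (f i j)) (Finset.mem_univ i₀)) _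
  have hsym : ∑ i, f i i₀ = ∑ j, f i₀ j := Finset.sum_congr rfl fun i _ => by
    simp only [hf, sub_eq_zero, eq_comm]
  have hone : e ≤ (∑ i, if n i = 0 then 0 else 1) + ∑ j, f i₀ j := by
    rw [← Finset.sum_add_distrib]
    refine le_of_eq_of_le ?_ (Finset.sum_le_sum (f := fun _ => 1) fun i _ => ?_)
    · simp
    · by_cases hi : n i = 0
      · simp [hf, hi, h]
      · simp [hi]
  have hT' : T ≤ r * T := Nat.le_mul_of_pos_left _ hr
  show 2 * e ≤ 2 * _ + r * T
  omega

open scoped Classical in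
/-- A major subsection over a block with cyclic nontrivial defect group modulo `x` bounds the block
by the order of the defect group. -/
theorem card_le_of_cyclic_quotient (hM : IsPModular p M) {x : G} (hx : IsPElem p x)
    {b : Set (IrrCharacter (Subgroup.centralizer ({x} : Set G)))} {B : Set (IrrCharacter G)} {d : ℕ}
    (hind : IsInducedBlock M (Subgroup.centralizer ({x} : Set G)) b B)
    (hd : blockDefect p b = d) (hBd : blockDefect p B = d)
    {P : Subgroup (Subgroup.centralizer ({x} : Set G))} [P.Normal] (hP : IsPGroup p P)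
    (hG : P ⊔ Subgroup.centralizer (P : Set (Subgroup.centralizer ({x} : Set G))) = ⊤)
    {bb : Set (IrrCharacter (Subgroup.centralizer ({x} : Set G) ⧸ P))} (hbb : IsPBlock M bb)
    (hmem : ∀ ψ, (Char.inflateEquiv P ψ).1 ∈ b ↔ ψ ∈ bb)
    {Db : Subgroup (Subgroup.centralizer ({x} : Set G) ⧸ P)} (hbD : IsDefectGroup p M bb Db)
    (hcyc : IsCyclic Db) (hDb : Db ≠ ⊥) (hcard : Nat.card P * Nat.card Db = p ^ d) :
    Nat.card B ≤ p ^ d := by
  haveI : Fact p.Prime := ⟨hM.1⟩
  haveI := Fintype.ofFinite G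
  haveI := Fintype.ofFinite (Subgroup.centralizer ({x} : Set G))
  haveI := Fintype.ofFinite (Subgroup.centralizer ({x} : Set G) ⧸ P)
  obtain ⟨e, r, W, dm, hr, he, hq, -, hli, hdm, hW0, hgram⟩ :=
    exists_cyclic_lattice hM hbb hbD hcyc hDb
  -- the inflated basis
  let W' : Fin e → (Subgroup.centralizer ({x} : Set G)) → ℂ := fun i => pRegularPart p fun g => W i (g : (Subgroup.centralizer ({x} : Set G)) ⧸ P)
  have hz : ∀ ξ : IrrCharacter (Subgroup.centralizer ({x} : Set G)), ∃ z : Fin e → ℤ, ξ ∈ b →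
      pRegularPart p (ξ : (Subgroup.centralizer ({x} : Set G)) → ℂ) = ∑ i, (z i : ℂ) • W' i := by
    intro ξ
    by_cases hξ : ξ ∈ b
    · obtain ⟨z, hz⟩ := exists_int_descent hM hP hG hind.1 hbb hmem dm hli hdm hξ
      refine ⟨z, fun _ => funext fun g => ?_⟩
      simp only [W', Finset.sum_apply, Pi.smul_apply, smul_eq_mul, pRegularPart_apply]
      by_cases hg : p ∣ orderOf g
      · simp [hg]
      · simp only [if_neg hg, hz g hg]
    · exact ⟨0, fun h => absurd h hξ⟩
  choose z hz using hz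
  have hrank : blockRank p b ≤ e := by
    rw [← finrank_regSpan]
    have hle : regSpan p b ≤ Submodule.span ℂ (Set.range W') := by
      refine Submodule.span_le.2 ?_
      rintro _ ⟨ξ, hξ, rfl⟩
      exact (Submodule.mem_span_range_iff_exists_fun ℂ).2 ⟨_, (hz ξ hξ).symm⟩
    exact (Submodule.finrank_mono hle).trans ((finrank_range_le_card W').trans_eq (Fintype.card_fin e))
  have hgram' : ∀ i j, (p : ℂ) ^ d * classInner (W' i) (W' j) =
      (if i = j then (Nat.card Db : ℂ) else 0) - (r : ℂ) := by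
    intro i j
    rw [← hgram i j, regInner_inflate hM hP hG (φ := fun g : (Subgroup.centralizer ({x} : Set G)) => W i (g : (Subgroup.centralizer ({x} : Set G)) ⧸ P))
      (ψ := fun g : (Subgroup.centralizer ({x} : Set G)) => W j (g : (Subgroup.centralizer ({x} : Set G)) ⧸ P)) (fun g _ => rfl) (hW0 i) (fun g => rfl),
      ← classInner_pRegularPart, ← mul_assoc, ← Nat.cast_mul, mul_comm (Nat.card Db), hcard,
      Nat.cast_pow]
  set N := Nat.card (Subgroup.centralizer ({x} : Set G))
  set k := N.factorization p with hk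
  have hN0 : p * p ^ k ≠ 0 := mul_ne_zero hM.1.ne_zero (pow_ne_zero _ hM.1.ne_zero)
  haveI : NeZero (p * p ^ k) := ⟨hN0⟩
  set ζ := Complex.exp (2 * Real.pi * Complex.I / ((p * p ^ k : ℕ) : ℂ)) with hζdef
  have hζ : IsPrimitiveRoot ζ (p * p ^ k) := Complex.isPrimitiveRoot_exp _ hN0
  have hsecmem : ∀ χ ξ, secCoeff x χ ξ ∈ cycSpan ζ := by
    intro χ ξ
    obtain ⟨ν, m, j, he, hres, hν, hνN⟩ := secCoeff_eq hM hx χ ξ
    have hνk : ν ^ p ^ k = 1 := by
      rw [← orderOf_dvd_iff_pow_eq_one]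
      obtain ⟨i, hi, hio⟩ := (Nat.dvd_prime_pow hM.1).1 (orderOf_dvd_of_pow_eq_one hν)
      rw [hio]
      refine Nat.pow_dvd_pow p ?_
      rw [hk, ← hM.1.pow_dvd_iff_le_factorization Nat.card_pos.ne', ← hio]
      exact orderOf_dvd_of_pow_eq_one hνN
    have : ν ^ (p * p ^ k) = 1 := by rw [mul_comm, pow_mul, hνk, one_pow]
    rw [he, hres, mul_comm, show (m : ℂ) = ((m : ℤ) : ℂ) by simp]
    exact intCast_mul_mem_cycSpan _ (rootOfUnity_mem_cycSpan hζ this)
  let n : IrrCharacter G → Fin e → ℂ := fun χ i =>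
    ∑ ξ : IrrCharacter (Subgroup.centralizer ({x} : Set G)), if ξ ∈ b then (z ξ i : ℂ) * secCoeff x χ ξ else 0
  have hn : ∀ χ i, n χ i ∈ cycSpan ζ := fun χ i => Submodule.sum_mem _ fun ξ _ => by
    split_ifs
    · exact intCast_mul_mem_cycSpan _ (hsecmem χ ξ)
    · exact zero_mem _
  have hsec : ∀ χ : IrrCharacter G, sectionMap p x b (χ : G → ℂ) = ∑ i, n χ i • W' i := by
    intro χ
    simp only [sectionMap_eq_sum, n, Finset.sum_smul]
    rw [Finset.sum_comm]
    refine Finset.sum_congr rfl fun ξ _ => ?_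
    split_ifs with hξ
    · rw [hz ξ hξ, Finset.smul_sum]
      exact Finset.sum_congr rfl fun i _ => by rw [smul_smul, mul_comm]
    · simp
  have hform : ∀ χ : IrrCharacter G, (p : ℂ) ^ d *
      classInner (sectionMap p x b (χ : G → ℂ)) (sectionMap p x b (χ : G → ℂ)) =
        (Nat.card Db : ℂ) * ∑ i, n χ i * conj (n χ i) -
          (r : ℂ) * ((∑ i, n χ i) * conj (∑ i, n χ i)) := by
    intro χ
    have h1 : (p : ℂ) ^ d * classInner (∑ i, n χ i • W' i) (∑ i, n χ i • W' i) =
        ∑ i, ∑ j, n χ i * conj (n χ j) * ((p : ℂ) ^ d * classInner (W' i) (W' j)) := by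
      simp only [Char.classInner_sum_left, Char.classInner_sum_right, Char.classInner_smul_left,
        Char.classInner_smul_right, Finset.mul_sum]
      rw [Finset.sum_comm]
      exact Finset.sum_congr rfl fun i _ => Finset.sum_congr rfl fun j _ => by ring
    rw [hsec, h1]
    simp only [hgram', mul_sub, Finset.sum_sub_distrib, mul_ite, mul_zero, Finset.sum_ite_eq,
      Finset.mem_univ, if_true, map_sum, ← Finset.sum_mul, ← Finset.mul_sum]
    ring
  -- the weighted family
  let y : IrrCharacter G × ((Fin 2 × Fin e) ⊕ (Fin r × Fin e × Fin e)) → ℂ := fun a =>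
    Sum.elim (fun u => n a.1 u.2) (fun u => n a.1 u.2.1 - n a.1 u.2.2) a.2
  have hy : ∀ a, y a ∈ cycSpan ζ := by
    rintro ⟨χ, ⟨u, i⟩ | ⟨t, i, j⟩⟩
    exacts [hn χ i, sub_mem (hn χ i) (hn χ j)]
  have hsum : ∑ a, y a * conj (y a) = ((2 * blockRank p b * p ^ d : ℕ) : ℂ) := by
    push_cast
    rw [mul_assoc, ← sum_contrib (G := G) hM hx hind.1 hd, Finset.mul_sum, Fintype.sum_prod_type]
    refine Finset.sum_congr rfl fun χ _ => ?_
    rw [hform, Fintype.sum_sum_type]
    simp only [y, Sum.elim_inl, Sum.elim_inr, Fintype.sum_prod_type, Finset.sum_const,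
      Finset.card_univ, Fintype.card_fin, nsmul_eq_mul, map_sub, sub_mul, mul_sub,
      Finset.sum_sub_distrib, ← Finset.mul_sum, ← Finset.sum_mul, map_sum]
    rw [← hq]
    push_cast
    ring
  have hle := card_weighted_le hM hζ y hy _ hsum
  have hcount : Nat.card B * (2 * e) ≤ Nat.card {a // y a ≠ 0} := by
    rw [Nat.card_eq_fintype_card, Fintype.card_subtype, Nat.card_eq_fintype_card,
      Fintype.card_subtype, Finset.card_filter (fun a => y a ≠ 0), Fintype.sum_prod_type,
      ← smul_eq_mul, ← Finset.sum_const]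
    refine (Finset.sum_le_sum fun χ hχ => ?_).trans
      (Finset.sum_le_sum_of_subset_of_nonneg (Finset.subset_univ _) fun _ _ _ => Nat.zero_le _)
    have hne : ∃ i, n χ i ≠ 0 := by
      by_contra! hc
      exact sectionMap_ne_zero hM hx hind hd hBd (Finset.mem_filter.1 hχ).2
        (by simp [hsec, hc])
    obtain ⟨i₀, hi₀⟩ := hne
    refine (two_mul_le_count hr (n χ) hi₀).trans (le_of_eq ?_)
    simp only [Fintype.sum_sum_type, Fintype.sum_prod_type, y, Sum.elim_inl, Sum.elim_inr, ne_eq, ite_not]; rfl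
  have h1 : Nat.card B * (2 * e) ≤ p ^ d * (2 * e) := by
    refine hcount.trans ((Nat.le_add_right _ _).trans (hle.trans ?_))
    rw [mul_comm (2 * blockRank p b)]
    exact Nat.mul_le_mul_left _ (Nat.mul_le_mul_left 2 hrank)
  exact Nat.le_of_mul_le_mul_right h1 (by omega)

/-- An abelian defect group generated by `x` and `y` with `y` outside `⟨x⟩`. -/
theorem card_le_of_two_generated (hM : IsPModular p M) {B : Set (IrrCharacter G)}
    (hB : IsPBlock M B) {D : Subgroup G} (hBD : IsDefectGroup p M B D)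
    (hab : ∀ u ∈ D, ∀ v ∈ D, u * v = v * u) {x y : G} (hx : x ∈ D) (hy : y ∈ D)
    (hgen : ∀ K : Subgroup G, x ∈ K → y ∈ K → D ≤ K) (hyx : y ∉ Subgroup.zpowers x) :
    Nat.card B ≤ Nat.card D := by
  haveI : Fact p.Prime := ⟨hM.1⟩
  obtain ⟨hDp, hDc, -⟩ := IsDefectGroup.props hM hB hBD
  obtain ⟨C, rfl, b, hind, hdb, hbD⟩ := exists_major_subsection hM hB hBD hab hx
  rw [hDc]
  have hDC : D ≤ Subgroup.centralizer ({x} : Set G) := fun u hu =>
    Subgroup.mem_centralizer_singleton_iff.2 (hab u hu x hx)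
  set z : Subgroup.centralizer ({x} : Set G) := ⟨x, self_mem_centralizer x⟩ with hzdef
  set P := Subgroup.zpowers z with hP'
  have hcen : ∀ c, Commute c z := fun c => Subtype.ext (Subgroup.mem_centralizer_singleton_iff.1 c.2)
  have hPc : P ≤ Subgroup.center _ := Subgroup.zpowers_le.2 (Subgroup.mem_center_iff.2 fun c => hcen c)
  haveI : P.Normal := ⟨fun v hv g => by
    rwa [Subgroup.mem_center_iff.1 (hPc hv) g, mul_inv_cancel_right]⟩
  have hG : P ⊔ Subgroup.centralizer (P : Set (Subgroup.centralizer ({x} : Set G))) = ⊤ := by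
    rw [eq_top_iff]
    intro c _
    exact Subgroup.mem_sup_right (Subgroup.mem_centralizer_iff.2 fun v hv =>
      (Subgroup.mem_center_iff.1 (hPc hv) c).symm)
  have hPD : P ≤ D.subgroupOf _ := Subgroup.zpowers_le.2 (Subgroup.mem_subgroupOf.2 hx)
  have hPp : IsPGroup p P := ((hDp.comap_of_injective _ (Subgroup.subtype_injective _)).to_le hPD)
  obtain ⟨bb, hbb, hmem, hbbD, hcard⟩ := exists_block_below hM hPp hG hind.1 hbD hPD
  rw [card_subgroupOf hDC, hDc] at hcard
  have hgen' : (D.subgroupOf _).map (QuotientGroup.mk' P) ≤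
      Subgroup.zpowers (((⟨y, hDC hy⟩ : Subgroup.centralizer ({x} : Set G))) : _ ⧸ P) := by
    set Z := Subgroup.zpowers (((⟨y, hDC hy⟩ : Subgroup.centralizer ({x} : Set G))) : _ ⧸ P)
    rw [Subgroup.map_le_iff_le_comap]
    have h := hgen ((Z.comap (QuotientGroup.mk' P)).map (Subgroup.subtype _))
      ⟨z, by
        rw [SetLike.mem_coe, Subgroup.mem_comap, QuotientGroup.mk'_apply,
          (QuotientGroup.eq_one_iff z).2 (Subgroup.mem_zpowers z)]
        exact one_mem _, rfl⟩
      ⟨⟨y, hDC hy⟩, Subgroup.mem_zpowers _, rfl⟩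
    intro c hc
    obtain ⟨c', hc', he⟩ := h (Subgroup.mem_subgroupOf.1 hc)
    rwa [← Subtype.ext he]
  refine card_le_of_cyclic_quotient hM (isPElem_of_mem hDp hx) hind hdb rfl hPp hG hbb hmem hbbD
    (isCyclic_of_injective (Subgroup.inclusion hgen') (Subgroup.inclusion_injective hgen'))
    (fun h => hyx ?_) hcard
  have hmy : ((⟨y, hDC hy⟩ : Subgroup.centralizer ({x} : Set G)) : _ ⧸ P) ∈
      (D.subgroupOf _).map (QuotientGroup.mk' P) :=
    ⟨⟨y, hDC hy⟩, Subgroup.mem_subgroupOf.2 hy, rfl⟩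
  rw [h, Subgroup.mem_bot, QuotientGroup.eq_one_iff] at hmy
  obtain ⟨i, hi⟩ := hmy
  exact ⟨i, congrArg Subtype.val hi⟩

/-- An abelian defect group on three generators, the first of which has the largest order. -/
theorem cube_card_le_of_three_generated (hM : IsPModular p M) {B : Set (IrrCharacter G)}
    (hB : IsPBlock M B) {D : Subgroup G} (hBD : IsDefectGroup p M B D)
    (hab : ∀ u ∈ D, ∀ v ∈ D, u * v = v * u) {x y w : G} (hx : x ∈ D) (hy : y ∈ D) (hw : w ∈ D)
    (hgen : ∀ K : Subgroup G, x ∈ K → y ∈ K → w ∈ K → D ≤ K)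
    (hw2 : ∀ i j : ℤ, w ≠ x ^ i * y ^ j) (hD3 : Nat.card D ≤ orderOf x ^ 3) :
    Nat.card B ^ 3 ≤ Nat.card D ^ 5 := by
  haveI : Fact p.Prime := ⟨hM.1⟩
  obtain ⟨hDp, hDc, -⟩ := IsDefectGroup.props hM hB hBD
  obtain ⟨C, rfl, b, hind, hdb, hbD⟩ := exists_major_subsection hM hB hBD hab hx
  have hDC : D ≤ Subgroup.centralizer ({x} : Set G) := fun u hu =>
    Subgroup.mem_centralizer_singleton_iff.2 (hab u hu x hx)
  set z : Subgroup.centralizer ({x} : Set G) := ⟨x, self_mem_centralizer x⟩ with hzdef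
  set P := Subgroup.zpowers z with hP'
  have hcen : ∀ c, Commute c z := fun c => Subtype.ext (Subgroup.mem_centralizer_singleton_iff.1 c.2)
  have hPc : P ≤ Subgroup.center _ := Subgroup.zpowers_le.2 (Subgroup.mem_center_iff.2 fun c => hcen c)
  haveI : P.Normal := ⟨fun v hv g => by
    rwa [Subgroup.mem_center_iff.1 (hPc hv) g, mul_inv_cancel_right]⟩
  have hG : P ⊔ Subgroup.centralizer (P : Set (Subgroup.centralizer ({x} : Set G))) = ⊤ := by
    rw [eq_top_iff]
    intro c _
    exact Subgroup.mem_sup_right (Subgroup.mem_centralizer_iff.2 fun v hv =>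
      (Subgroup.mem_center_iff.1 (hPc hv) c).symm)
  have hPD : P ≤ D.subgroupOf _ := Subgroup.zpowers_le.2 (Subgroup.mem_subgroupOf.2 hx)
  have hPp : IsPGroup p P := ((hDp.comap_of_injective _ (Subgroup.subtype_injective _)).to_le hPD)
  obtain ⟨bb, hbb, hmem, hbbD, hcard⟩ := exists_block_below hM hPp hG hind.1 hbD hPD
  set Db := (D.subgroupOf (Subgroup.centralizer ({x} : Set G))).map (QuotientGroup.mk' P) with hDb
  have hmk : ∀ u (hu : u ∈ D),
      (((⟨u, hDC hu⟩ : Subgroup.centralizer ({x} : Set G))) : _ ⧸ P) ∈ Db := fun u hu =>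
    ⟨⟨u, hDC hu⟩, Subgroup.mem_subgroupOf.2 hu, rfl⟩
  have hbbB : Nat.card bb ≤ Nat.card Db := by
    refine card_le_of_two_generated hM hbb hbbD ?_ (hmk y hy) (hmk w hw) ?_ ?_
    · rintro _ ⟨u, hu, rfl⟩ _ ⟨v, hv, rfl⟩
      rw [← map_mul, ← map_mul]
      exact congrArg _ (Subtype.ext (hab _ hu _ hv))
    · intro K hK1 hK2
      rw [hDb, Subgroup.map_le_iff_le_comap]
      have h := hgen ((K.comap (QuotientGroup.mk' P)).map (Subgroup.subtype _))
        ⟨z, by
          rw [SetLike.mem_coe, Subgroup.mem_comap, QuotientGroup.mk'_apply,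
            (QuotientGroup.eq_one_iff z).2 (Subgroup.mem_zpowers z)]
          exact one_mem _, rfl⟩
        ⟨⟨y, hDC hy⟩, hK1, rfl⟩ ⟨⟨w, hDC hw⟩, hK2, rfl⟩
      intro c hc
      obtain ⟨c', hc', he⟩ := h (Subgroup.mem_subgroupOf.1 hc)
      rwa [← Subtype.ext he]
    · rintro ⟨j, hj⟩
      simp only [← QuotientGroup.mk_zpow, QuotientGroup.eq] at hj
      obtain ⟨i, hi⟩ := hj
      refine hw2 i j ?_
      have h := congrArg Subtype.val hi
      simp only [hzdef, SubgroupClass.coe_zpow, Subgroup.coe_mul, Subgroup.coe_inv] at h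
      rw [((Commute.zpow_left (hab x hx y hy) i).zpow_right j).eq, h, mul_inv_cancel_left]
  have hPx : Nat.card P = orderOf x := by
    rw [hP', Nat.card_zpowers, hzdef, Subgroup.orderOf_mk]
  rw [card_subgroupOf hDC, hPx] at hcard
  haveI := Fintype.ofFinite (Subgroup.centralizer ({x} : Set G))
  have hk : Nat.card B ≤ Nat.card D * Nat.card Db := by
    refine (card_le_pow_mul_blockRank hM (isPElem_of_mem hDp hx) hind hdb rfl).trans ?_
    rw [← hDc]
    exact Nat.mul_le_mul_left _ ((blockRank_le_card_quotient hM hPp hG hind.1 hmem).trans hbbB)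
  refine Nat.le_of_mul_le_mul_right ?_ (pow_pos (orderOf_pos x) 3)
  calc Nat.card B ^ 3 * orderOf x ^ 3 ≤ (Nat.card D * Nat.card Db) ^ 3 * orderOf x ^ 3 :=
        Nat.mul_le_mul_right _ (Nat.pow_le_pow_left hk 3)
    _ = Nat.card D ^ 3 * (orderOf x * Nat.card Db) ^ 3 := by ring
    _ = Nat.card D ^ 5 * Nat.card D := by rw [hcard]; ring
    _ ≤ _ := Nat.mul_le_mul_left _ hD3

end Cfsg.Agent.Lib.Block
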