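import Cfsg.Agent.Lib.Block.PElemSum
import Cfsg.Agent.Lib.Block.Green
import Cfsg.Agent.Lib.Char.Orthogonality

/-!
# Blocks with a given defect group from separated classes
-/

set_option autoImplicit false
set_option linter.unusedSectionVars false
set_option linter.style.haveILetI false

namespace Cfsg.Agent.Lib.Block

open Cfsg
open scoped ComplexConjugate

universe u

variable {p : ℕ} {M : Ideal AlgInt} [M.IsPrime] {G : Type u} [Group G] [Finite G]

/-- Orthogonality of two classes weighted by the sums over elements of p-power order. -/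
theorem sum_centralChar_pElem [Fintype G] [DecidablePred (IsPElem (G := G) p)] {a b : G}
    (hsep : ∀ g h : G, IsConj a g → IsConj b h → IsPElem p (g * h⁻¹) → g = h) :
    ∑ χ : IrrCharacter G, (χ : G → ℂ) 1 * centralChar (χ : G → ℂ) a *
        centralChar (χ : G → ℂ) b⁻¹ * ∑ u : G, (if IsPElem p u then (χ : G → ℂ) u else 0) =
      (@ite ℂ (IsConj a b) (Classical.propDecidable _)
        ((Subgroup.centralizer ({a} : Set G)).index : ℂ) 0) * (Nat.card G : ℂ) := by
  classical
  set s := classSum ℂ a * classSum ℂ b⁻¹ with hs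
  have hsc : IsClassCoeff s := (isClassCoeff_classSum a).mul (isClassCoeff_classSum b⁻¹)
  have hpair : ∀ χ : IrrCharacter G, (χ : G → ℂ) 1 * centralChar (χ : G → ℂ) a *
      centralChar (χ : G → ℂ) b⁻¹ = ∑ y, s.coeff y * (χ : G → ℂ) y := by
    intro χ
    rw [mul_assoc, ← omega_classSum_irr, ← omega_classSum_irr,
      ← omega_mul χ (isClassCoeff_classSum a), ← hs, omega, pair_eq_sum,
      mul_div_cancel₀ _ (deg_ne_zero χ)]
  have horth : ∀ u : G, ∑ y, s.coeff y * ∑ χ : IrrCharacter G, (χ : G → ℂ) y * (χ : G → ℂ) u =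
      s.coeff u⁻¹ * (Nat.card G : ℂ) := by
    intro u
    set F := Finset.univ.filter fun x => IsConj x u⁻¹ with hF
    have hF0 : (F.card : ℂ) ≠ 0 :=
      Nat.cast_ne_zero.2 (Finset.card_ne_zero.2 ⟨u⁻¹, by simpa [hF] using IsConj.refl u⁻¹⟩)
    calc ∑ y, s.coeff y * ∑ χ : IrrCharacter G, (χ : G → ℂ) y * (χ : G → ℂ) u
        = ∑ y, if y ∈ F then s.coeff u⁻¹ * ((Nat.card G : ℂ) / F.card) else 0 := by
          refine Finset.sum_congr rfl fun y _ => ?_
          rw [Finset.sum_congr rfl (g := fun χ : IrrCharacter G => (χ : G → ℂ) y * conj ((χ : G → ℂ) u⁻¹))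
            fun χ _ => by rw [Char.char_inv (Char.isCharacter_of_isIrr χ.2), Complex.conj_conj],
            Char.sum_irr_mul_conj]
          simp only [hF, Finset.mem_filter, Finset.mem_univ, true_and]
          split_ifs with h
          · rw [hsc.conj h]
          · rw [mul_zero]
      _ = s.coeff u⁻¹ * (Nat.card G : ℂ) := by
          rw [Finset.sum_ite_mem, Finset.univ_inter, Finset.sum_const, nsmul_eq_mul]
          field_simp
  simp only [hpair, Finset.sum_mul, Finset.mul_sum]
  rw [Finset.sum_comm, Finset.sum_congr rfl fun y _ => Finset.sum_comm, Finset.sum_comm]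
  have hzero : ∀ u : G, IsPElem p u → u ≠ 1 → s.coeff u⁻¹ = 0 := by
    intro u hu hu1
    rw [hs, coeff_mul_eq_sum']
    refine Finset.sum_eq_zero fun y _ => ?_
    rw [coeff_classSum, coeff_classSum]
    split_ifs with h1 h2 <;> try simp only [mul_zero, zero_mul]
    exfalso
    have hb : IsConj b y⁻¹ := by
      obtain ⟨c, hc⟩ := isConj_iff.1 h2
      exact isConj_iff.2 ⟨c, by rw [← hc]; group⟩
    have := hsep (u⁻¹ * y⁻¹) y⁻¹ h1 hb (by
      obtain ⟨k, hk⟩ := hu
      exact ⟨k, by rw [inv_inv, inv_mul_cancel_right, orderOf_inv, hk]⟩)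
    exact hu1 (by simpa using this)
  rw [Finset.sum_comm]
  calc ∑ u : G, ∑ y, ∑ χ : IrrCharacter G, s.coeff y * (χ : G → ℂ) y *
        (if IsPElem p u then (χ : G → ℂ) u else 0)
      = ∑ u : G, if u = 1 then s.coeff 1 * (Nat.card G : ℂ) else 0 := by
        refine Finset.sum_congr rfl fun u _ => ?_
        by_cases hu : IsPElem p u
        · simp only [hu, if_true]
          have h := horth u
          simp only [Finset.mul_sum] at h
          rw [Finset.sum_congr rfl fun y _ => Finset.sum_congr rfl fun χ _ => mul_assoc _ _ _, h]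
          by_cases hu1 : u = 1
          · rw [if_pos hu1, hu1, inv_one]
          · rw [if_neg hu1, hzero u hu hu1, zero_mul]
        · have hu1 : u ≠ 1 := fun h => hu (h ▸ isPElem_one)
          simp [hu, hu1]
    _ = _ := by
      rw [Finset.sum_ite_eq', if_pos (Finset.mem_univ _), hs, coeff_mul_eq_sum']
      congr 1
      simp only [coeff_classSum, one_mul]
      by_cases hab : IsConj a b
      · rw [if_pos hab, ← card_isConj_eq_index, Nat.card_eq_fintype_card, Fintype.card_subtype,
          ← Finset.sum_boole]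
        refine Fintype.sum_equiv (Equiv.inv G) _ _ fun y => ?_
        simp only [Equiv.inv_apply]
        have hiff : IsConj b⁻¹ y ↔ IsConj a y⁻¹ := by
          constructor
          · intro h
            obtain ⟨c, hc⟩ := isConj_iff.1 h
            exact hab.trans (isConj_iff.2 ⟨c, by rw [← hc]; group⟩)
          · intro h
            obtain ⟨c, hc⟩ := isConj_iff.1 (hab.symm.trans h)
            exact isConj_iff.2 ⟨c, by rw [← inv_inv y, ← hc]; group⟩
        by_cases h : IsConj a y⁻¹
        · rw [if_pos h, if_pos (hiff.2 h), mul_one]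
        · rw [if_neg h, zero_mul]
      · rw [if_neg hab]
        refine Finset.sum_eq_zero fun y _ => ?_
        split_ifs with h1 h2 <;> try simp only [mul_zero, zero_mul]
        exfalso
        obtain ⟨c, hc⟩ := isConj_iff.1 h2
        exact hab (h1.trans (isConj_iff.2 ⟨c, by rw [← hc]; group⟩ : IsConj b y⁻¹).symm)

/-- A p-subgroup of a centralizer is conjugate into a Sylow subgroup of it. -/
theorem conjLE_of_le_centralizer [Fact p.Prime] {h : G} {P D : Subgroup G} (hP : IsPGroup p P)
    (hle : P ≤ Subgroup.centralizer ({h} : Set G))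
    (hD : ∃ S : Sylow p ↥(Subgroup.centralizer ({h} : Set G)),
      (S : Subgroup ↥(Subgroup.centralizer ({h} : Set G))).map
        (Subgroup.centralizer ({h} : Set G)).subtype = D) : ConjLE P D := by
  obtain ⟨S, rfl⟩ := hD
  obtain ⟨Q, hQ⟩ := (hP.comap_subtype (K := Subgroup.centralizer ({h} : Set G))).exists_le_sylow
  obtain ⟨c, hc⟩ := MulAction.exists_smul_eq (Subgroup.centralizer ({h} : Set G)) Q S
  refine ⟨(c : G), ?_⟩
  rintro _ ⟨v, hv, rfl⟩
  have hvQ : (⟨v, hle hv⟩ : Subgroup.centralizer ({h} : Set G)) ∈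
      (Q : Subgroup (Subgroup.centralizer ({h} : Set G))) := hQ hv
  refine ⟨c * ⟨v, hle hv⟩ * c⁻¹, ?_, by simp⟩
  rw [← hc, Sylow.coe_subgroup_smul]
  exact Subgroup.smul_mem_pointwise_smul _ (MulAut.conj c) _ hvQ

/-- The reduced central characters of the blocks with defect group `D` separate the classes. -/
theorem exists_rows (hM : IsPModular p M) {D : Subgroup G} {r : ℕ} (x : Fin r → G)
    (hx : ∀ i j : Fin r, IsConj (x i) (x j) → i = j)
    (hD : ∀ i : Fin r, ∃ S : Sylow p ↥(Subgroup.centralizer ({x i} : Set G)),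
      (S : Subgroup ↥(Subgroup.centralizer ({x i} : Set G))).map
        (Subgroup.centralizer ({x i} : Set G)).subtype = D)
    (hsep : ∀ i j : Fin r, ∀ g h : G, IsConj (x i) g → IsConj (x j) h →
      IsPElem p (g * h⁻¹) → g = h) :
    ∃ χ : Fin r → IrrCharacter G, (∀ i, IsDefectGroup p M (blockOf M (χ i : G → ℂ)) D) ∧
      LinearIndependent (ResField M)
        (fun i => fun j => redC M (centralChar (χ i : G → ℂ) (x j))) := by
  classical
  haveI : Fact p.Prime := ⟨hM.1⟩
  haveI := Fintype.ofFinite G
  set e : Fin r → ℕ := fun i => (Subgroup.centralizer ({x i} : Set G)).index.factorization p with he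
  set aG := (Nat.card G).factorization p with haG
  have hcardD : ∀ i, Nat.card D = p ^ (aG - e i) := by
    intro i
    obtain ⟨S, hS⟩ := hD i
    rw [← hS, card_sylow_centralizer hM, he, haG,
      ← (Subgroup.centralizer ({x i} : Set G)).card_mul_index,
      Nat.factorization_mul Nat.card_pos.ne' Subgroup.index_ne_zero_of_finite, Finsupp.add_apply,
      Nat.add_sub_cancel]
  have heq : ∀ i j, e i = e j := by
    intro i j
    have h1 := Nat.pow_right_injective hM.1.two_le ((hcardD i).symm.trans (hcardD j))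
    have h2 : ∀ i, e i ≤ aG := fun i => (Nat.factorization_le_iff_dvd
      Subgroup.index_ne_zero_of_finite Nat.card_pos.ne').2 (Subgroup.index_dvd_card _) p
    have := h2 i
    have := h2 j

    omega
  let row : IrrCharacter G → Fin r → ResField M := fun χ j => redC M (centralChar (χ : G → ℂ) (x j))
  set 𝒳 : Set (IrrCharacter G) := {χ | IsDefectGroup p M (blockOf M (χ : G → ℂ)) D} with h𝒳
  choose t ht using exists_int_sum_pElem (G := G) hM.1
  have key : ∀ v : Fin r → ResField M, (∀ χ ∈ 𝒳, ∑ i, v i * row χ i = 0) → v = 0 := by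
    intro v hv
    funext j
    set q : ℕ := p ^ e j with hq
    have hq0 : (q : ℂ) ≠ 0 := Nat.cast_ne_zero.2 (pow_ne_zero _ hM.1.ne_zero)
    let A : Fin r → IrrCharacter G → ℂ := fun i χ =>
      ((Subgroup.centralizer ({x i} : Set G)).index : ℂ) / (q : ℂ) * (χ : G → ℂ) (x i)
    let β : IrrCharacter G → ℂ := fun χ => (t χ : ℂ) * centralChar (χ : G → ℂ) (x j)⁻¹
    have hqv : q.factorization p = e j := by rw [hq, hM.1.factorization_pow, Finsupp.single_eq_same]
    have hnd : ∀ i, ((Subgroup.centralizer ({x i} : Set G)).index : ℂ) / (q : ℂ) ∈ locRing M := fun i =>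
      (natDiv_aux hM Subgroup.index_ne_zero_of_finite (pow_ne_zero _ hM.1.ne_zero)
        (by rw [hqv]; exact (heq j i).le)).1
    have hA : ∀ i χ, A i χ ∈ locRing M := fun i χ => mul_mem (hnd i) (irr_mem_locRing χ _)
    have hβ : ∀ χ, β χ ∈ locRing M := fun χ =>
      mul_mem (intCast_mem _ _) (centralChar_mem_locRing χ _)
    -- the identity
    set uj : ℂ := ((Subgroup.centralizer ({x j} : Set G)).index : ℂ) / (q : ℂ) *
      (((Nat.card G : ℕ) : ℂ) / ((p ^ aG : ℕ) : ℂ)) with huj
    have hGd := natDiv_aux (M := M) hM (a := Nat.card G) (b := p ^ aG) Nat.card_pos.ne'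
      (pow_ne_zero _ hM.1.ne_zero) (by rw [hM.1.factorization_pow, Finsupp.single_eq_same])
    have hid : ∀ i, ∑ χ : IrrCharacter G, A i χ * β χ = if i = j then uj else 0 := by
      intro i
      have h := sum_centralChar_pElem (a := x i) (b := x j) (hsep i j)
      have hp0 : ((p ^ aG : ℕ) : ℂ) ≠ 0 := Nat.cast_ne_zero.2 (pow_ne_zero _ hM.1.ne_zero)
      have hrew : ∑ χ : IrrCharacter G, A i χ * β χ =
          (∑ χ : IrrCharacter G, (χ : G → ℂ) 1 * centralChar (χ : G → ℂ) (x i) *
            centralChar (χ : G → ℂ) (x j)⁻¹ * ∑ u : G, (if IsPElem p u then (χ : G → ℂ) u else 0)) /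
            ((q : ℂ) * ((p ^ aG : ℕ) : ℂ)) := by
        rw [Finset.sum_div]
        refine Finset.sum_congr rfl fun χ _ => ?_
        rw [ht χ, ← haG]
        show _ / _ * _ * ((t χ : ℂ) * _) = _
        have := deg_ne_zero χ
        rw [show centralChar (χ : G → ℂ) (x i) =
          ((Subgroup.centralizer ({x i} : Set G)).index : ℂ) * (χ : G → ℂ) (x i) / (χ : G → ℂ) 1 from rfl]
        field_simp
      rw [hrew, h]
      by_cases hij : i = j
      · subst hij
        rw [if_pos (IsConj.refl _), if_pos rfl, huj]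
        field_simp
      · rw [if_neg fun h => hij (hx i j h), if_neg hij, zero_mul, zero_div]
    have hterm : ∀ χ : IrrCharacter G, ∑ i, v i * redC M (A i χ * β χ) = 0 := by
      intro χ
      by_cases hb : redC M (β χ) = 0
      · exact Finset.sum_eq_zero fun i _ => by rw [redC_mul (hA i χ) (hβ χ), hb, mul_zero, mul_zero]
      have hlam : redC M (centralChar (χ : G → ℂ) (x j)⁻¹) ≠ 0 := fun h0 => hb (by
        rw [redC_mul (intCast_mem _ _) (centralChar_mem_locRing χ _), h0, mul_zero])
      set B := blockOf M (χ : G → ℂ)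
      have hB : IsPBlock M B := isPBlock_blockOf χ
      have hχB : χ ∈ B := mem_blockOf_self χ
      obtain ⟨E, hE⟩ := exists_isDefectGroup hM hB
      obtain ⟨hEp, hEc, -⟩ := IsDefectGroup.props hM hB hE
      obtain ⟨y, hy, hyc⟩ := exists_conj_centralizes_defect hM hB hχB hE hlam
      obtain ⟨w, hw⟩ := conj_mem_of_isConj hyc hy
      have hle : E.map (MulAut.conj w).toMonoidHom ≤ Subgroup.centralizer ({x j} : Set G) :=
        le_centralizer_singleton_iff.2 (by simpa using inv_mem hw)
      obtain ⟨z, hz⟩ := conjLE_of_le_centralizer (hEp.map _) hle (hD j)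
      rw [map_conj_map_conj] at hz
      have hdle : blockDefect p B ≤ aG - e j := by
        refine (Nat.pow_le_pow_iff_right hM.1.one_lt).1 ?_
        rw [← hEc, ← hcardD j, ← card_map_conj E (z * w)]
        exact Subgroup.card_le_of_le hz
      obtain ⟨χ₀, hχ₀, hh₀⟩ := exists_height_zero hB p
      have hv0 := le_of_height_zero hh₀ hχB
      have hd0 := blockDefect_eq_of_min hχ₀ hh₀
      have := factorization_charDegree_le χ₀ p
      have hej : e j ≤ (charDegree (χ : G → ℂ)).factorization p := by
        have : e j ≤ aG := (Nat.factorization_le_iff_dvd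
          Subgroup.index_ne_zero_of_finite Nat.card_pos.ne').2 (Subgroup.index_dvd_card _) p
        omega
      have hdiv := natDiv_aux (M := M) hM (a := charDegree (χ : G → ℂ)) (b := q) (charDegree_pos χ).ne'
        (pow_ne_zero _ hM.1.ne_zero) (by rw [hqv]; exact hej)
      have hsplit : ∀ i, A i χ = ((charDegree (χ : G → ℂ) : ℕ) : ℂ) / (q : ℂ) *
          centralChar (χ : G → ℂ) (x i) := by
        intro i
        show _ / _ * _ = _
        have := deg_ne_zero χ
        rw [irr_one_eq_natCast] at this
        rw [centralChar_eq_natDiv_mul]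
        field_simp
      simp only [hsplit, redC_mul (mul_mem hdiv.1 (centralChar_mem_locRing χ _)) (hβ χ),
        redC_mul hdiv.1 (centralChar_mem_locRing χ _)]
      by_cases hdeg : redC M (((charDegree (χ : G → ℂ) : ℕ) : ℂ) / (q : ℂ)) = 0
      · simp [hdeg]
      have hdeq : blockDefect p B = aG - e j := by
        have : ¬ q.factorization p < (charDegree (χ : G → ℂ)).factorization p := fun h => hdeg (hdiv.2.2 h)
        omega
      have hχX : χ ∈ 𝒳 := by
        have heqD : E.map (MulAut.conj (z * w)).toMonoidHom = D :=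
          map_eq_of_le_of_card_le hz (by rw [hEc, hdeq, hcardD j])
        have := IsDefectGroup.map_conj hM hB hE (z * w)
        rwa [heqD] at this
      rw [Finset.sum_congr rfl (g := fun i => (redC M (((charDegree (χ : G → ℂ) : ℕ) : ℂ) / (q : ℂ)) *
        redC M (β χ)) * (v i * row χ i)) fun i _ => by simp only [row]; ring,
        ← Finset.mul_sum, hv χ hχX, mul_zero]
    have hsum : ∑ i, v i * redC M (∑ χ : IrrCharacter G, A i χ * β χ) = 0 := by
      simp only [redC_sum _ fun χ _ => mul_mem (hA _ χ) (hβ χ), Finset.mul_sum]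
      rw [Finset.sum_comm]
      exact Finset.sum_eq_zero fun χ _ => hterm χ
    simp only [hid, apply_ite (redC M), redC_zero, mul_ite, mul_zero, Finset.sum_ite_eq',
      Finset.mem_univ, if_true] at hsum
    refine (mul_eq_zero.1 hsum).resolve_right ?_
    rw [huj, redC_mul (hnd j) hGd.1]
    have hjd := natDiv_aux (M := M) hM (a := (Subgroup.centralizer ({x j} : Set G)).index) (b := q)
      Subgroup.index_ne_zero_of_finite (pow_ne_zero _ hM.1.ne_zero) (by rw [hqv])
    refine mul_ne_zero (fun h => ?_) (fun h => ?_)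
    · have := hjd.2.1 h
      rw [hqv] at this
      exact lt_irrefl _ this
    · have := hGd.2.1 h
      rw [hM.1.factorization_pow, Finsupp.single_eq_same] at this
      exact lt_irrefl _ this
  have hspan : Submodule.span (ResField M) (row '' 𝒳) = ⊤ := by
    by_contra hne
    obtain ⟨f, hf, hker⟩ := Submodule.exists_le_ker_of_lt_top _ (lt_top_iff_ne_top.2 hne)
    refine hf ?_
    have happ : ∀ w : Fin r → ResField M, f w = ∑ i, w i * f (Pi.single i 1) := by
      intro w
      conv_lhs => rw [pi_eq_sum_univ' w]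
      simp [map_sum, map_smul]
    have hv := key (fun i => f (Pi.single i 1)) fun χ hχ => by
      rw [← LinearMap.mem_ker.1 (hker (Submodule.subset_span ⟨χ, hχ, rfl⟩)), happ (row χ)]
      exact Finset.sum_congr rfl fun i _ => mul_comm _ _
    refine LinearMap.ext fun w => ?_
    rw [happ w]
    exact Finset.sum_eq_zero fun i _ => by
      have h := congrFun hv i
      simp only [Pi.zero_apply] at h
      rw [h, mul_zero]
  obtain ⟨T, hTsub, hTspan, hTli⟩ := exists_linearIndependent (ResField M) (row '' 𝒳)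
  haveI : Fintype T := (Set.toFinite (row '' 𝒳)).subset hTsub |>.fintype
  have hcard : Fintype.card T = r := by
    have b := Module.Basis.mk hTli (by rw [Subtype.range_coe, hTspan, hspan])
    rw [← Module.finrank_eq_card_basis b, Module.finrank_pi, Fintype.card_fin]
  let eT : Fin r ≃ T := (Fintype.equivFinOfCardEq hcard).symm
  choose χ hχ hrow using fun i => hTsub (eT i).2
  refine ⟨χ, hχ, ?_⟩
  have hfun : (fun i => fun j => redC M (centralChar (χ i : G → ℂ) (x j))) =
      (fun s : T => (s : Fin r → ResField M)) ∘ eT := funext fun i => hrow i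
  rw [hfun]
  exact hTli.comp _ eT.injective

/-- Blocks with defect group `D` whose height-zero characters have unit determinant at the
separated classes. -/
theorem exists_blocks_of_separated (hM : IsPModular p M) {D : Subgroup G} {r : ℕ} (x : Fin r → G)
    (hx : ∀ i j : Fin r, IsConj (x i) (x j) → i = j)
    (hD : ∀ i : Fin r, ∃ S : Sylow p ↥(Subgroup.centralizer ({x i} : Set G)),
      (S : Subgroup ↥(Subgroup.centralizer ({x i} : Set G))).map
        (Subgroup.centralizer ({x i} : Set G)).subtype = D)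
    (hsep : ∀ i j : Fin r, ∀ g h : G, IsConj (x i) g → IsConj (x j) h →
      IsPElem p (g * h⁻¹) → g = h) :
    ∃ B : Fin r → Set (IrrCharacter G), Function.Injective B ∧
      (∀ i, IsPBlock M (B i) ∧ IsDefectGroup p M (B i) D) ∧
      ∀ χ : Fin r → IrrCharacter G,
        (∀ i, χ i ∈ B i ∧ blockHeight p (B i) (χ i : G → ℂ) = 0) →
        ¬ MemLocalIdeal M (Matrix.det (Matrix.of fun i j : Fin r => (χ i : G → ℂ) (x j))) := by
  classical
  haveI : Fact p.Prime := ⟨hM.1⟩
  obtain ⟨ψ, hψD, hli⟩ := exists_rows hM x hx hD hsep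
  set B : Fin r → Set (IrrCharacter G) := fun i => blockOf M (ψ i : G → ℂ) with hBdef
  have hsame : ∀ {φ φ' : IrrCharacter G}, φ' ∈ blockOf M (φ : G → ℂ) → ∀ g,
      redC M (centralChar (φ : G → ℂ) g) = redC M (centralChar (φ' : G → ℂ) g) := fun {φ φ'} h g =>
    (redC_eq_iff (centralChar_mem_locRing φ g) (centralChar_mem_locRing φ' g)).2 (h g)
  refine ⟨B, fun i j h => hli.injective (funext fun k => hsame (?_ : ψ j ∈ B i) _),
    fun i => ⟨isPBlock_blockOf _, hψD i⟩, fun χ hχ hdet => ?_⟩
  · rw [h]; exact mem_blockOf_self (ψ j)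
  have hv : ∀ i j, (charDegree (χ i : G → ℂ)).factorization p =
      (Subgroup.centralizer ({x j} : Set G)).index.factorization p := by
    intro i j
    have hd := (IsDefectGroup.props hM (isPBlock_blockOf _) (hψD i)).2.1
    rw [show blockDefect p (blockOf M (ψ i : G → ℂ)) = (Nat.card G).factorization p -
      (charDegree (χ i : G → ℂ)).factorization p from blockDefect_eq_of_min (hχ i).1 (hχ i).2] at hd
    obtain ⟨S, hS⟩ := hD j
    have h1 : (Nat.card G).factorization p =
        (Nat.card (Subgroup.centralizer ({x j} : Set G))).factorization p +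
        (Subgroup.centralizer ({x j} : Set G)).index.factorization p := by
      rw [← Subgroup.card_mul_index (Subgroup.centralizer ({x j} : Set G)),
        Nat.factorization_mul Nat.card_pos.ne' Subgroup.index_ne_zero_of_finite, Finsupp.add_apply]
    rw [← hS, card_sylow_centralizer hM] at hd
    have h2 := Nat.pow_right_injective hM.1.two_le hd
    have h3 := factorization_charDegree_le (χ i) p

    omega
  let N : Matrix (Fin r) (Fin r) (locRing M) :=
    Matrix.of fun i j => ⟨(χ i : G → ℂ) (x j), irr_mem_locRing (χ i) (x j)⟩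
  let L : Matrix (Fin r) (Fin r) (ResField M) :=
    Matrix.of fun i j => redC M (centralChar (ψ i : G → ℂ) (x j))
  have hL : L.det ≠ 0 :=
    ((Matrix.isUnit_iff_isUnit_det L).1 (Matrix.linearIndependent_rows_iff_isUnit.1 hli)).ne_zero
  have hNdet : ((N.det : locRing M) : ℂ) =
      Matrix.det (Matrix.of fun i j : Fin r => (χ i : G → ℂ) (x j)) := by
    rw [show ((N.det : locRing M) : ℂ) = (locRing M).subtype N.det from rfl, RingHom.map_det]
    rfl
  have hred : red M N.det = 0 := red_eq_zero_iff.2 (by rw [hNdet]; exact hdet)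
  rw [RingHom.map_det] at hred
  rcases Nat.eq_zero_or_pos r with hr | hr
  · subst hr
    rw [Matrix.det_isEmpty] at hred
    exact one_ne_zero hred
  set j₀ : Fin r := ⟨0, hr⟩
  set q : ℕ := p ^ (Subgroup.centralizer ({x j₀} : Set G)).index.factorization p with hq
  have hqv : q.factorization p = (Subgroup.centralizer ({x j₀} : Set G)).index.factorization p := by
    rw [hq, hM.1.factorization_pow, Finsupp.single_eq_same]
  have hq0 : q ≠ 0 := pow_ne_zero _ hM.1.ne_zero
  have hα : ∀ i, ((charDegree (χ i : G → ℂ) : ℕ) : ℂ) / (q : ℂ) ∈ locRing M ∧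
      redC M (((charDegree (χ i : G → ℂ) : ℕ) : ℂ) / (q : ℂ)) ≠ 0 := by
    intro i
    have h := natDiv_aux (M := M) hM (charDegree_pos (χ i)).ne' hq0 (by rw [hqv, hv i j₀])
    refine ⟨h.1, fun h0 => ?_⟩
    have := h.2.1 h0
    rw [hqv, hv i j₀] at this
    exact lt_irrefl _ this
  have hβ : ∀ j, (q : ℂ) / ((Subgroup.centralizer ({x j} : Set G)).index : ℂ) ∈ locRing M ∧
      redC M ((q : ℂ) / ((Subgroup.centralizer ({x j} : Set G)).index : ℂ)) ≠ 0 := by
    intro j
    have h := natDiv_aux (M := M) hM hq0 (Subgroup.index_ne_zero_of_finite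
      (H := Subgroup.centralizer ({x j} : Set G))) (by rw [hqv, ← hv j₀ j₀, hv j₀ j])
    refine ⟨h.1, fun h0 => ?_⟩
    have := h.2.1 h0
    rw [hqv, ← hv j₀ j₀, hv j₀ j] at this
    exact lt_irrefl _ this
  have hmat : (red M).mapMatrix N =
      Matrix.diagonal (fun i => redC M (((charDegree (χ i : G → ℂ) : ℕ) : ℂ) / (q : ℂ))) * L *
      Matrix.diagonal (fun j => redC M ((q : ℂ) / ((Subgroup.centralizer ({x j} : Set G)).index : ℂ))) := by
    ext i j
    rw [Matrix.mul_diagonal, Matrix.diagonal_mul]
    show red M (N i j) = _ * redC M (centralChar (ψ i : G → ℂ) (x j)) * _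
    rw [hsame (hχ i).1, ← redC_mul (hα i).1 (centralChar_mem_locRing _ _),
      ← redC_mul (mul_mem (hα i).1 (centralChar_mem_locRing _ _)) (hβ j).1,
      redC_of_mem (mul_mem (mul_mem (hα i).1 (centralChar_mem_locRing _ _)) (hβ j).1)]
    congr 1
    refine Subtype.ext ?_
    show (χ i : G → ℂ) (x j) = ((charDegree (χ i : G → ℂ) : ℕ) : ℂ) / (q : ℂ) *
      centralChar (χ i : G → ℂ) (x j) * ((q : ℂ) / ((Subgroup.centralizer ({x j} : Set G)).index : ℂ))
    rw [centralChar_eq_natDiv_mul]
    have h1 : (charDegree (χ i : G → ℂ) : ℂ) ≠ 0 := Nat.cast_ne_zero.2 (charDegree_pos (χ i)).ne'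
    have h2 : (q : ℂ) ≠ 0 := Nat.cast_ne_zero.2 hq0
    have h3 : ((Subgroup.centralizer ({x j} : Set G)).index : ℂ) ≠ 0 :=
      Nat.cast_ne_zero.2 Subgroup.index_ne_zero_of_finite
    field_simp
  rw [hmat, Matrix.det_mul, Matrix.det_mul, Matrix.det_diagonal, Matrix.det_diagonal] at hred
  exact mul_ne_zero (mul_ne_zero (Finset.prod_ne_zero_iff.2 fun i _ => (hα i).2) hL)
    (Finset.prod_ne_zero_iff.2 fun j _ => (hβ j).2) hred

end Cfsg.Agent.Lib.Block
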