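import Cfsg.Agent.Lib.Thompson.MaxClass
import Mathlib.GroupTheory.SpecificGroups.Cyclic
import Mathlib.GroupTheory.Schreier

/-!
# Groups of order p^4: derived subgroup, centre and class
-/

set_option autoImplicit false
open Subgroup
open scoped commutatorElement

namespace Cfsg.Agent.Lib.Block.SmallPGroup

set_option linter.style.haveILetI false

variable {P : Type*} [Group P] [Finite P] {p : ℕ}

theorem sq_le_index_center_of_ne [hp : Fact p.Prime] (hP : IsPGroup p P)
    (h : commutator P ≠ ⊥) : p ^ 2 ≤ (center P).index := by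
  obtain ⟨k, hk⟩ := hP.index (center P)
  rw [hk]
  refine Nat.pow_le_pow_right hp.out.pos ?_
  by_contra hk2
  apply h
  have hcard : Nat.card (P ⧸ center P) = p ^ k := by rw [← index_eq_card, hk]
  haveI : IsCyclic (P ⧸ center P) := by
    rcases (show k = 0 ∨ k = 1 by omega) with rfl | rfl
    · haveI : Subsingleton (P ⧸ center P) :=
        (Nat.card_eq_one_iff_unique.1 (by simpa using hcard)).1
      infer_instance
    · exact isCyclic_of_prime_card (p := p) (by simpa using hcard)
  rw [_root_.commutator_def, eq_bot_iff, commutator_le]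
  intro x _ y _
  rw [mem_bot, commutatorElement_eq_one_iff_commute]
  exact commutative_of_cyclic_center_quotient (QuotientGroup.mk' (center P)) (by simp) x y

/-- A centre of index `p²` forces a derived subgroup of order at most `p`. -/
theorem card_commutator_le [hp : Fact p.Prime] (hP : IsPGroup p P)
    (h : (center P).index ≤ p ^ 2) : Nat.card (commutator P) ≤ p := by
  by_cases hc : commutator P = ⊥
  · rw [hc, card_bot]; exact hp.out.pos
  have hidx : (center P).index = p ^ 2 := le_antisymm h (sq_le_index_center_of_ne hP hc)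
  have hcard : Nat.card (P ⧸ center P) = p ^ 2 := by rw [← index_eq_card, hidx]
  have hcomm := IsPGroup.commutative_of_card_eq_prime_sq hcard
  have hncyc : ¬ IsCyclic (P ⧸ center P) := fun hcy => hc <| by
    rw [_root_.commutator_def, eq_bot_iff, commutator_le]
    intro x _ y _
    rw [mem_bot, commutatorElement_eq_one_iff_commute]
    exact commutative_of_cyclic_center_quotient (QuotientGroup.mk' (center P)) (by simp) x y
  have hpow : ∀ x : P, x ^ p ∈ center P := by
    intro x
    obtain ⟨i, hi, hord⟩ := (Nat.dvd_prime_pow hp.out).1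
      (hcard ▸ orderOf_dvd_natCard (x : P ⧸ center P))
    have hi2 : i ≠ 2 := by
      rintro rfl
      exact hncyc (isCyclic_of_orderOf_eq_card _ (hord.trans hcard.symm))
    rw [← QuotientGroup.eq_one_iff, QuotientGroup.mk_pow, ← orderOf_dvd_iff_pow_eq_one, hord]
    calc p ^ i ∣ p ^ 1 := Nat.pow_dvd_pow p (by omega)
      _ = p := pow_one p
  obtain ⟨a, ha⟩ : ∃ a, a ∉ center P := by
    by_contra! hall
    rw [(eq_top_iff' _).2 hall, index_top] at hidx
    exact absurd hidx.symm (Nat.one_lt_pow two_ne_zero hp.out.one_lt).ne'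
  have hlt : center P < zpowers a ⊔ center P :=
    lt_of_le_of_ne le_sup_right fun e => ha (e ▸ mem_sup_left (mem_zpowers a))
  obtain ⟨b, hb⟩ : ∃ b, b ∉ zpowers a ⊔ center P := by
    by_contra! hall
    apply hc
    rw [_root_.commutator_def, eq_bot_iff, commutator_le]
    intro x _ y _
    rw [mem_bot, commutatorElement_eq_one_iff_commute]
    have hle : zpowers a ⊔ center P ≤ centralizer ({a} : Set P) :=
      sup_le (zpowers_le.2 (mem_centralizer_singleton_iff.2 rfl)) (center_le_centralizer _)
    have haz : a ∈ center P := mem_center_iff.2 fun g =>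
      mem_centralizer_singleton_iff.1 (hle (hall g))
    exact absurd haz ha
  have hlt2 : zpowers a ⊔ center P < zpowers b ⊔ (zpowers a ⊔ center P) :=
    lt_of_le_of_ne le_sup_right fun e => hb (e ▸ mem_sup_left (mem_zpowers b))
  have hgen : zpowers b ⊔ (zpowers a ⊔ center P) = ⊤ := by
    refine eq_top_of_card_eq _ (le_antisymm (card_le_card_group _) ?_)
    rw [← card_mul_index (center P), hidx]
    calc Nat.card (center P) * p ^ 2 = p * (p * Nat.card (center P)) := by ring
      _ ≤ p * Nat.card (zpowers a ⊔ center P : Subgroup P) :=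
          Nat.mul_le_mul_left _ (Thompson.card_mul_p_le hP hlt)
      _ ≤ _ := Thompson.card_mul_p_le hP hlt2
  have hz : ⁅a, b⁆ ∈ center P := by
    rw [← QuotientGroup.eq_one_iff]
    show QuotientGroup.mk' (center P) ⁅a, b⁆ = 1
    rw [map_commutatorElement, commutatorElement_eq_one_iff_commute]
    exact hcomm _ _
  have hzp : ⁅a, b⁆ ^ p = 1 := by
    rw [← Thompson.commutator_pow_left (x := a) (c := b)
      (mem_center_iff.1 hz a).symm p, commutatorElement_eq_one_iff_commute]
    exact (mem_center_iff.1 (hpow a) b).symm
  haveI hKn : (zpowers ⁅a, b⁆).Normal := Thompson.normal_of_le_center (zpowers_le.2 hz)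
  have hle : commutator P ≤ zpowers ⁅a, b⁆ := by
    rw [_root_.commutator_def, commutator_le]
    intro x _ y _
    rw [← QuotientGroup.eq_one_iff]
    set φ := QuotientGroup.mk' (zpowers ⁅a, b⁆) with hφ
    show φ ⁅x, y⁆ = 1
    rw [map_commutatorElement, commutatorElement_eq_one_iff_commute]
    have hab : Commute (φ a) (φ b) := by
      rw [← commutatorElement_eq_one_iff_commute, ← map_commutatorElement, hφ,
        QuotientGroup.mk'_apply, QuotientGroup.eq_one_iff]
      exact mem_zpowers _
    have key : ∀ g ∈ ({a, b} : Set P), ∀ z : P, Commute (φ g) (φ z) := by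
      intro g hg z
      have : z ∈ (centralizer ({φ g} : Set (P ⧸ zpowers ⁅a, b⁆))).comap φ := by
        refine (le_of_eq hgen.symm).trans (sup_le (zpowers_le.2 ?_) (sup_le (zpowers_le.2 ?_) ?_))
          (mem_top z)
        · rw [mem_comap, mem_centralizer_singleton_iff]
          rcases hg with rfl | rfl
          · exact hab.symm.eq
          · rfl
        · rw [mem_comap, mem_centralizer_singleton_iff]
          rcases hg with rfl | rfl
          · rfl
          · exact hab.eq
        · intro c hc'
          rw [mem_comap, mem_centralizer_singleton_iff, ← map_mul, ← map_mul, mem_center_iff.1 hc' g]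
      exact (mem_centralizer_singleton_iff.1 (mem_comap.1 this)).symm
    have : x ∈ (centralizer ({φ y} : Set (P ⧸ zpowers ⁅a, b⁆))).comap φ := by
      refine (le_of_eq hgen.symm).trans (sup_le (zpowers_le.2 ?_) (sup_le (zpowers_le.2 ?_) ?_))
        (mem_top x)
      · rw [mem_comap, mem_centralizer_singleton_iff]; exact (key b (by simp) y).eq
      · rw [mem_comap, mem_centralizer_singleton_iff]; exact (key a (by simp) y).eq
      · intro c hc'
        rw [mem_comap, mem_centralizer_singleton_iff, ← map_mul, ← map_mul, mem_center_iff.1 hc' y]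
    exact mem_centralizer_singleton_iff.1 (mem_comap.1 this)
  refine (Nat.le_of_dvd Nat.card_pos (card_dvd_of_le hle)).trans ?_
  rw [Nat.card_zpowers]
  exact orderOf_le_of_pow_eq_one hp.out.pos hzp

/-- In a group of order `p⁴` a derived subgroup of order `p` forces a centre of order above `p`. -/
theorem index_center_le [hp : Fact p.Prime] (hP : Nat.card P = p ^ 4)
    (h : Nat.card (commutator P) = p) : (center P).index ≤ p ^ 2 := by
  have hPp : IsPGroup p P := IsPGroup.of_card hP
  have hne : commutator P ≠ ⊥ := fun e => by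
    rw [e, card_bot] at h; exact hp.out.one_lt.ne h
  obtain ⟨z, hzN, hzZ, hzo⟩ := Thompson.exists_central_order_p hPp (N := commutator P) hne
  have hDZ : commutator P ≤ center P := by
    have he : zpowers z = commutator P :=
      eq_of_le_of_card_ge (zpowers_le.2 hzN) (le_of_eq (by rw [Nat.card_zpowers, hzo, h]))
    exact he ▸ zpowers_le.2 hzZ
  -- every centralizer has index at most p
  have hC : ∀ x : P, Nat.card P ≤ p * Nat.card (centralizer ({x} : Set P)) := by
    intro x
    let f : P →* P :=
      { toFun := fun y => ⁅y, x⁆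
        map_one' := commutatorElement_one_left x
        map_mul' := fun y w => by
          have hc : ⁅w, x⁆ ∈ center P :=
            hDZ (commutator_mem_commutator (mem_top w) (mem_top x))
          rw [commutatorElement_def, commutatorElement_def, commutatorElement_def] at *
          rw [show y * w * x * (y * w)⁻¹ * x⁻¹
            = y * (w * x * w⁻¹ * x⁻¹) * y⁻¹ * (y * x * y⁻¹ * x⁻¹) by group,
            mem_center_iff.1 hc y, mul_assoc _ y y⁻¹, mul_inv_cancel, mul_one,
            mem_center_iff.1 hc (y * x * y⁻¹ * x⁻¹)] }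
    have hk : f.ker = centralizer ({x} : Set P) := by
      ext y
      rw [MonoidHom.mem_ker, mem_centralizer_singleton_iff]
      exact commutatorElement_eq_one_iff_mul_comm
    have hr : Nat.card f.range ≤ p := by
      rw [← h]
      refine Nat.le_of_dvd Nat.card_pos (card_dvd_of_le ?_)
      rintro _ ⟨y, rfl⟩
      exact commutator_mem_commutator (mem_top y) (mem_top x)
    rw [← card_mul_index f.ker, index_ker, hk, mul_comm]
    exact Nat.mul_le_mul_right _ hr
  obtain ⟨a, b, hab⟩ : ∃ a b : P, ¬ Commute a b := by
    by_contra! hall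
    exact hne (by
      rw [_root_.commutator_def, eq_bot_iff, commutator_le]
      intro x _ y _
      rw [mem_bot, commutatorElement_eq_one_iff_commute]
      exact hall x y)
  set A := centralizer ({a} : Set P)
  set B := centralizer ({b} : Set P)
  have haA : a ∈ A := mem_centralizer_singleton_iff.2 rfl
  have haB : a ∉ B := fun ha => hab (mem_centralizer_singleton_iff.1 ha)
  have hbA : b ∉ A := fun hb => hab (mem_centralizer_singleton_iff.1 hb).symm
  have hI : Nat.card P ≤ p * p * Nat.card (A ⊓ B : Subgroup P) := by
    have h4 : B.index ≤ p := by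
      have := card_mul_index B
      have h5 := hC b
      rw [← this, mul_comm p] at h5
      exact Nat.le_of_mul_le_mul_left h5 Nat.card_pos
    have h6 : A.index ≤ p := by
      have := card_mul_index A
      have h5 := hC a
      rw [← this, mul_comm p] at h5
      exact Nat.le_of_mul_le_mul_left h5 Nat.card_pos
    rw [← card_mul_index (A ⊓ B), mul_comm _ (Nat.card _)]
    exact Nat.mul_le_mul_left _ (index_inf_le.trans (Nat.mul_le_mul h6 h4))
  have habel : ∀ u ∈ A ⊓ B, ∀ v ∈ A ⊓ B, Commute u v := by
    have hsq : Nat.card (A ⊓ B : Subgroup P) ≤ p ^ 2 := by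
      have h1 : p * Nat.card (A ⊓ B : Subgroup P) ≤ Nat.card A :=
        Thompson.card_mul_p_le hPp (lt_of_le_of_ne inf_le_left fun e => haB (inf_eq_left.1 e haA))
      have h2 : p * Nat.card A ≤ Nat.card P := by
        have hlt : A < ⊤ := lt_top_iff_ne_top.2 fun e => hbA (e ▸ mem_top b)
        simpa using Thompson.card_mul_p_le hPp hlt
      have h3 : p * (p * Nat.card (A ⊓ B : Subgroup P)) ≤ p ^ 4 :=
        hP ▸ (Nat.mul_le_mul_left _ h1).trans h2
      have hpos : 0 < p * p := Nat.mul_pos hp.out.pos hp.out.pos
      exact Nat.le_of_mul_le_mul_left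
        (show p * p * Nat.card (A ⊓ B : Subgroup P) ≤ p * p * p ^ 2 by
          rw [mul_assoc]; exact h3.trans (le_of_eq (by ring))) hpos
    intro u hu v hv
    obtain ⟨i, hi⟩ := IsPGroup.iff_card.1 (hPp.to_subgroup (A ⊓ B))
    have : IsMulCommutative (A ⊓ B : Subgroup P) := by
      have hi2 : i ≤ 2 := (Nat.pow_le_pow_iff_right hp.out.one_lt).1 (hi ▸ hsq)
      rcases (show i ≤ 1 ∨ i = 2 by omega) with h1 | rfl
      · haveI : IsCyclic (A ⊓ B : Subgroup P) := by
          rcases (show i = 0 ∨ i = 1 by omega) with rfl | rfl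
          · haveI : Subsingleton (A ⊓ B : Subgroup P) :=
              (Nat.card_eq_one_iff_unique.1 (by simpa using hi)).1
            infer_instance
          · exact isCyclic_of_prime_card (p := p) (by simpa using hi)
        exact IsCyclic.isMulCommutative
      · exact ⟨⟨IsPGroup.commutative_of_card_eq_prime_sq hi⟩⟩
    exact congrArg Subtype.val (this.is_comm.comm ⟨u, hu⟩ ⟨v, hv⟩)
  have hZ : A ⊓ B ≤ center P := by
    intro u hu
    rw [mem_center_iff]
    set C := centralizer ({u} : Set P) with hCdef
    have haC : a ∈ C := mem_centralizer_singleton_iff.2 (mem_centralizer_singleton_iff.1 hu.1).symm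
    have hbC : b ∈ C := mem_centralizer_singleton_iff.2 (mem_centralizer_singleton_iff.1 hu.2).symm
    have hIC : A ⊓ B ≤ C := fun v hv => mem_centralizer_singleton_iff.2 (habel v hv u hu)
    have hAC : A ⊓ B < C ⊓ A :=
      lt_of_le_of_ne (le_inf hIC inf_le_left) fun e => haB (e ▸ mem_inf.2 ⟨haC, haA⟩ : a ∈ A ⊓ B).2
    have h1 := Thompson.card_mul_p_le hPp hAC
    have h2 := Thompson.card_mul_p_le hPp
      (lt_of_le_of_ne (inf_le_left : C ⊓ A ≤ C) fun e => hbA (inf_eq_left.1 e hbC))
    have : Nat.card P ≤ Nat.card C :=
      hI.trans (by rw [mul_assoc]; exact (Nat.mul_le_mul_left _ h1).trans h2)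
    have htop := eq_top_of_card_eq C (le_antisymm (card_le_card_group C) this)
    intro g
    exact mem_centralizer_singleton_iff.1 (htop ▸ mem_top g : g ∈ C)
  have := Nat.le_of_dvd Nat.card_pos (card_dvd_of_le hZ)
  rw [← card_mul_index (center P)] at hI
  refine Nat.le_of_mul_le_mul_left ?_ (Nat.card_pos (α := center P))
  calc Nat.card (center P) * (center P).index ≤ p * p * Nat.card (A ⊓ B : Subgroup P) := hI
    _ ≤ p * p * Nat.card (center P) := Nat.mul_le_mul_left _ this
    _ = _ := by ring

end Cfsg.Agent.Lib.Block.SmallPGroup
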