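import Cfsg.Agent.Lib.Block.FirstMain
import Cfsg.Agent.Lib.Block.Normal
import Cfsg.Agent.Lib.GS.Sylow
import Mathlib.LinearAlgebra.Dimension.Constructions

/-!
# Blocks with a Sylow defect group
-/

namespace Cfsg.Agent.Lib.Block

open Cfsg

set_option linter.unusedSectionVars false
set_option linter.style.haveILetI false

universe u

variable {p : ℕ} {M : Ideal AlgInt} [M.IsPrime] {G : Type u} [Group G] [Finite G]

/-- For a group of order prime to `p` a central element modulo `M` is determined by the central
characters modulo `M`. -/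
theorem toF_eq_zero_of_pPrime (hM : IsPModular p M) (hG : ¬ p ∣ Nat.card G)
    {a : MonoidAlgebra ℂ G} (ha : IsClassCoeff a) (haR : IntR M a)
    (h : ∀ ψ : IrrCharacter G, redC M (omega (ψ : G → ℂ) a) = 0) : toF M a = 0 := by
  classical
  haveI := Fintype.ofFinite G
  have hsum : a = ∑ ψ : IrrCharacter G, omega (ψ : G → ℂ) a • eIdem {ψ} := by
    refine eq_of_omega_eq ha (fun u x => ?_) fun χ => ?_
    · simp only [coeff_sum_apply, MonoidAlgebra.coeff_smul_apply, coeff_eIdem]
      exact Finset.sum_congr rfl fun ψ _ => by rw [isClassFunction_blockCoeff {ψ} x u]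
    · simp only [omega_sum, omega_smul, omega_eIdem, Set.mem_singleton_iff, mul_ite, mul_one,
        mul_zero]
      rw [Finset.sum_ite_eq, if_pos (Finset.mem_univ χ)]
  refine alg_ext fun x => ?_
  rw [coeff_toF, MonoidAlgebra.coeff_zero, Finsupp.zero_apply, hsum, coeff_sum_apply]
  simp only [MonoidAlgebra.coeff_smul_apply, smul_eq_mul]
  rw [redC_sum _ fun ψ _ => mul_mem (omega_mem_locRing ψ ha haR) (intR_eIdem_of_pPrime hM hG {ψ} x)]
  refine Finset.sum_eq_zero fun ψ _ => ?_
  rw [redC_mul (omega_mem_locRing ψ ha haR) (intR_eIdem_of_pPrime hM hG {ψ} x), h ψ, zero_mul]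

/-- A central element modulo `M` supported on a subgroup of order prime to `p` and killed by all
central characters is zero. -/
theorem toF_eq_zero_of_supp (hM : IsPModular p M) {K : Subgroup G} (hK : ¬ p ∣ Nat.card K)
    {a : MonoidAlgebra ℂ G} (ha : IsClassCoeff a) (haR : IntR M a)
    (hsupp : ∀ x : G, x ∉ K → a.coeff x = 0)
    (h : ∀ ψ : IrrCharacter G, redC M (omega (ψ : G → ℂ) a) = 0) : toF M a = 0 := by
  haveI := Fintype.ofFinite G
  obtain ⟨n, hn⟩ := exists_pow_toF_eq_zero ha haR h
  have hs : ∀ x : G, x ∉ K → (toF M a).coeff x = 0 := fun x hx => by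
    rw [coeff_toF, hsupp x hx, redC_zero]
  have hpow : ∀ m : ℕ, toSub K (toF M a ^ m) = toSub K (toF M a) ^ m := by
    intro m
    induction m with
    | zero => rw [pow_zero, pow_zero, toSub_one]
    | succ m ih => rw [pow_succ, pow_succ, toSub_mul_of_supp K _ hs, ih]
  have hc : IsClassCoeff (toSub K a) := isClassCoeff_toSub ha
  have hR : IntR M (toSub K a) := intR_toSub haR
  have h0 := toF_eq_zero_of_pPrime hM hK hc hR fun ψ => by
    have h1 : toF M ((toSub K a) ^ n) = 0 := by
      rw [toF_pow hR, toF_toSub, ← hpow, hn]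
      exact alg_ext fun x => by simp
    have h2 := redC_omega_eq_zero_of_idR ψ (hc.pow n) (idR_of_toF_eq_zero (hR.pow n) h1)
    rw [omega_pow ψ hc, redC_pow (omega_mem_locRing ψ hc hR)] at h2
    exact eq_zero_of_pow_eq_zero h2
  refine alg_ext fun x => ?_
  rw [MonoidAlgebra.coeff_zero, Finsupp.zero_apply]
  by_cases hx : x ∈ K
  · have := congrArg (fun b : MonoidAlgebra (ResField M) K => b.coeff ⟨x, hx⟩) h0
    simpa using this
  · exact hs x hx

/-- With a normal Sylow `p`-subgroup, blocks correspond in number to the regular classes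
centralising it. -/
theorem card_blocks_of_normal_sylow (hM : IsPModular p M) (P : Sylow p G)
    [hPn : (P : Subgroup G).Normal] :
    Nat.card {B : Set (IrrCharacter G) // IsPBlock M B} =
      Nat.card {C : ConjClasses G // ∀ g : G, ConjClasses.mk g = C →
        ¬ p ∣ orderOf g ∧ g ∈ Subgroup.centralizer ((P : Subgroup G) : Set G)} := by
  classical
  haveI : Fact p.Prime := ⟨hM.1⟩
  haveI := Fintype.ofFinite G
  set n := (Nat.card G).factorization p with hn
  have hPc : Nat.card (P : Subgroup G) = p ^ n := P.card_eq_multiplicity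
  have hdef : ∀ B : Set (IrrCharacter G), IsPBlock M B → blockDefect p B = n := by
    intro B hB
    obtain ⟨E, hE⟩ := exists_isDefectGroup hM hB
    obtain ⟨hEp, hEc, -⟩ := IsDefectGroup.props hM hB hE
    have h1 := Subgroup.card_le_of_le (le_defect_of_normal hM hB P.2 hE)
    rw [hPc, hEc] at h1
    have h2 := (hM.1.pow_dvd_iff_le_factorization Nat.card_pos.ne').1
      (hEc ▸ Subgroup.card_subgroup_dvd_card E)
    exact le_antisymm h2 ((Nat.pow_le_pow_iff_right hM.1.one_lt).1 h1)
  refine le_antisymm ?_ ?_
  · have h := card_blocks_le_card_classes (G := G) hM (fun d => d = n)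
      (fun a b c ha hb h1 h2 => by omega)
    rw [Nat.card_congr (Equiv.subtypeEquivRight (p := fun B : Set (IrrCharacter G) =>
      IsPBlock M B ∧ blockDefect p B = n) (q := fun B => IsPBlock M B)
      fun B => ⟨And.left, fun hB => ⟨hB, hdef B hB⟩⟩)] at h
    refine h.trans (Nat.card_le_card_of_injective (fun C => ⟨C.1, ?_⟩) ?_)
    · intro g hg
      obtain ⟨g', hg', hreg, hv⟩ := C.2
      obtain ⟨c, rfl⟩ := isConj_iff.1 (ConjClasses.mk_eq_mk_iff_isConj.1 (hg'.trans hg.symm))
      refine ⟨by rwa [orderOf_conj_eq], ?_⟩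
      obtain ⟨S⟩ := (inferInstance : Nonempty (Sylow p (Subgroup.centralizer ({g'} : Set G))))
      have hS : Nat.card ((S : Subgroup (Subgroup.centralizer ({g'} : Set G))).map
          (Subgroup.centralizer ({g'} : Set G)).subtype) = p ^ n := by
        rw [card_sylow_centralizer hM, hv]
      obtain ⟨Q, hQ⟩ := (S.2.map (Subgroup.centralizer ({g'} : Set G)).subtype).exists_le_sylow
      letI := Sylow.unique_of_normal P hPn
      rw [Subsingleton.elim Q P] at hQ
      have hPle : (P : Subgroup G) ≤ Subgroup.centralizer ({g'} : Set G) := by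
        rw [← Subgroup.eq_of_le_of_card_ge hQ (by rw [hS, hPc])]
        exact Subgroup.map_subtype_le _
      exact (inferInstance : (Subgroup.centralizer ((P : Subgroup G) : Set G)).Normal).conj_mem g'
        (le_centralizer_singleton_iff.1 hPle) c
    · intro C C' he
      exact Subtype.ext (congrArg Subtype.val he :)
  · set C₀ := Subgroup.centralizer ((P : Subgroup G) : Set G) with hC₀
    obtain ⟨S⟩ := (inferInstance : Nonempty (Sylow p C₀))
    have hSP : ((S : Subgroup C₀).map C₀.subtype) ≤ P := by
      obtain ⟨Q, hQ⟩ := (S.2.map C₀.subtype).exists_le_sylow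
      letI := Sylow.unique_of_normal P hPn
      rwa [Subsingleton.elim Q P] at hQ
    obtain ⟨-, K, hKn, hKp, -, hKsup⟩ := GS.exists_direct_complement S fun y _ _ _ _ _ => by
      rw [Subgroup.mem_centralizer_iff]
      intro s hs
      exact Subtype.ext (Subgroup.mem_centralizer_iff.1 y.2 s (hSP ⟨s, hs, rfl⟩))
    have hKidx : ∃ k, K.index = p ^ k := by
      have h1 : Nat.card (C₀ ⧸ K) ∣ Nat.card (S : Subgroup C₀) := by
        refine (Subgroup.card_dvd_of_surjective ((QuotientGroup.mk' K).comp (S : Subgroup C₀).subtype) ?_)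
        intro q
        obtain ⟨c, rfl⟩ := QuotientGroup.mk_surjective q
        obtain ⟨a, ha, b, hb, rfl⟩ := Subgroup.mem_sup_of_normal_right.1
          (show c ∈ (S : Subgroup C₀) ⊔ K by rw [hKsup]; exact Subgroup.mem_top c)
        exact ⟨⟨a, ha⟩, (by
          show (QuotientGroup.mk' K) a = QuotientGroup.mk' K (a * b)
          rw [map_mul, show QuotientGroup.mk' K b = 1 from (QuotientGroup.eq_one_iff b).2 hb, mul_one])⟩
      obtain ⟨j, -, hj⟩ := (Nat.dvd_prime_pow hM.1).1 (S.card_eq_multiplicity ▸ h1)
      exact ⟨j, hj⟩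
    obtain ⟨k, hk⟩ := hKidx
    set β := {B : Set (IrrCharacter G) // IsPBlock M B}
    set γ := {C : ConjClasses G // ∀ g : G, ConjClasses.mk g = C → ¬ p ∣ orderOf g ∧ g ∈ C₀}
    haveI : Fintype β := Fintype.ofFinite _
    haveI : Fintype γ := Fintype.ofFinite _
    choose χ hχ using fun B : β => isPBlock_nonempty B.2
    let Ψ : (γ → ResField M) →ₗ[ResField M] (β → ResField M) :=
      { toFun := fun c B => ∑ C : γ, c C * redC M (centralChar (χ B : G → ℂ) C.1.out)
        map_add' := fun c c' => funext fun B => by simp [add_mul, Finset.sum_add_distrib]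
        map_smul' := fun r c => funext fun B => by simp [Finset.mul_sum, mul_assoc] }
    have hinj : Function.Injective Ψ := by
      rw [← LinearMap.ker_eq_bot, LinearMap.ker_eq_bot']
      intro c hc
      choose z hz using fun C : γ => Ideal.Quotient.mk_surjective (c C)
      have hzc : ∀ C, redC M (z C : ℂ) = c C := fun C => by rw [redC_coe]; exact hz C
      set a : MonoidAlgebra ℂ G := ∑ C : γ, (z C : ℂ) • classSum ℂ C.1.out with ha
      have hac : IsClassCoeff a := by
        intro u x
        simp only [ha, coeff_sum_apply, MonoidAlgebra.coeff_smul_apply]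
        exact Finset.sum_congr rfl fun C _ => by rw [isClassCoeff_classSum C.1.out u x]
      have hcs : ∀ C : γ, ∀ x : G, (classSum ℂ C.1.out).coeff x =
          if ConjClasses.mk x = C.1 then 1 else 0 := fun C x => by
        rw [coeff_classSum]
        refine if_congr ?_ rfl rfl
        rw [← ConjClasses.mk_eq_mk_iff_isConj,
          show ConjClasses.mk C.1.out = C.1 from Quotient.out_eq C.1]
        exact eq_comm
      have haR : IntR M a := by
        intro x
        simp only [ha, coeff_sum_apply, MonoidAlgebra.coeff_smul_apply]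
        exact sum_mem fun C _ => mul_mem (z C).2 (intR_classSum _ x)
      have hsupp : ∀ x : G, x ∉ K.map C₀.subtype → a.coeff x = 0 := by
        intro x hx
        simp only [ha, coeff_sum_apply, MonoidAlgebra.coeff_smul_apply, hcs]
        refine Finset.sum_eq_zero fun C _ => ?_
        rw [if_neg, smul_zero]
        intro he
        obtain ⟨hreg, hxC⟩ := C.2 x he
        exact hx ⟨⟨x, hxC⟩, mem_of_regular_of_index K hM hk (by rwa [Subgroup.orderOf_mk]), rfl⟩
      have hKp' : ¬ p ∣ Nat.card (K.map C₀.subtype) := by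
        rwa [← Nat.card_congr (K.equivMapOfInjective _ C₀.subtype_injective).toEquiv]
      have h0 := toF_eq_zero_of_supp hM hKp' hac haR hsupp fun ψ => by
        have := congrFun hc ⟨blockOf M (ψ : G → ℂ), isPBlock_blockOf ψ⟩
        simp only [Ψ, LinearMap.coe_mk, AddHom.coe_mk, Pi.zero_apply] at this
        simp only [ha, omega_sum, omega_smul, omega_classSum_irr]
        rw [redC_sum _ fun C _ => mul_mem (z C).2 (centralChar_mem_locRing ψ _)]
        refine (Finset.sum_congr rfl fun C _ => ?_).trans this
        rw [redC_mul (z C).2 (centralChar_mem_locRing ψ _), hzc,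
          sameBlock_iff.1 (show SameBlock M (ψ : G → ℂ) _ from
            hχ ⟨blockOf M (ψ : G → ℂ), isPBlock_blockOf ψ⟩) C.1.out]
      refine funext fun C => ?_
      have h1 := congrArg (fun b : MonoidAlgebra (ResField M) G => b.coeff C.1.out) h0
      simp only [coeff_toF, ha, coeff_sum_apply, MonoidAlgebra.coeff_smul_apply, hcs,
        MonoidAlgebra.coeff_zero, Finsupp.zero_apply] at h1
      rw [Finset.sum_eq_single C, if_pos (show ConjClasses.mk C.1.out = C.1 from Quotient.out_eq C.1), smul_eq_mul, mul_one, hzc] at h1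
      · exact h1
      · intro C' _ hne
        rw [if_neg, smul_zero]
        exact fun he => hne (Subtype.ext (he.symm.trans (Quotient.out_eq C.1)))
      · exact fun hh => absurd (Finset.mem_univ C) hh
    have := LinearMap.finrank_le_finrank_of_injective hinj
    rw [Module.finrank_fintype_fun_eq_card, Module.finrank_fintype_fun_eq_card] at this
    rw [Nat.card_eq_fintype_card, Nat.card_eq_fintype_card]
    exact this

/-- The number of blocks of `G` with a given Sylow subgroup as defect group is the number of blocks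
of its normaliser. -/
theorem card_blocks_sylow_defect (hM : IsPModular p M) (P : Sylow p G) :
    Nat.card {B : Set (IrrCharacter G) // IsPBlock M B ∧ IsDefectGroup p M B (P : Subgroup G)} =
      Nat.card {b : Set (IrrCharacter (Subgroup.normalizer ((P : Subgroup G) : Set G))) //
        IsPBlock M b} := by
  classical
  haveI : Fact p.Prime := ⟨hM.1⟩
  haveI : ((P : Subgroup G).subgroupOf (Subgroup.normalizer ((P : Subgroup G) : Set G))).Normal :=
    Subgroup.normal_subgroupOf_of_le_normalizer le_rfl
  have hdef : ∀ b : Set (IrrCharacter (Subgroup.normalizer ((P : Subgroup G) : Set G))),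
      IsPBlock M b → IsDefectGroup p M b
        ((P : Subgroup G).subgroupOf (Subgroup.normalizer ((P : Subgroup G) : Set G))) := by
    intro b hb
    obtain ⟨E, hE⟩ := exists_isDefectGroup hM hb
    have hle := le_defect_of_normal hM hb
      (Q := (P : Subgroup G).subgroupOf (Subgroup.normalizer ((P : Subgroup G) : Set G)))
      (P.2.comap_of_injective _ (Subgroup.subtype_injective
        (Subgroup.normalizer ((P : Subgroup G) : Set G)))) hE
    have h3 : Nat.card E ≤ Nat.card ((P : Subgroup G).subgroupOf
        (Subgroup.normalizer ((P : Subgroup G) : Set G))) := by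
      obtain ⟨hEp, hEc, -⟩ := IsDefectGroup.props hM hb hE
      rw [card_subgroupOf_normalizer, P.card_eq_multiplicity, hEc]
      refine Nat.pow_le_pow_right hM.1.pos ((hM.1.pow_dvd_iff_le_factorization Nat.card_pos.ne').1 ?_)
      exact hEc ▸ (Subgroup.card_subgroup_dvd_card E).trans (Subgroup.card_subgroup_dvd_card _)
    rwa [Subgroup.eq_of_le_of_card_ge hle h3]
  have hex : ∀ b : {b : Set (IrrCharacter (Subgroup.normalizer ((P : Subgroup G) : Set G))) //
      IsPBlock M b}, ∃ B : {B : Set (IrrCharacter G) // IsPBlock M B ∧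
        IsDefectGroup p M B (P : Subgroup G)},
        IsInducedBlock M (Subgroup.normalizer ((P : Subgroup G) : Set G)) b.1 B.1 := by
    intro b
    obtain ⟨B, hind⟩ := inducedBlockDefined_of_brauer hM P.2 Subgroup.le_normalizer
      (Subgroup.centralizer_le_normalizer _) le_rfl b.2
    exact ⟨⟨B, hind.2.1, isDefectGroup_of_induced_normalizer hM P.2 hind (hdef b.1 b.2)⟩, hind⟩
  choose f hf using hex
  refine (Nat.card_eq_of_bijective f ⟨fun b b' he => ?_, fun B => ?_⟩).symm
  · exact Subtype.ext (eq_of_induced_normalizer hM P.2 (hf b) (he ▸ hf b') (hdef b.1 b.2))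
  · obtain ⟨b, hind⟩ := exists_inducing_block hM P.2 Subgroup.le_normalizer
      (Subgroup.centralizer_le_normalizer _) le_rfl B.2.1 B.2.2 le_rfl
    refine ⟨⟨b, hind.1⟩, Subtype.ext ?_⟩
    obtain ⟨ξ, hξ⟩ := isPBlock_nonempty hind.1
    obtain ⟨χ, hχ⟩ := isPBlock_nonempty B.2.1
    obtain ⟨χ', hχ'⟩ := isPBlock_nonempty (f ⟨b, hind.1⟩).2.1
    refine eq_of_mem_of_mem (f ⟨b, hind.1⟩).2.1 B.2.1 hχ' ((mem_iff_sameBlock B.2.1 hχ).2
      (sameBlock_iff.2 fun g => ?_))
    rw [← (isInducedBlock_iff.1 hind).2.2 ξ hξ χ hχ g,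
      ← (isInducedBlock_iff.1 (hf ⟨b, hind.1⟩)).2.2 ξ hξ χ' hχ' g]

end Cfsg.Agent.Lib.Block
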