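import Cfsg.Agent.Lib.Block.CycWeight

/-!
# The Galois mean of a cyclotomic integer of two-power conductor
-/

namespace Cfsg.Agent.Lib.Block

open Cfsg Cfsg.Agent.Lib.CharCyclo
open scoped ComplexConjugate

set_option linter.unusedSectionVars false
set_option linter.style.haveILetI false

lemma mul_mem_cycSpan {ζ x y : ℂ} (hx : x ∈ cycSpan ζ) (hy : y ∈ cycSpan ζ) :
    x * y ∈ cycSpan ζ := by
  induction hx using Submodule.span_induction with
  | mem x hx =>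
    obtain ⟨e, rfl⟩ := hx
    induction hy using Submodule.span_induction with
    | mem y hy =>
      obtain ⟨f, rfl⟩ := hy
      rw [← pow_add]; exact pow_mem_cycSpan ζ _
    | zero => simp
    | add y z _ _ h h' => rw [mul_add]; exact add_mem h h'
    | smul t y _ h => rw [mul_smul_comm]; exact Submodule.smul_mem _ _ h
  | zero => simp
  | add x z _ _ h h' => rw [add_mul]; exact add_mem h h'
  | smul t x _ h => rw [smul_mul_assoc]; exact Submodule.smul_mem _ _ h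

lemma one_mem_cycSpan (ζ : ℂ) : (1 : ℂ) ∈ cycSpan ζ := pow_zero ζ ▸ pow_mem_cycSpan ζ 0

lemma intCast_mem_cycSpan (ζ : ℂ) (z : ℤ) : (z : ℂ) ∈ cycSpan ζ := by
  simpa using intCast_mul_mem_cycSpan z (one_mem_cycSpan ζ)

lemma natCast_mem_cycSpan (ζ : ℂ) (n : ℕ) : (n : ℂ) ∈ cycSpan ζ := by
  simpa using intCast_mem_cycSpan ζ n

lemma pow_mem_cycSpan' {ζ x : ℂ} (hx : x ∈ cycSpan ζ) (j : ℕ) : x ^ j ∈ cycSpan ζ := by
  induction j with
  | zero => exact (pow_zero x).symm ▸ one_mem_cycSpan ζ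
  | succ j ih => rw [pow_succ]; exact mul_mem_cycSpan ih hx

lemma geom_mem_cycSpan (ζ : ℂ) (a m : ℕ) : ∑ i ∈ Finset.range m, (ζ ^ a) ^ i ∈ cycSpan ζ :=
  sum_mem fun i _ => by rw [← pow_mul]; exact pow_mem_cycSpan ζ _

section Two

variable {k : ℕ} {ζ : ℂ} (hζ : IsPrimitiveRoot ζ (2 * 2 ^ k))

include hζ in
lemma half_pow : ζ ^ 2 ^ k = -1 :=
  IsPrimitiveRoot.eq_neg_one_of_two_right (hζ.pow (Nat.mul_pos two_pos (pow_pos two_pos k))
    (Nat.mul_comm _ _))

include hζ in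
lemma conj_mem_cycSpan {y : ℂ} (hy : y ∈ cycSpan ζ) : conj y ∈ cycSpan ζ := by
  induction hy using Submodule.span_induction with
  | mem y hy =>
    obtain ⟨e, rfl⟩ := hy
    haveI : NeZero (2 * 2 ^ k) := ⟨mul_ne_zero two_ne_zero (pow_ne_zero _ two_ne_zero)⟩
    refine rootOfUnity_mem_cycSpan hζ ?_
    rw [← map_pow, ← pow_mul, mul_comm e, pow_mul, hζ.pow_eq_one, one_pow, map_one]
  | zero => simp
  | add y z _ _ h h' => rw [map_add]; exact add_mem h h'
  | smul t y _ h =>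
    rw [map_zsmul]; exact Submodule.smul_mem _ _ h

include hζ in
lemma exists_coeff {y : ℂ} (hy : y ∈ cycSpan ζ) :
    ∃ c : Fin (2 ^ k) → ℤ, y = ∑ e, (c e : ℂ) * ζ ^ (e : ℕ) := by
  have h : y ∈ Submodule.span ℤ (Set.range fun e : Fin (2 ^ k) => ζ ^ (e : ℕ)) := by
    refine Submodule.span_le.2 ?_ hy
    rintro _ ⟨e, rfl⟩
    have he : ζ ^ e = ((-1 : ℤ) ^ (e / 2 ^ k)) • ζ ^ (e % 2 ^ k) := by
      conv_lhs => rw [← Nat.div_add_mod e (2 ^ k), pow_add, pow_mul, half_pow hζ]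
      simp [zsmul_eq_mul]
    show ζ ^ e ∈ _
    rw [he]
    exact Submodule.smul_mem _ _ (Submodule.subset_span ⟨⟨e % 2 ^ k, Nat.mod_lt _ (pow_pos two_pos k)⟩, rfl⟩)
  obtain ⟨c, hc⟩ := Submodule.mem_span_range_iff_exists_fun ℤ |>.1 h
  exact ⟨c, by rw [← hc]; simp [zsmul_eq_mul]⟩

variable (k) in
/-- An automorphism raising the roots of unity of order `2 ^ (k + 1)` to an odd power. -/
noncomputable def oddAut (j : ℕ) : ℂ ≃+* ℂ :=
  (CharGalois.exists_aut_pow (n := 2 * 2 ^ k) (k := 2 * j + 1) (by positivity)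
    (by rw [← pow_succ']; exact Nat.Coprime.pow_right _ (by simp))).choose

lemma oddAut_spec (j : ℕ) (μ : ℂ) (h : μ ^ (2 * 2 ^ k) = 1) :
    oddAut k j μ = μ ^ (2 * j + 1) :=
  (CharGalois.exists_aut_pow (n := 2 * 2 ^ k) (k := 2 * j + 1) (by positivity)
    (by rw [← pow_succ']; exact Nat.Coprime.pow_right _ (by simp))).choose_spec μ h

variable (k) in
/-- The mean over the conjugates. -/
noncomputable def galMean : ℂ →+ ℂ :=
  AddMonoidHom.mk' (fun y => ((2 : ℂ) ^ k)⁻¹ * ∑ j ∈ Finset.range (2 ^ k), oddAut k j y) fun x y => by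
    simp only [map_add, Finset.sum_add_distrib, mul_add]

lemma galMean_intCast_mul (z : ℤ) (y : ℂ) : galMean k ((z : ℂ) * y) = (z : ℂ) * galMean k y := by
  rw [← zsmul_eq_mul, map_zsmul, zsmul_eq_mul]

include hζ in
lemma galMean_pow (e : ℕ) : galMean k (ζ ^ e) = if 2 ^ k ∣ e then ζ ^ e else 0 := by
  have hz : (ζ ^ e) ^ (2 * 2 ^ k) = 1 := by
    rw [← pow_mul, mul_comm, pow_mul, hζ.pow_eq_one, one_pow]
  show ((2 : ℂ) ^ k)⁻¹ * ∑ j ∈ Finset.range (2 ^ k), oddAut k j (ζ ^ e) = _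
  rw [Finset.sum_congr rfl fun j _ => show oddAut k j (ζ ^ e) = ζ ^ e * (ζ ^ (e * 2)) ^ j by
    rw [oddAut_spec j _ hz, ← pow_mul, ← pow_mul, ← pow_add]; congr 1; ring, ← Finset.mul_sum]
  have hiff : ζ ^ (e * 2) = 1 ↔ 2 ^ k ∣ e := by
    rw [hζ.pow_eq_one_iff_dvd, mul_comm e, Nat.mul_dvd_mul_iff_left two_pos]
  split_ifs with h
  · rw [hiff.2 h]
    simp only [one_pow, Finset.sum_const, Finset.card_range, nsmul_eq_mul, mul_one, Nat.cast_pow,
      Nat.cast_ofNat]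
    field_simp
  · have h1 : (ζ ^ (e * 2)) ^ 2 ^ k = 1 := by
      rw [← pow_mul, mul_assoc, mul_comm e, pow_mul, hζ.pow_eq_one, one_pow]
    rw [geom_sum_eq (fun h' => h (hiff.1 h')), h1, sub_self, zero_div, mul_zero, mul_zero]

include hζ in
lemma galMean_one : galMean k 1 = 1 := by
  have := galMean_pow hζ 0
  simpa using this

include hζ in
lemma galMean_intCast (z : ℤ) : galMean k (z : ℂ) = z := by
  rw [← mul_one (z : ℂ), galMean_intCast_mul, galMean_one hζ]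

include hζ in
lemma galMean_mul_conj_pow (c : Fin (2 ^ k) → ℤ) (f : Fin (2 ^ k)) :
    galMean k ((∑ e, (c e : ℂ) * ζ ^ (e : ℕ)) * conj (ζ ^ (f : ℕ))) = c f := by
  have hN : 2 * 2 ^ k ≠ 0 := by positivity
  have hc : conj (ζ ^ (f : ℕ)) = ζ ^ (2 * 2 ^ k - (f : ℕ)) := by
    rw [map_pow, conj_root hN hζ.pow_eq_one, inv_pow, eq_comm, ← mul_eq_one_iff_eq_inv₀
      (pow_ne_zero _ (hζ.ne_zero hN)), ← pow_add, Nat.sub_add_cancel (by omega), hζ.pow_eq_one]
  rw [Finset.sum_mul, map_sum, Finset.sum_eq_single f]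
  · rw [mul_assoc, galMean_intCast_mul, hc, ← pow_add, Nat.add_sub_cancel' (by omega),
      hζ.pow_eq_one, galMean_one hζ, mul_one]
  · intro e _ hne
    rw [mul_assoc, galMean_intCast_mul, hc, ← pow_add, galMean_pow hζ, if_neg, mul_zero]
    rintro ⟨t, ht⟩
    have he := e.2
    have hf := f.2
    have hne' : (e : ℕ) ≠ (f : ℕ) := fun h => hne (Fin.ext h)
    have h1 : t < 3 := by
      by_contra h
      have := Nat.mul_le_mul_left (2 ^ k) (show 3 ≤ t by omega)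
      omega
    interval_cases t <;> omega
  · simp

include hζ in
lemma galMean_coeff_zero (c : Fin (2 ^ k) → ℤ) :
    galMean k (∑ e, (c e : ℂ) * ζ ^ (e : ℕ)) = c ⟨0, pow_pos two_pos k⟩ := by
  have := galMean_mul_conj_pow hζ c ⟨0, pow_pos two_pos k⟩
  simpa using this

include hζ in
lemma galMean_normSq (c : Fin (2 ^ k) → ℤ) :
    galMean k ((∑ e, (c e : ℂ) * ζ ^ (e : ℕ)) * conj (∑ e, (c e : ℂ) * ζ ^ (e : ℕ))) =
      ((∑ e, c e ^ 2 : ℤ) : ℂ) := by
  rw [map_sum (starRingEnd ℂ), Finset.mul_sum, map_sum, Int.cast_sum]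
  refine Finset.sum_congr rfl fun f _ => ?_
  rw [map_mul (starRingEnd ℂ), map_intCast (starRingEnd ℂ), mul_left_comm, galMean_intCast_mul, galMean_mul_conj_pow hζ]
  push_cast
  ring

include hζ in
lemma coeff_symm {c : Fin (2 ^ k) → ℤ}
    (hr : conj (∑ e, (c e : ℂ) * ζ ^ (e : ℕ)) = ∑ e, (c e : ℂ) * ζ ^ (e : ℕ))
    (f g : Fin (2 ^ k)) (hfg : (f : ℕ) + g = 2 ^ k) : c f = - c g := by
  apply Int.cast_injective (α := ℂ)
  rw [← galMean_mul_conj_pow hζ c f, ← hr, ← map_mul, Finset.sum_mul, map_sum, map_sum,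
    Finset.sum_eq_single g]
  · rw [mul_assoc, map_mul, map_intCast, galMean_intCast_mul, ← pow_add, add_comm, hfg,
      half_pow hζ, map_neg, map_one, map_neg, galMean_one hζ]
    push_cast; ring
  · intro e _ hne
    rw [mul_assoc, map_mul, map_intCast, galMean_intCast_mul, ← pow_add]
    have hN : 2 * 2 ^ k ≠ 0 := by positivity
    have hef : ¬ 2 ^ k ∣ (e : ℕ) + f := by
      rintro ⟨t, ht⟩
      have he := e.2
      have hf := f.2
      have hg := g.2
      have hne' : (e : ℕ) ≠ (g : ℕ) := fun h => hne (Fin.ext h)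
      have h1 : t < 2 := by
        by_contra h
        have := Nat.mul_le_mul_left (2 ^ k) (show 2 ≤ t by omega)
        omega
      interval_cases t <;> omega
    have he2 : (e : ℕ) + f ≤ 2 * 2 ^ k := by omega
    have hc : conj (ζ ^ ((e : ℕ) + f)) = ζ ^ (2 * 2 ^ k - ((e : ℕ) + f)) := by
      rw [map_pow, conj_root hN hζ.pow_eq_one, inv_pow, eq_comm, ← mul_eq_one_iff_eq_inv₀
        (pow_ne_zero _ (hζ.ne_zero hN)), ← pow_add, Nat.sub_add_cancel he2, hζ.pow_eq_one]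
    rw [hc, galMean_pow hζ, if_neg, mul_zero]
    intro h
    exact hef ((Nat.dvd_add_right h).1 (by rw [Nat.sub_add_cancel he2]; exact dvd_mul_left _ _))
  · simp

variable {M : Ideal AlgInt} [M.IsPrime]

include hζ in
lemma mem_locRing_of_cycSpan {y : ℂ} (hy : y ∈ cycSpan ζ) : y ∈ locRing M := by
  induction hy using Submodule.span_induction with
  | mem y hy =>
    obtain ⟨e, rfl⟩ := hy
    exact pow_mem (integral_mem_locRing (IsIntegral.of_pow (n := 2 * 2 ^ k) (by positivity)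
      (hζ.pow_eq_one ▸ isIntegral_one))) e
  | zero => exact zero_mem _
  | add y z _ _ h h' => exact add_mem h h'
  | smul t y _ h => exact zsmul_mem h t

include hζ in
lemma redC_pow_root (hM : IsPModular 2 M) (e : ℕ) : redC M (ζ ^ e) = 1 := by
  have hmem : ζ ^ e ∈ locRing M := mem_locRing_of_cycSpan hζ (pow_mem_cycSpan ζ e)
  rw [redC_of_mem hmem]
  exact red_rootOfUnity_eq_one hM (k := k + 1) (z := ⟨ζ ^ e, hmem⟩)
    (by show (ζ ^ e) ^ 2 ^ (k + 1) = 1; rw [← pow_mul, mul_comm, pow_mul, pow_succ', hζ.pow_eq_one, one_pow])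

include hζ in
lemma redC_coeff (hM : IsPModular 2 M) (c : Fin (2 ^ k) → ℤ) :
    redC M (∑ e, (c e : ℂ) * ζ ^ (e : ℕ)) = ∑ e, (c e : ResField M) := by
  rw [redC_sum _ fun e _ => mul_mem (intCast_mem _ _) (mem_locRing_of_cycSpan hζ (pow_mem_cycSpan ζ _))]
  refine Finset.sum_congr rfl fun e _ => ?_
  rw [redC_mul (intCast_mem _ _) (mem_locRing_of_cycSpan hζ (pow_mem_cycSpan ζ _)), redC_pow_root hζ hM,
    mul_one, show ((c e : ℤ) : ℂ) = (((c e : ℤ) : locRing M) : ℂ) by simp, redC_coe, map_intCast]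

include hζ in
lemma redC_conj_eq (hM : IsPModular 2 M) {y : ℂ} (hy : y ∈ cycSpan ζ) :
    redC M (conj y) = redC M y := by
  obtain ⟨c, rfl⟩ := exists_coeff hζ hy
  rw [redC_coeff hζ hM, map_sum, redC_sum]
  · refine Finset.sum_congr rfl fun e _ => ?_
    have hmem : conj (ζ ^ (e : ℕ)) ∈ locRing M :=
      mem_locRing_of_cycSpan hζ (conj_mem_cycSpan hζ (pow_mem_cycSpan ζ _))
    rw [map_mul, map_intCast, redC_mul (intCast_mem _ _) hmem, redC_of_mem hmem,
      red_rootOfUnity_eq_one hM (k := k + 1) (z := ⟨conj (ζ ^ (e : ℕ)), hmem⟩)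
        (by show conj (ζ ^ (e : ℕ)) ^ 2 ^ (k + 1) = 1
            rw [← map_pow, ← pow_mul, mul_comm, pow_mul, pow_succ', hζ.pow_eq_one, one_pow, map_one]),
      mul_one, show ((c e : ℤ) : ℂ) = (((c e : ℤ) : locRing M) : ℂ) by simp, redC_coe, map_intCast]
  · exact fun e _ => mem_locRing_of_cycSpan hζ
      (conj_mem_cycSpan hζ (intCast_mul_mem_cycSpan _ (pow_mem_cycSpan ζ _)))

include hζ in
lemma galMean_int {y : ℂ} (hy : y ∈ cycSpan ζ) : ∃ z : ℤ, galMean k y = z := by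
  obtain ⟨c, rfl⟩ := exists_coeff hζ hy
  exact ⟨_, galMean_coeff_zero hζ c⟩

include hζ in
lemma galMean_normSq_int {y : ℂ} (hy : y ∈ cycSpan ζ) :
    ∃ z : ℤ, galMean k (y * conj y) = z ∧ 0 ≤ z ∧ (y ≠ 0 → 1 ≤ z) := by
  obtain ⟨c, rfl⟩ := exists_coeff hζ hy
  refine ⟨_, galMean_normSq hζ c, Finset.sum_nonneg fun e _ => sq_nonneg _, fun hne => ?_⟩
  obtain ⟨e, he⟩ : ∃ e, c e ≠ 0 := by
    by_contra! hc
    exact hne (Finset.sum_eq_zero fun e _ => by simp [hc e])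
  refine le_trans ?_ (Finset.single_le_sum (fun e _ => sq_nonneg (c e)) (Finset.mem_univ e))
  have : 0 < c e ^ 2 := sq_pos_iff.2 he
  omega

include hζ in
/-- A real member has the residue of its mean, whose square is at most the mean of its square. -/
lemma galMean_real (hM : IsPModular 2 M) {y : ℂ} (hy : y ∈ cycSpan ζ) (hr : conj y = y) :
    ∃ a s : ℤ, galMean k y = a ∧ redC M y = (a : ResField M) ∧ galMean k (y * conj y) = s ∧
      a ^ 2 ≤ s := by
  obtain ⟨c, rfl⟩ := exists_coeff hζ hy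
  haveI := resField_charP (M := M) hM
  set o : Fin (2 ^ k) := ⟨0, pow_pos two_pos k⟩ with ho
  refine ⟨_, _, galMean_coeff_zero hζ c, ?_, galMean_normSq hζ c,
    Finset.single_le_sum (fun e _ => sq_nonneg (c e)) (Finset.mem_univ o)⟩
  rw [redC_coeff hζ hM, ← Finset.add_sum_erase _ _ (Finset.mem_univ o), add_eq_left]
  have hpos : ∀ f : Fin (2 ^ k), f ∈ Finset.univ.erase o → 0 < (f : ℕ) := fun f hf =>
    Nat.pos_of_ne_zero fun h => (Finset.mem_erase.1 hf).1 (Fin.ext h)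
  refine Finset.sum_involution (fun f hf => (⟨2 ^ k - (f : ℕ), by have := hpos f hf; omega⟩ : Fin (2 ^ k)))
    (fun f hf => ?_) (fun f hf hne he => hne ?_) (fun f hf => ?_) (fun f hf => ?_)
  · rw [coeff_symm hζ hr f ⟨2 ^ k - (f : ℕ), by have := hpos f hf; omega⟩ (by
      show (f : ℕ) + (2 ^ k - (f : ℕ)) = 2 ^ k; omega), Int.cast_neg, neg_add_cancel]
  · have h := coeff_symm hζ hr f f (by
      have := congrArg Fin.val he
      simp only at this
      omega)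
    rw [show c f = 0 by omega, Int.cast_zero]
  · refine Finset.mem_erase.2 ⟨fun h => ?_, Finset.mem_univ _⟩
    have := congrArg Fin.val h
    simp only [ho] at this
    omega
  · exact Fin.ext (by show 2 ^ k - (2 ^ k - (f : ℕ)) = f; omega)

include hζ in
lemma dvd_of_redC_eq_zero (hM : IsPModular 2 M) {y : ℂ} (hy : y ∈ cycSpan ζ) (h : redC M y = 0) :
    ∃ y' ∈ cycSpan ζ, y = (1 - ζ) * y' := by
  obtain ⟨c, rfl⟩ := exists_coeff hζ hy
  haveI := resField_charP (M := M) hM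
  rw [redC_coeff hζ hM, ← Int.cast_sum, CharP.intCast_eq_zero_iff (ResField M) 2] at h
  obtain ⟨t, ht⟩ := h
  refine ⟨(t : ℂ) * ∑ i ∈ Finset.range (2 ^ k), (ζ ^ 1) ^ i -
    ∑ e : Fin (2 ^ k), (c e : ℂ) * ∑ i ∈ Finset.range (e : ℕ), (ζ ^ 1) ^ i,
    sub_mem (intCast_mul_mem_cycSpan _ (geom_mem_cycSpan ζ 1 _))
      (sum_mem fun e _ => intCast_mul_mem_cycSpan _ (geom_mem_cycSpan ζ 1 _)), ?_⟩
  have h2 : ∑ e : Fin (2 ^ k), (c e : ℂ) = 2 * (t : ℂ) := by
    have := congrArg (Int.cast : ℤ → ℂ) ht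
    push_cast at this
    exact this
  simp only [pow_one, mul_sub, mul_left_comm (1 - ζ), Finset.mul_sum (s := Finset.univ),
    mul_neg_geom_sum, half_pow hζ, mul_sub, mul_one, Finset.sum_sub_distrib, h2]
  ring

end Two

/-- Two is a unit multiple of a power of `1 - ζ`. -/
lemma exists_two_eq : ∀ {k : ℕ} {ζ : ℂ}, IsPrimitiveRoot ζ (2 * 2 ^ k) →
    ∃ w ∈ cycSpan ζ, ∃ z ∈ cycSpan ζ, 2 = (1 - ζ) ^ 2 ^ k * w ∧ w * z = 1 := by
  intro k
  induction k with
  | zero =>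
    intro ζ hζ
    refine ⟨1, one_mem_cycSpan ζ, 1, one_mem_cycSpan ζ, ?_, mul_one 1⟩
    have := half_pow hζ
    rw [pow_zero, pow_one] at this
    rw [this]; norm_num
  | succ k ih =>
    intro ζ hζ
    have hξ : IsPrimitiveRoot (ζ ^ 2) (2 * 2 ^ k) := hζ.pow (by positivity) (by ring)
    obtain ⟨w, hw, z, hz, he, hwz⟩ := ih hξ
    have hsub : ∀ y ∈ cycSpan (ζ ^ 2), y ∈ cycSpan ζ := fun y hy => by
      refine Submodule.span_le.2 ?_ hy
      rintro _ ⟨e, rfl⟩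
      show (ζ ^ 2) ^ e ∈ cycSpan ζ
      rw [← pow_mul]; exact pow_mem_cycSpan ζ _
    set H := 2 ^ (k + 1) with hH
    have hh : ζ ^ H = -1 := half_pow hζ
    set v := ∑ i ∈ Finset.range (H + 1), (ζ ^ 1) ^ i with hv
    set v' := ∑ i ∈ Finset.range (H + 1), (ζ ^ (H + 1)) ^ i with hv'
    have e1 : (1 - ζ) * v = 1 + ζ := by
      simp only [hv, pow_one]
      rw [mul_neg_geom_sum, pow_succ, hh]; ring
    have e2 : (1 + ζ) * v' = 1 - ζ := by
      rw [hv', show 1 + ζ = 1 - ζ ^ (H + 1) by rw [pow_succ, hh]; ring, mul_neg_geom_sum]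
      have hpow : (ζ ^ (H + 1)) ^ (H + 1) = ζ := by
        rw [pow_succ ζ H, hh, neg_one_mul, (show Odd (H + 1) from
          ⟨2 ^ k, by rw [hH, pow_succ]; ring⟩).neg_pow, pow_succ, hh]
        ring
      rw [hpow]
    have hne : 1 - ζ ≠ 0 := sub_ne_zero.2 fun h => by
      have := hζ.pow_ne_one_of_pos_of_lt (l := 1) one_ne_zero
        (by have := Nat.one_le_two_pow (n := k + 1); omega)
      exact this (by rw [← h, pow_one])
    have e3 : v * v' = 1 := mul_left_cancel₀ hne (by rw [← mul_assoc, e1, e2, mul_one])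
    refine ⟨v ^ 2 ^ k * w, mul_mem_cycSpan (pow_mem_cycSpan' (geom_mem_cycSpan ζ 1 _) _) (hsub w hw),
      v' ^ 2 ^ k * z, mul_mem_cycSpan (pow_mem_cycSpan' (geom_mem_cycSpan ζ _ _) _) (hsub z hz), ?_, ?_⟩
    · rw [he, show (1 : ℂ) - ζ ^ 2 = (1 - ζ) * (1 + ζ) by ring, ← e1, ← mul_assoc (1 - ζ), ← sq,
        mul_pow, ← pow_mul, hH, pow_succ']
      ring
    · rw [mul_mul_mul_comm, ← mul_pow, e3, one_pow, one_mul, hwz]

variable {M : Ideal AlgInt} [M.IsPrime] {k : ℕ} {ζ : ℂ}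

/-- Local divisibility by a power of two is divisibility in the cyclotomic integers. -/
lemma exists_eq_two_pow_mul (hM : IsPModular 2 M) (hζ : IsPrimitiveRoot ζ (2 * 2 ^ k)) {y : ℂ}
    (hy : y ∈ cycSpan ζ) (h : ℕ) (hd : y / (2 : ℂ) ^ h ∈ locRing M) :
    ∃ y' ∈ cycSpan ζ, y = (2 : ℂ) ^ h * y' := by
  obtain ⟨w, hw, z, hz, he, hwz⟩ := exists_two_eq hζ
  set π := 1 - ζ with hπ
  have hπs : π ∈ cycSpan ζ := sub_mem (one_mem_cycSpan ζ) (by simpa using pow_mem_cycSpan ζ 1)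
  have hπ0 : π ≠ 0 := fun h0 => two_ne_zero (α := ℂ) (by
    rw [he, h0, zero_pow (pow_ne_zero _ two_ne_zero), zero_mul])
  have hπr : redC M π = 0 := by
    rw [hπ, show (1 : ℂ) - ζ = 1 + (-1 : ℤ) * ζ ^ 1 by simp; ring,
      redC_add (one_mem _) (mul_mem (intCast_mem _ _) (mem_locRing_of_cycSpan hζ (pow_mem_cycSpan ζ 1))),
      redC_mul (intCast_mem _ _) (mem_locRing_of_cycSpan hζ (pow_mem_cycSpan ζ 1)),
      redC_one, redC_pow_root hζ hM, mul_one,
      show (((-1 : ℤ) : ℤ) : ℂ) = ((((-1 : ℤ) : ℤ) : locRing M) : ℂ) by simp, redC_coe, map_intCast]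
    simp
  set J := 2 ^ k * h with hJ
  have hq : y / π ^ J ∈ locRing M := by
    have e : y / π ^ J = y / (2 : ℂ) ^ h * w ^ h := by
      rw [he, mul_pow, hJ, pow_mul]
      have hw0 : w ≠ 0 := left_ne_zero_of_mul_eq_one hwz
      field_simp
    rw [e]
    exact mul_mem hd (pow_mem (mem_locRing_of_cycSpan hζ hw) h)
  have key : ∀ j, j ≤ J → ∃ y' ∈ cycSpan ζ, y = π ^ j * y' := by
    intro j
    induction j with
    | zero => exact fun _ => ⟨y, hy, by simp⟩
    | succ j ih =>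
      intro hj
      obtain ⟨y', hy', hye⟩ := ih (by omega)
      have h0 : redC M y' = 0 := by
        obtain ⟨i, hi⟩ := Nat.exists_eq_add_of_lt (show j < J by omega)
        have e : y' = π * (π ^ i * (y / π ^ J)) := by
          rw [hye, hi, pow_succ, pow_add]; field_simp
        rw [e, redC_mul (mem_locRing_of_cycSpan hζ hπs)
          (mul_mem (pow_mem (mem_locRing_of_cycSpan hζ hπs) i) hq), hπr, zero_mul]
      obtain ⟨y'', hy'', hye'⟩ := dvd_of_redC_eq_zero hζ hM hy' h0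
      exact ⟨y'', hy'', by rw [hye, hye', pow_succ, mul_assoc]⟩
  obtain ⟨y', hy', hye⟩ := key J le_rfl
  refine ⟨z ^ h * y', mul_mem_cycSpan (pow_mem_cycSpan' hz h) hy', ?_⟩
  rw [he, mul_pow, mul_assoc, ← mul_assoc (w ^ h), ← mul_pow, hwz, one_pow, one_mul, ← pow_mul]
  exact hye

end Cfsg.Agent.Lib.Block
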