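import Cfsg.Agent.Lib.Block.RankTwo
import Cfsg.Agent.Lib.Block.TwoMean
import Cfsg.Agent.Lib.Block.Count

/-!
# Bounds from the contributions of a subsection for the prime two

The means over the Galois conjugates of the contributions are integers: odd on the members of
height zero, and divisible by twice `2 ^ h` on the diagonal at a member of positive height `h`.
-/

namespace Cfsg.Agent.Lib.Block

open Cfsg Cfsg.Agent.Lib.CharCyclo
open scoped ComplexConjugate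

set_option linter.unusedSectionVars false
set_option linter.style.haveILetI false

universe u v

variable {M : Ideal AlgInt} [M.IsPrime]

section Abstract

variable {k : ℕ} {ζ : ℂ} {ι : Type v} [Fintype ι]

/-- A hermitian matrix of cyclotomic integers whose square is `P` times itself. -/
structure Contribution (ζ : ℂ) (P : ℤ) (K : ι → ι → ℂ) : Prop where
  mem : ∀ χ ψ, K χ ψ ∈ cycSpan ζ
  herm : ∀ χ ψ, K ψ χ = conj (K χ ψ)
  square : ∀ χ, ∑ ψ, K χ ψ * conj (K χ ψ) = (P : ℂ) * K χ χ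

variable {P : ℤ} {K : ι → ι → ℂ}

/-- The diagonal means. -/
theorem Contribution.exists_means (hc : Contribution ζ P K) (hM : IsPModular 2 M)
    (hζ : IsPrimitiveRoot ζ (2 * 2 ^ k)) :
    ∃ (A : ι → ℤ) (W : ι → ι → ℤ), (∀ χ, galMean k (K χ χ) = A χ) ∧
      (∀ χ, redC M (K χ χ) = (A χ : ResField M)) ∧
      (∀ χ ψ, galMean k (K χ ψ * conj (K χ ψ)) = W χ ψ) ∧
      (∀ χ ψ, 0 ≤ W χ ψ) ∧ (∀ χ ψ, K χ ψ ≠ 0 → 1 ≤ W χ ψ) ∧
      (∀ χ, A χ ^ 2 ≤ W χ χ) ∧ ∀ χ, ∑ ψ, W χ ψ = P * A χ := by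
  have h1 := fun χ => galMean_real hζ hM (hc.mem χ χ) (hc.herm χ χ).symm
  have h2 := fun χ ψ => galMean_normSq_int hζ (hc.mem χ ψ)
  choose A S hA hr hS hAS using h1
  choose W hW hW0 hW1 using h2
  refine ⟨A, W, hA, hr, hW, hW0, hW1, fun χ => ?_, fun χ => ?_⟩
  · have : S χ = W χ χ := Int.cast_injective (α := ℂ) ((hS χ).symm.trans (hW χ χ))
    exact this ▸ hAS χ
  · apply Int.cast_injective (α := ℂ)
    have h := congrArg (galMean k) (hc.square χ)
    rw [map_sum, galMean_intCast_mul, hA, Finset.sum_congr rfl fun ψ _ => hW χ ψ] at h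
    push_cast
    exact h

/-- The members of height zero alone. -/
theorem Contribution.height_zero (hc : Contribution ζ P K) (hM : IsPModular 2 M)
    (hζ : IsPrimitiveRoot ζ (2 * 2 ^ k)) (hP : 0 < P) (S : Finset ι)
    (hS : ∀ χ ∈ S, ∀ ψ ∈ S, redC M (K χ ψ) ≠ 0) :
    ∃ A : ι → ℤ, (∀ χ, galMean k (K χ χ) = A χ) ∧ (∀ χ, 0 ≤ A χ) ∧
      ∀ χ ∈ S, 1 ≤ A χ ∧ Odd (A χ) ∧ A χ ^ 2 + ((S.card : ℤ) - 1) ≤ P * A χ := by
  classical
  obtain ⟨A, W, hA, hr, -, hW0, hW1, hAW, hsum⟩ := hc.exists_means hM hζ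
  have h0 : ∀ χ, 0 ≤ A χ := fun χ => nonneg_of_mul_nonneg_right
    ((hsum χ).symm ▸ Finset.sum_nonneg fun ψ _ => hW0 χ ψ) hP
  refine ⟨A, hA, h0, fun χ hχ => ?_⟩
  haveI := resField_charP (M := M) hM
  have hodd : Odd (A χ) := Int.not_even_iff_odd.1 fun he => hS χ hχ χ hχ (by
    rw [hr, CharP.intCast_eq_zero_iff (ResField M) 2]
    exact even_iff_two_dvd.1 he)
  refine ⟨?_, hodd, ?_⟩
  · have := h0 χ
    obtain ⟨t, ht⟩ := hodd
    omega
  rw [← hsum χ]
  refine le_trans ?_ (Finset.sum_le_sum_of_subset_of_nonneg (Finset.subset_univ S)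
    fun ψ _ _ => hW0 χ ψ)
  rw [← Finset.add_sum_erase _ _ hχ]
  refine add_le_add (hAW χ) ?_
  rw [show (S.card : ℤ) - 1 = ((S.erase χ).card : ℤ) by
    rw [← Finset.card_erase_add_one hχ]; push_cast; ring,
    Finset.card_eq_sum_ones, Nat.cast_sum, Nat.cast_one]
  exact Finset.sum_le_sum fun ψ hψ => hW1 χ ψ fun h =>
    hS χ hχ ψ (Finset.mem_of_mem_erase hψ) (by rw [h, redC_zero])

/-- The valuations given by the heights. -/
structure Valued (B : Finset ι) (h : ι → ℕ) (K : ι → ι → ℂ) (M : Ideal AlgInt) [M.IsPrime] :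
    Prop where
  mem : ∀ χ ∈ B, ∀ ψ, K χ ψ / (2 : ℂ) ^ h χ ∈ locRing M
  unit : ∀ χ ∈ B, ∀ ψ ∈ B, h ψ = 0 → redC M (K χ ψ / (2 : ℂ) ^ h χ) ≠ 0
  diag : ∀ χ ∈ B, h χ ≠ 0 → redC M (K χ χ / (2 : ℂ) ^ h χ) = 0

/-- The diagonal mean at positive height. -/
theorem Contribution.diag_ge (hc : Contribution ζ P K) (hM : IsPModular 2 M)
    (hζ : IsPrimitiveRoot ζ (2 * 2 ^ k)) (hP : 0 < P) {B : Finset ι} {h : ι → ℕ}
    (hv : Valued B h K M) {χ₀ : ι} (h₀ : χ₀ ∈ B) (h00 : h χ₀ = 0) {χ : ι} (hχ : χ ∈ B) {A : ℤ}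
    (hA : galMean k (K χ χ) = A) (hh : h χ ≠ 0) : 2 ^ (h χ + 1) ≤ A ∧ A ≤ P := by
  obtain ⟨A', W, hA', -, -, hW0, hW1, hAW, hsum⟩ := hc.exists_means hM hζ
  obtain rfl : A' χ = A := Int.cast_injective (α := ℂ) ((hA' χ).symm.trans hA)
  have hne : K χ χ₀ ≠ 0 := fun he => hv.unit χ hχ χ₀ h₀ h00 (by rw [he, zero_div, redC_zero])
  have hpos : 0 < A' χ := by
    have h1 : (1 : ℤ) ≤ P * A' χ := hsum χ ▸ (hW1 χ χ₀ hne).trans
      (Finset.single_le_sum (fun ψ _ => hW0 χ ψ) (Finset.mem_univ χ₀))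
    exact pos_of_mul_pos_right (by omega) hP.le
  have hle : A' χ ≤ P := by
    have h1 : A' χ ^ 2 ≤ P * A' χ := hsum χ ▸ (hAW χ).trans
      (Finset.single_le_sum (fun ψ _ => hW0 χ ψ) (Finset.mem_univ χ))
    exact le_of_mul_le_mul_right (by rwa [sq] at h1) hpos
  obtain ⟨m, hm, hme⟩ := exists_eq_two_pow_mul hM hζ (hc.mem χ χ) _ (hv.mem χ hχ χ)
  have h2 : (2 : ℂ) ^ h χ ≠ 0 := pow_ne_zero _ two_ne_zero
  have hmr : conj m = m := by
    have e := (hc.herm χ χ).symm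
    rw [hme, map_mul, map_pow, map_ofNat] at e
    exact mul_left_cancel₀ h2 e
  obtain ⟨a, -, ha, hra, -, -⟩ := galMean_real hζ hM hm hmr
  have hAa : A' χ = 2 ^ h χ * a := by
    apply Int.cast_injective (α := ℂ)
    rw [← hA' χ, hme, show (2 : ℂ) ^ h χ = (((2 : ℤ) ^ h χ : ℤ) : ℂ) by norm_num,
      galMean_intCast_mul, ha]
    push_cast; rfl
  have hd := hv.diag χ hχ hh
  rw [hme, mul_div_cancel_left₀ m h2, hra] at hd
  haveI := resField_charP (M := M) hM
  obtain ⟨t, rfl⟩ := (CharP.intCast_eq_zero_iff (ResField M) 2 a).1 hd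
  rw [Nat.cast_ofNat] at hAa
  refine ⟨?_, hle⟩
  rw [hAa, pow_succ]
  refine mul_le_mul_of_nonneg_left ?_ (pow_nonneg zero_le_two _)
  have : 0 < 2 * t := pos_of_mul_pos_right (hAa ▸ hpos) (pow_nonneg zero_le_two _)
  omega

/-- A diagonal mean one. -/
theorem Contribution.bound_of_one (hc : Contribution ζ P K) (hM : IsPModular 2 M)
    (hζ : IsPrimitiveRoot ζ (2 * 2 ^ k)) {B : Finset ι} {h : ι → ℕ} (hv : Valued B h K M) {χ₀ : ι}
    (h₀ : χ₀ ∈ B) (h00 : h χ₀ = 0) (hA : galMean k (K χ₀ χ₀) = 1) :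
    ∑ ψ ∈ B, (4 : ℤ) ^ h ψ ≤ P := by
  obtain ⟨A, W, hA', -, hW, hW0, hW1, -, hsum⟩ := hc.exists_means hM hζ
  have e : A χ₀ = 1 := by
    apply Int.cast_injective (α := ℂ)
    rw [← hA' χ₀, hA, Int.cast_one]
  rw [← mul_one P, ← e, ← hsum χ₀]
  refine le_trans (Finset.sum_le_sum fun ψ hψ => ?_) (Finset.sum_le_sum_of_subset_of_nonneg
    (Finset.subset_univ B) fun ψ _ _ => hW0 χ₀ ψ)
  obtain ⟨m, hm, hme⟩ := exists_eq_two_pow_mul hM hζ (hc.mem ψ χ₀) _ (hv.mem ψ hψ χ₀)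
  have hm0 : m ≠ 0 := fun h0 => hv.unit ψ hψ χ₀ h₀ h00 (by rw [hme, h0, mul_zero, zero_div, redC_zero])
  obtain ⟨z, hz, -, hz1⟩ := galMean_normSq_int hζ hm
  have he : W χ₀ ψ = 4 ^ h ψ * z := by
    apply Int.cast_injective (α := ℂ)
    rw [← hW, hc.herm ψ χ₀, Complex.conj_conj, mul_comm, hme, map_mul (starRingEnd ℂ),
      map_pow, map_ofNat, mul_mul_mul_comm, ← mul_pow,
      show ((2 : ℂ) * 2) ^ h ψ = (((4 : ℤ) ^ h ψ : ℤ) : ℂ) by norm_num, galMean_intCast_mul, hz]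
    push_cast; rfl
  rw [he]
  exact le_mul_of_one_le_right (pow_nonneg (by norm_num) _) (hz1 hm0)

open scoped Classical in
/-- The quantity of the bound. -/
noncomputable def weight (B : Finset ι) (h : ι → ℕ) : ℤ :=
  ∑ χ ∈ B, if h χ = 0 then 3 else 2 ^ (h χ + 1)

theorem weight_le_three_mul (B : Finset ι) (h : ι → ℕ) :
    weight B h ≤ 3 * ∑ χ ∈ B, (4 : ℤ) ^ h χ := by
  rw [weight, Finset.mul_sum]
  refine Finset.sum_le_sum fun χ _ => ?_
  split_ifs with h0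
  · rw [h0]; norm_num
  · have h1 : (2 : ℤ) ^ h χ ≤ 4 ^ h χ := pow_le_pow_left₀ (by norm_num) (by norm_num) _
    have h2 : (0 : ℤ) ≤ 2 ^ h χ := by positivity
    rw [pow_succ]; linarith

theorem three_mul_card_le_weight (B : Finset ι) (h : ι → ℕ) : 3 * (B.card : ℤ) ≤ weight B h := by
  rw [weight, Finset.card_eq_sum_ones, Nat.cast_sum, Finset.mul_sum]
  refine Finset.sum_le_sum fun χ _ => ?_
  split_ifs with h0
  · norm_num
  · have h1 : (2 : ℤ) ^ 2 ≤ 2 ^ (h χ + 1) := pow_le_pow_right₀ (by norm_num) (by omega)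
    push_cast; linarith

/-- The bound from the trace. -/
theorem Contribution.bound_of_trace (hc : Contribution ζ P K) (hM : IsPModular 2 M)
    (hζ : IsPrimitiveRoot ζ (2 * 2 ^ k)) (hP : 0 < P) {B : Finset ι} {h : ι → ℕ}
    (hv : Valued B h K M) {χ₀ : ι} (h₀ : χ₀ ∈ B) (h00 : h χ₀ = 0) {r : ℤ}
    (hr : galMean k (∑ χ ∈ B, K χ χ) = r) (hr3 : r ≤ 3 * P) : weight B h ≤ 3 * P := by
  classical
  have hunit : ∀ χ ∈ B.filter (fun χ => h χ = 0), ∀ ψ ∈ B.filter (fun χ => h χ = 0),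
      redC M (K χ ψ) ≠ 0 := fun χ hχ ψ hψ => by
    simp only [Finset.mem_filter] at hχ hψ
    have := hv.unit χ hχ.1 ψ hψ.1 hψ.2
    rwa [hχ.2, pow_zero, div_one] at this
  obtain ⟨A, hA, -, hA1⟩ := hc.height_zero hM hζ hP _ hunit
  by_cases h1 : ∃ χ ∈ B, h χ = 0 ∧ A χ = 1
  · obtain ⟨χ, hχ, hh, he⟩ := h1
    have hone : galMean k (K χ χ) = 1 := by rw [hA χ, he, Int.cast_one]
    have := hc.bound_of_one hM hζ hv hχ hh hone
    linarith [weight_le_three_mul B h]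
  push Not at h1
  refine le_trans ?_ hr3
  have e : r = ∑ χ ∈ B, A χ := by
    apply Int.cast_injective (α := ℂ)
    rw [← hr, map_sum, Int.cast_sum]
    exact Finset.sum_congr rfl fun χ _ => hA χ
  rw [e, weight]
  refine Finset.sum_le_sum fun χ hχ => ?_
  split_ifs with h0
  · obtain ⟨hge, ⟨t, ht⟩, -⟩ := hA1 χ (Finset.mem_filter.2 ⟨hχ, h0⟩)
    have := h1 χ hχ h0
    omega
  · exact (hc.diag_ge hM hζ hP hv h₀ h00 hχ (hA χ) h0).1

end Abstract

section Subsection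

variable {G : Type u} [Group G] [Fintype G] {x : G}
  [Fintype (Subgroup.centralizer ({x} : Set G))]
  {b : Set (IrrCharacter (Subgroup.centralizer ({x} : Set G)))} {B : Set (IrrCharacter G)} {d : ℕ}

variable (x) in
/-- The scaled contributions. -/
noncomputable def contrib (b : Set (IrrCharacter (Subgroup.centralizer ({x} : Set G))))
    (d : ℕ) (χ ψ : IrrCharacter G) : ℂ :=
  (2 : ℂ) ^ d * classInner (sectionMap 2 x b (χ : G → ℂ)) (sectionMap 2 x b (ψ : G → ℂ))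

theorem contrib_data (hM : IsPModular 2 M) (hx : IsPElem 2 x) (hb : IsPBlock M b)
    (hd : blockDefect 2 b = d) :
    ∃ (k : ℕ) (ζ : ℂ), IsPrimitiveRoot ζ (2 * 2 ^ k) ∧
      Contribution ζ ((2 : ℤ) ^ d) (contrib x b d) ∧
      ∑ χ : IrrCharacter G, contrib x b d χ χ = (((blockRank 2 b : ℤ) * 2 ^ d : ℤ) : ℂ) := by
  classical
  obtain ⟨k, ζ, n, Q, C, hζ, hmem, hgram, hform, hQC, hsym, -, -, -⟩ :=
    exists_sectionData hM hx hb hd
  have hf : ∀ χ ψ, contrib x b d χ ψ = ∑ i, ∑ j, n χ i * (Q i j : ℂ) * conj (n ψ j) := fun χ ψ => by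
    rw [← hform, contrib]; norm_num
  have hherm : ∀ χ ψ, contrib x b d ψ χ = conj (contrib x b d χ ψ) := fun χ ψ => by
    rw [contrib, contrib, map_mul, map_pow, map_ofNat, ← Char.classInner_conj_symm]
  have hQC' : ∀ i l, ∑ j, (Q i j : ℂ) * (C j l : ℂ) = if i = l then (2 : ℂ) ^ d else 0 := fun i l => by
    have h := congrArg (Int.cast : ℤ → ℂ) (congrFun (congrFun hQC i) l)
    simp only [Matrix.mul_apply, Matrix.smul_apply, Matrix.one_apply, smul_eq_mul, mul_ite, mul_one,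
      mul_zero, Int.cast_sum, Int.cast_mul, apply_ite (Int.cast : ℤ → ℂ), Int.cast_zero] at h
    simpa using h
  set N : Matrix (IrrCharacter G) (Fin (blockRank 2 b)) ℂ := Matrix.of n with hN
  set Kc : Matrix (IrrCharacter G) (IrrCharacter G) ℂ :=
    N * Q.map (Int.cast : ℤ → ℂ) * N.conjTranspose with hKc
  have hKe : ∀ χ ψ, Kc χ ψ = contrib x b d χ ψ := fun χ ψ => by
    rw [hf, hKc]
    simp only [Matrix.mul_apply, Matrix.map_apply, Matrix.conjTranspose_apply, hN, Matrix.of_apply,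
      Finset.sum_mul, Complex.star_def]
    exact Finset.sum_comm
  have hNN : N.conjTranspose * N = C.map (Int.cast : ℤ → ℂ) := by
    ext i j
    rw [Matrix.mul_apply, Matrix.map_apply, show C i j = C j i from congrFun (congrFun hsym j) i,
      ← hgram j i]
    refine Finset.sum_congr rfl fun χ _ => ?_
    rw [Matrix.conjTranspose_apply, Complex.star_def]
    simp only [hN, Matrix.of_apply]
    ring
  have hQCc : Q.map (Int.cast : ℤ → ℂ) * C.map (Int.cast : ℤ → ℂ) = ((2 : ℂ) ^ d) • 1 := by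
    ext i l
    rw [Matrix.mul_apply]
    simp only [Matrix.map_apply, hQC', Matrix.smul_apply, Matrix.one_apply, smul_eq_mul, mul_ite,
      mul_one, mul_zero]
  refine ⟨k, ζ, hζ, ⟨fun χ ψ => ?_, hherm, fun χ => ?_⟩, ?_⟩
  · rw [hf]
    exact sum_mem fun i _ => sum_mem fun j _ => mul_mem_cycSpan
      (mul_mem_cycSpan (hmem χ i) (intCast_mem_cycSpan ζ _)) (conj_mem_cycSpan hζ (hmem ψ j))
  · have hsq : Kc * Kc = ((2 : ℂ) ^ d) • Kc := by
      calc Kc * Kc = N * (Q.map (Int.cast : ℤ → ℂ) * (N.conjTranspose * N)) *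
            (Q.map (Int.cast : ℤ → ℂ) * N.conjTranspose) := by simp only [hKc, Matrix.mul_assoc]
        _ = _ := by
          rw [hNN, hQCc, Matrix.mul_smul, Matrix.mul_one, Matrix.smul_mul, ← Matrix.mul_assoc]
    have h := congrFun (congrFun hsq χ) χ
    simp only [Matrix.mul_apply, Matrix.smul_apply, smul_eq_mul, hKe] at h
    simp only [← hherm]
    push_cast
    exact h
  · have h : Kc.trace = ((blockRank 2 b : ℕ) : ℂ) * (2 : ℂ) ^ d := by
      rw [hKc, Matrix.trace_mul_comm, ← Matrix.mul_assoc, hNN, Matrix.trace_mul_comm, hQCc,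
        Matrix.trace_smul, Matrix.trace_one, Fintype.card_fin, smul_eq_mul, mul_comm]
    simp only [Matrix.trace, Matrix.diag_apply, hKe] at h
    rw [h]; push_cast; rfl

/-- The scaled degree over the power of two of the height is a unit. -/
theorem degUnit_div_facts (hM : IsPModular 2 M) (hB : IsPBlock M B) (hd : blockDefect 2 B = d)
    {χ : IrrCharacter G} (hχ : χ ∈ B) :
    degUnit 2 d χ / (2 : ℂ) ^ blockHeight 2 B (χ : G → ℂ) ∈ locRing M ∧
      redC M (degUnit 2 d χ / (2 : ℂ) ^ blockHeight 2 B (χ : G → ℂ)) ≠ 0 := by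
  haveI : Fact (Nat.Prime 2) := ⟨Nat.prime_two⟩
  obtain ⟨φ, hφ, h0⟩ := exists_height_zero hB 2
  have hda := blockDefect_eq_of_min (p := 2) hφ h0
  have hle := le_of_height_zero h0 hχ
  have hle' := factorization_charDegree_le φ 2
  set h := blockHeight 2 B (χ : G → ℂ) with hh
  have hheight : h = (charDegree (χ : G → ℂ)).factorization 2 -
      (charDegree (φ : G → ℂ)).factorization 2 := by
    have hinf : sInf ((fun ψ : IrrCharacter G => (charDegree (ψ : G → ℂ)).factorization 2) '' B) =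
        (charDegree (φ : G → ℂ)).factorization 2 :=
      le_antisymm (Nat.sInf_le ⟨φ, hφ, rfl⟩) (by rw [blockHeight] at h0; omega)
    rw [hh, blockHeight, hinf]
  have h2d : (2 ^ d : ℕ) ≠ 0 := pow_ne_zero _ two_ne_zero
  have h2h : (2 ^ h : ℕ) ≠ 0 := pow_ne_zero _ two_ne_zero
  have e : degUnit 2 d χ / (2 : ℂ) ^ h =
      ((2 ^ d * charDegree (χ : G → ℂ) : ℕ) : ℂ) / ((2 ^ h * Nat.card G : ℕ) : ℂ) := by
    rw [degUnit, div_div]; push_cast; ring
  have hval : (2 ^ d * charDegree (χ : G → ℂ)).factorization 2 =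
      (2 ^ h * Nat.card G).factorization 2 := by
    rw [Nat.factorization_mul h2d (charDegree_pos χ).ne', Nat.factorization_mul h2h Nat.card_pos.ne',
      Finsupp.add_apply, Finsupp.add_apply, Nat.prime_two.factorization_pow,
      Nat.prime_two.factorization_pow, Finsupp.single_eq_same, Finsupp.single_eq_same]
    omega
  have hf := natDiv_aux (M := M) hM (mul_ne_zero h2d (charDegree_pos χ).ne')
    (mul_ne_zero h2h Nat.card_pos.ne') hval.ge
  rw [e]
  exact ⟨hf.1, fun hc => absurd (hf.2.1 hc) (by rw [hval]; exact lt_irrefl _)⟩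

/-- The valuations of the contributions of a subsection of full defect. -/
theorem valued_contrib (hM : IsPModular 2 M) (hx : IsPElem 2 x)
    (hind : IsInducedBlock M (Subgroup.centralizer ({x} : Set G)) b B)
    (hd : blockDefect 2 b = d) (hBd : blockDefect 2 B = d) [DecidablePred (· ∈ B)] :
    Valued (Finset.univ.filter (· ∈ B)) (fun χ => blockHeight 2 B (χ : G → ℂ)) (contrib x b d) M := by
  haveI : Fact (Nat.Prime 2) := ⟨Nat.prime_two⟩
  have key : ∀ χ, χ ∈ B → ∀ ψ, ∃ a : MonoidAlgebra ℂ G, IsClassCoeff a ∧ IntR M a ∧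
      contrib x b d χ ψ / (2 : ℂ) ^ blockHeight 2 B (χ : G → ℂ) =
        degUnit 2 d χ / (2 : ℂ) ^ blockHeight 2 B (χ : G → ℂ) * omega (χ : G → ℂ) a ∧
      ∀ φ, contrib x b d φ ψ = degUnit 2 d φ * omega (φ : G → ℂ) a := by
    intro χ _ ψ
    obtain ⟨a, hac, haR, hkey⟩ := exists_contrib_omega hM hx hind d ψ
    have hk : ∀ φ, contrib x b d φ ψ = degUnit 2 d φ * omega (φ : G → ℂ) a := fun φ => by
      rw [← hkey φ, contrib]; norm_num
    exact ⟨a, hac, haR, by rw [hk]; ring, hk⟩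
  have hunit : ∀ χ ∈ B, ∀ ψ ∈ B, blockHeight 2 B (ψ : G → ℂ) = 0 →
      redC M (contrib x b d χ ψ / (2 : ℂ) ^ blockHeight 2 B (χ : G → ℂ)) ≠ 0 := by
    intro χ hχ ψ hψ hψ0
    obtain ⟨a, hac, haR, he, hk⟩ := key χ hχ ψ
    obtain ⟨χ₀, hχ₀, h00⟩ := exists_height_zero hind.2.1 2
    rw [he, redC_mul (degUnit_div_facts hM hind.2.1 hBd hχ).1 (omega_mem_locRing χ hac haR)]
    refine mul_ne_zero (degUnit_div_facts hM hind.2.1 hBd hχ).2 fun h0 => ?_
    have h1 := redC_contrib_ne_zero hM hx hind hd hχ₀ hψ h00 hψ0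
    refine h1 ?_
    rw [show ((2 : ℕ) : ℂ) ^ d * classInner (sectionMap 2 x b (χ₀ : G → ℂ))
        (sectionMap 2 x b (ψ : G → ℂ)) = contrib x b d χ₀ ψ by rw [contrib]; norm_num, hk,
      redC_mul (degUnit_facts hM hind.2.1 hBd hχ₀).1 (omega_mem_locRing χ₀ hac haR),
      redC_omega_eq_of_sameBlock (sameBlock_of_mem hind.2.1 hχ₀ hχ) hac haR, h0, mul_zero]
  refine ⟨fun χ hχ ψ => ?_, fun χ hχ ψ hψ => hunit χ (Finset.mem_filter.1 hχ).2 ψ
    (Finset.mem_filter.1 hψ).2, fun χ hχ hh => ?_⟩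
  · have hχB := (Finset.mem_filter.1 hχ).2
    obtain ⟨a, hac, haR, he, -⟩ := key χ hχB ψ
    rw [he]
    exact mul_mem (degUnit_div_facts hM hind.2.1 hBd hχB).1 (omega_mem_locRing χ hac haR)
  · have hχB := (Finset.mem_filter.1 hχ).2
    obtain ⟨a, hac, haR, he, hk⟩ := key χ hχB χ
    obtain ⟨χ₀, hχ₀, h00⟩ := exists_height_zero hind.2.1 2
    rw [he, redC_mul (degUnit_div_facts hM hind.2.1 hBd hχB).1 (omega_mem_locRing χ hac haR)]
    refine mul_eq_zero_of_right _ ?_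
    -- the value at a member of height zero
    obtain ⟨k, ζ, hζ, hc, -⟩ := contrib_data hM hx hind.1 hd
    obtain ⟨a', hac', haR', -, hk'⟩ := key χ hχB χ₀
    have h1 : redC M (contrib x b d χ₀ χ) = 0 := by
      rw [hc.herm χ χ₀, redC_conj_eq hζ hM (hc.mem χ χ₀), hk',
        redC_mul (degUnit_facts hM hind.2.1 hBd hχB).1 (omega_mem_locRing χ hac' haR'),
        redC_degUnit_eq_zero hM hind.2.1 hBd hχB hh, zero_mul]
    rw [hk, redC_mul (degUnit_facts hM hind.2.1 hBd hχ₀).1 (omega_mem_locRing χ₀ hac haR),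
      redC_omega_eq_of_sameBlock (sameBlock_of_mem hind.2.1 hχ₀ hχB) hac haR] at h1
    exact (mul_eq_zero.1 h1).resolve_left ((degUnit_facts hM hind.2.1 hBd hχ₀).2 h00)

theorem contrib_eq_zero (hM : IsPModular 2 M) (hx : IsPElem 2 x)
    (hind : IsInducedBlock M (Subgroup.centralizer ({x} : Set G)) b B) {χ ψ : IrrCharacter G}
    (h : χ ∉ B ∨ ψ ∉ B) : contrib x b d χ ψ = 0 := by
  rcases h with h | h <;> simp [contrib, classInner, sectionMap_eq_zero hM hx hind h]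

/-- A major subsection of rank at most three, or of corank at most three. -/
theorem weight_le_of_major (hM : IsPModular 2 M) (hx : IsPElem 2 x)
    (hind : IsInducedBlock M (Subgroup.centralizer ({x} : Set G)) b B)
    (hd : blockDefect 2 b = d) (hBd : blockDefect 2 B = d) [DecidablePred (· ∈ B)]
    (hl : blockRank 2 b ≤ 3 ∨ Nat.card B ≤ blockRank 2 b + 3) :
    weight (Finset.univ.filter (· ∈ B)) (fun χ : IrrCharacter G => blockHeight 2 B (χ : G → ℂ)) ≤
      3 * 2 ^ d := by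
  classical
  obtain ⟨k, ζ, hζ, hc, htr⟩ := contrib_data hM hx hind.1 hd
  have hv := valued_contrib hM hx hind hd hBd
  obtain ⟨χ₀, hχ₀, h00⟩ := exists_height_zero hind.2.1 2
  set BF := Finset.univ.filter (· ∈ B) with hBF
  set P : ℤ := 2 ^ d with hP
  have hP0 : 0 < P := pow_pos two_pos d
  have h₀ : χ₀ ∈ BF := Finset.mem_filter.2 ⟨Finset.mem_univ _, hχ₀⟩
  have htrB : ∑ χ ∈ BF, contrib x b d χ χ = (((blockRank 2 b : ℤ) * P : ℤ) : ℂ) := by
    rw [← htr, Finset.sum_subset (Finset.subset_univ BF) fun χ _ hχ => contrib_eq_zero hM hx hind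
      (Or.inl fun h => hχ (Finset.mem_filter.2 ⟨Finset.mem_univ _, h⟩))]
  by_cases hl3 : blockRank 2 b ≤ 3
  · refine hc.bound_of_trace hM hζ hP0 hv h₀ h00 (r := (blockRank 2 b : ℤ) * P)
      (by rw [htrB, galMean_intCast hζ]) ?_
    exact mul_le_mul_of_nonneg_right (by exact_mod_cast hl3) hP0.le
  have hk3 : Nat.card B ≤ blockRank 2 b + 3 := hl.resolve_left hl3
  obtain ⟨A, W, hA, -, -, -, -, -, -⟩ := hc.exists_means hM hζ
  by_cases h1 : galMean k (contrib x b d χ₀ χ₀) = 1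
  · have := hc.bound_of_one hM hζ hv h₀ h00 h1
    linarith [weight_le_three_mul BF fun χ : IrrCharacter G => blockHeight 2 B (χ : G → ℂ)]
  -- the complementary matrix
  set K' : IrrCharacter G → IrrCharacter G → ℂ := fun χ ψ =>
    (if χ = ψ ∧ χ ∈ B then (P : ℂ) else 0) - contrib x b d χ ψ with hK'
  have hc' : Contribution ζ P K' := by
    refine ⟨fun χ ψ => sub_mem (by split_ifs <;> [exact intCast_mem_cycSpan ζ P; exact zero_mem _])
      (hc.mem χ ψ), fun χ ψ => ?_, fun χ => ?_⟩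
    · simp only [hK', map_sub, ← hc.herm χ ψ]
      by_cases h : χ = ψ
      · subst h; split_ifs <;> simp
      · simp [h, Ne.symm h]
    · by_cases hχ : χ ∈ B
      · rw [← Finset.add_sum_erase _ _ (Finset.mem_univ χ)]
        have hsq := hc.square χ
        rw [← Finset.add_sum_erase _ _ (Finset.mem_univ χ)] at hsq
        rw [Finset.sum_congr rfl fun ψ hψ => show K' χ ψ * conj (K' χ ψ) =
            contrib x b d χ ψ * conj (contrib x b d χ ψ) by
          simp only [hK']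
          rw [if_neg fun h => Finset.ne_of_mem_erase hψ h.1.symm]
          simp]
        simp only [hK', hχ, and_self, if_true, map_sub, map_intCast]
        linear_combination hsq + (P : ℂ) * hc.herm χ χ
      · have h0 : ∀ ψ, K' χ ψ = 0 := fun ψ => by
          simp [hK', hχ, contrib_eq_zero hM hx hind (ψ := ψ) (Or.inl hχ)]
        simp [h0]
  have hdiag : ∀ χ ∈ BF, blockHeight 2 B (χ : G → ℂ) < d ∨ blockHeight 2 B (χ : G → ℂ) = 0 := by
    intro χ hχ
    by_cases h0 : blockHeight 2 B (χ : G → ℂ) = 0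
    · exact Or.inr h0
    · left
      obtain ⟨hlo, hhi⟩ := hc.diag_ge hM hζ hP0 hv h₀ h00 hχ (hA χ) h0
      have h2 : ((2 : ℕ) : ℤ) ^ (blockHeight 2 B (χ : G → ℂ) + 1) ≤ ((2 : ℕ) : ℤ) ^ d := by
        push_cast; exact hlo.trans hhi
      exact (Nat.pow_le_pow_iff_right (a := 2) (by norm_num)).1 (by exact_mod_cast h2)
  have hd1 : d ≠ 0 := by
    intro hd0
    refine h1 ?_
    have hunit : ∀ χ ∈ ({χ₀} : Finset (IrrCharacter G)), ∀ ψ ∈ ({χ₀} : Finset (IrrCharacter G)),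
        redC M (contrib x b d χ ψ) ≠ 0 := fun χ hχ ψ hψ => by
      obtain rfl := Finset.mem_singleton.1 hχ
      obtain rfl := Finset.mem_singleton.1 hψ
      have := hv.unit _ h₀ _ h₀ h00
      simp only [h00, pow_zero, div_one] at this
      exact this
    obtain ⟨A', hA', -, hA1⟩ := hc.height_zero hM hζ hP0 _ hunit
    obtain ⟨hge, -, hle⟩ := hA1 χ₀ (Finset.mem_singleton_self _)
    rw [hA']
    simp only [hP, hd0, Finset.card_singleton, pow_zero, one_mul, Nat.cast_one] at hle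
    have : A' χ₀ = 1 := by nlinarith
    exact_mod_cast this
  have hPdiv : ∀ χ ∈ BF, (P : ℂ) / (2 : ℂ) ^ blockHeight 2 B (χ : G → ℂ) ∈ locRing M ∧
      redC M ((P : ℂ) / (2 : ℂ) ^ blockHeight 2 B (χ : G → ℂ)) = 0 := by
    intro χ hχ
    have hlt : blockHeight 2 B (χ : G → ℂ) < d :=
      (hdiag χ hχ).elim id fun h => h ▸ Nat.pos_of_ne_zero hd1
    obtain ⟨t, ht⟩ := Nat.exists_eq_add_of_lt hlt
    have e : (P : ℂ) / (2 : ℂ) ^ blockHeight 2 B (χ : G → ℂ) = ((2 ^ (t + 1) : ℕ) : ℂ) := by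
      rw [hP, ht]; push_cast; rw [add_assoc, pow_add, mul_div_cancel_left₀ _ (pow_ne_zero _ two_ne_zero)]
    rw [e]
    exact ⟨nat_mem _, (redC_natCast_eq_zero_iff hM).2 (dvd_pow_self 2 (by omega))⟩
  have hK'eq : ∀ χ ∈ BF, ∀ ψ, K' χ ψ / (2 : ℂ) ^ blockHeight 2 B (χ : G → ℂ) =
      (if χ = ψ then (P : ℂ) / (2 : ℂ) ^ blockHeight 2 B (χ : G → ℂ) else 0) +
        (-1 : ℤ) * (contrib x b d χ ψ / (2 : ℂ) ^ blockHeight 2 B (χ : G → ℂ)) := by
    intro χ hχ ψ
    have hχB := (Finset.mem_filter.1 hχ).2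
    simp only [hK', hχB, and_true]
    split_ifs <;> push_cast <;> ring
  have hK'red : ∀ χ ∈ BF, ∀ ψ, K' χ ψ / (2 : ℂ) ^ blockHeight 2 B (χ : G → ℂ) ∈ locRing M ∧
      redC M (K' χ ψ / (2 : ℂ) ^ blockHeight 2 B (χ : G → ℂ)) =
        - redC M (contrib x b d χ ψ / (2 : ℂ) ^ blockHeight 2 B (χ : G → ℂ)) := by
    intro χ hχ ψ
    have hm := hv.mem χ hχ ψ
    have hite : (if χ = ψ then (P : ℂ) / (2 : ℂ) ^ blockHeight 2 B (χ : G → ℂ) else 0) ∈ locRing M := by
      split_ifs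
      exacts [(hPdiv χ hχ).1, zero_mem _]
    rw [hK'eq χ hχ ψ]
    refine ⟨add_mem hite (mul_mem (intCast_mem _ _) hm), ?_⟩
    rw [redC_add hite (mul_mem (intCast_mem _ _) hm), redC_mul (intCast_mem _ _) hm,
      show (((-1 : ℤ) : ℤ) : ℂ) = ((((-1 : ℤ) : ℤ) : locRing M) : ℂ) by simp, redC_coe, map_intCast]
    split_ifs
    · rw [(hPdiv χ hχ).2]; simp
    · rw [redC_zero]; simp
  have hv' : Valued BF (fun χ : IrrCharacter G => blockHeight 2 B (χ : G → ℂ)) K' M :=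
    ⟨fun χ hχ ψ => (hK'red χ hχ ψ).1,
      fun χ hχ ψ hψ h0 => by rw [(hK'red χ hχ ψ).2]; exact neg_ne_zero.2 (hv.unit χ hχ ψ hψ h0),
      fun χ hχ h0 => by rw [(hK'red χ hχ χ).2, hv.diag χ hχ h0, neg_zero]⟩
  refine hc'.bound_of_trace hM hζ hP0 hv' h₀ h00
    (r := ((BF.card : ℤ) - blockRank 2 b) * P) ?_ ?_
  · have e : ∑ χ ∈ BF, K' χ χ = ((((BF.card : ℤ) - blockRank 2 b) * P : ℤ) : ℂ) := by
      simp only [hK', Finset.sum_sub_distrib, htrB]
      rw [Finset.sum_congr rfl (g := fun _ => (P : ℂ)) fun χ hχ => by simp [(Finset.mem_filter.1 hχ).2],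
        Finset.sum_const, nsmul_eq_mul]
      push_cast; ring
    rw [e, galMean_intCast hζ]
  · refine mul_le_mul_of_nonneg_right ?_ hP0.le
    have : BF.card = Nat.card B := by
      rw [Nat.card_eq_fintype_card, hBF, ← Fintype.card_subtype]
    omega

/-- The weight in terms of the heights. -/
theorem weight_eq [DecidablePred (· ∈ B)] :
    weight (Finset.univ.filter (· ∈ B)) (fun χ : IrrCharacter G => blockHeight 2 B (χ : G → ℂ)) =
      ((3 * Nat.card {χ : IrrCharacter G // χ ∈ B ∧ blockHeight 2 B (χ : G → ℂ) = 0} +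
        2 * (∑ᶠ χ ∈ {χ : IrrCharacter G | χ ∈ B ∧ 1 ≤ blockHeight 2 B (χ : G → ℂ)},
          2 ^ blockHeight 2 B (χ : G → ℂ)) : ℕ) : ℤ) := by
  classical
  have e : {χ : IrrCharacter G | χ ∈ B ∧ 1 ≤ blockHeight 2 B (χ : G → ℂ)} =
      ↑(Finset.univ.filter fun χ : IrrCharacter G => χ ∈ B ∧ ¬ blockHeight 2 B (χ : G → ℂ) = 0) := by
    ext χ
    simp [Nat.one_le_iff_ne_zero]
  rw [e, finsum_mem_coe_finset, Nat.card_eq_fintype_card, Fintype.card_subtype, weight]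
  push_cast
  rw [Finset.card_eq_sum_ones, Nat.cast_sum, Finset.mul_sum, Finset.mul_sum,
    Finset.sum_ite, Finset.filter_filter, Finset.filter_filter]
  congr 1
  all_goals first
    | exact Finset.sum_congr rfl fun χ _ => pow_succ' 2 _
    | simp

/-- The members of height zero and any subsection. -/
theorem height_zero_bound (hM : IsPModular 2 M) (hx : IsPElem 2 x)
    (hind : IsInducedBlock M (Subgroup.centralizer ({x} : Set G)) b B)
    (hd : blockDefect 2 b = d) {s : ℕ} (hs : s = Nat.sqrt (blockRank 2 b)) :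
    (Odd s → Nat.card {χ : IrrCharacter G // χ ∈ B ∧ blockHeight 2 B (χ : G → ℂ) = 0} ≤ s * 2 ^ d) ∧
    (¬ Odd s → (s + 1) * Nat.card {χ : IrrCharacter G // χ ∈ B ∧ blockHeight 2 B (χ : G → ℂ) = 0} ≤
      blockRank 2 b * 2 ^ d) := by
  classical
  obtain ⟨k, ζ, hζ, hc, htr⟩ := contrib_data hM hx hind.1 hd
  set P : ℤ := 2 ^ d with hP
  have hP0 : 0 < P := pow_pos two_pos d
  set S := Finset.univ.filter fun χ : IrrCharacter G => χ ∈ B ∧ blockHeight 2 B (χ : G → ℂ) = 0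
    with hS
  have hcard : Nat.card {χ : IrrCharacter G // χ ∈ B ∧ blockHeight 2 B (χ : G → ℂ) = 0} = S.card := by
    rw [Nat.card_eq_fintype_card, Fintype.card_subtype]
  have hunit : ∀ χ ∈ S, ∀ ψ ∈ S, redC M (contrib x b d χ ψ) ≠ 0 := fun χ hχ ψ hψ => by
    obtain ⟨hχ, hχ0⟩ := (Finset.mem_filter.1 hχ).2
    obtain ⟨hψ, hψ0⟩ := (Finset.mem_filter.1 hψ).2
    have := redC_contrib_ne_zero hM hx hind hd hχ hψ hχ0 hψ0
    rw [contrib]
    simpa using this
  obtain ⟨A, hA, hA0, hA1⟩ := hc.height_zero hM hζ hP0 S hunit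
  set l : ℤ := (blockRank 2 b : ℤ) with hl
  have hsum : ∑ χ ∈ S, A χ ≤ l * P := by
    have e : ∑ χ : IrrCharacter G, A χ = l * P := by
      apply Int.cast_injective (α := ℂ)
      rw [Int.cast_sum, ← galMean_intCast hζ (l * P), ← htr, map_sum]
      exact Finset.sum_congr rfl fun χ _ => (hA χ).symm
    exact e ▸ Finset.sum_le_sum_of_subset_of_nonneg (Finset.subset_univ S) fun χ _ _ => hA0 χ
  have hs1 : (s : ℤ) ^ 2 ≤ l ∧ l ≤ (s : ℤ) ^ 2 + 2 * s := by
    have h1 := Nat.sqrt_le (blockRank 2 b)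
    have h2 := Nat.lt_succ_sqrt (blockRank 2 b)
    rw [← hs] at h1 h2
    constructor
    · rw [hl, sq]; exact_mod_cast h1
    · have : ((blockRank 2 b : ℕ) : ℤ) < ((s + 1) * (s + 1) : ℕ) := by exact_mod_cast h2
      push_cast at this
      rw [hl]; linarith
  have hsmall : ∀ χ ∈ S, (S.card : ℤ) ≤ P * A χ := fun χ hχ => by
    obtain ⟨h1, -, h2⟩ := hA1 χ hχ
    nlinarith
  have hlarge : ∀ c : ℤ, (∀ χ ∈ S, c ≤ A χ) → c * S.card ≤ l * P := fun c hc' => by
    refine le_trans ?_ hsum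
    rw [mul_comm, ← nsmul_eq_mul, ← Finset.sum_const]
    exact Finset.sum_le_sum hc'
  have hs0 : (0 : ℤ) ≤ s := Int.natCast_nonneg s
  have hScard : (0 : ℤ) ≤ S.card := Int.natCast_nonneg _
  rw [hcard]
  constructor
  · intro ho
    suffices (S.card : ℤ) ≤ (s : ℤ) * P by simp only [hP] at this; exact_mod_cast this
    by_cases hex : ∃ χ ∈ S, A χ ≤ s
    · obtain ⟨χ, hχ, hle⟩ := hex
      exact (hsmall χ hχ).trans (by rw [mul_comm]; exact mul_le_mul_of_nonneg_right hle hP0.le)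
    push Not at hex
    have hge : ∀ χ ∈ S, (s : ℤ) + 2 ≤ A χ := fun χ hχ => by
      obtain ⟨-, ⟨t, ht⟩, -⟩ := hA1 χ hχ
      obtain ⟨u, hu⟩ := ho
      have := hex χ hχ
      omega
    have h := hlarge _ hge
    refine le_of_mul_le_mul_left (h.trans ?_) (show (0 : ℤ) < (s : ℤ) + 2 by omega)
    rw [← mul_assoc]
    exact mul_le_mul_of_nonneg_right (by linarith [hs1.2]) hP0.le
  · intro ho
    suffices ((s : ℤ) + 1) * S.card ≤ l * P by simp only [hP, hl] at this; exact_mod_cast this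
    by_cases hex : ∃ χ ∈ S, A χ ≤ (s : ℤ) - 1
    · obtain ⟨χ, hχ, hle⟩ := hex
      have h1 : (S.card : ℤ) ≤ ((s : ℤ) - 1) * P :=
        (hsmall χ hχ).trans (by rw [mul_comm]; exact mul_le_mul_of_nonneg_right hle hP0.le)
      calc ((s : ℤ) + 1) * S.card ≤ ((s : ℤ) + 1) * (((s : ℤ) - 1) * P) :=
            mul_le_mul_of_nonneg_left h1 (by omega)
        _ = ((s : ℤ) ^ 2 - 1) * P := by ring
        _ ≤ l * P := mul_le_mul_of_nonneg_right (by linarith [hs1.1]) hP0.le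
    push Not at hex
    refine hlarge _ fun χ hχ => ?_
    obtain ⟨-, ⟨t, ht⟩, -⟩ := hA1 χ hχ
    obtain ⟨u, hu⟩ := Nat.not_odd_iff_even.1 ho
    have := hex χ hχ
    omega

end Subsection

end Cfsg.Agent.Lib.Block
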